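import Mathlib
import Cfsg.Agent.Helper9.OrdTools2

set_option autoImplicit false
set_option linter.style.haveILetI false
set_option maxHeartbeats 1000000

/-!
# Sylow subgroups of `G` inside a subgroup `X` (helper8)

* `SylSub.card_le_card_sylow`: the number of Sylow `p`-subgroups of `G` contained in `X` is at most
  the number of Sylow `p`-subgroups of `X`.
* `SylSub.card_eq_inf_normalizer_mul`: if the Sylow `p`-subgroup `P` of `G` lies in `X`, then
  `|X| = |X ∩ N(P)| · n_p(X)`.
* `SylSub.card_sylow_modEq_one`: `n_p(X) ≡ 1 (mod p)`, in the form `% p = 1`.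
-/

namespace Cfsg.Agent.Helper8

namespace SylSub

open Subgroup

variable {G : Type*} [Group G] [Finite G]

/-- the number of Sylow `p`-subgroups of `G` contained in `X` is at most `n_p(X)`. -/
theorem card_le_card_sylow (p : ℕ) [Fact p.Prime] (X : Subgroup G) :
    Nat.card {S : Sylow p G // (S : Subgroup G) ≤ X} ≤ Nat.card (Sylow p X) := by
  have hinj : Function.Injective
      (fun S : {S : Sylow p G // (S : Subgroup G) ≤ X} => S.1.subtype S.2) :=
    fun a b h => Subtype.ext (Sylow.subtype_injective h)
  exact Nat.card_le_card_of_injective _ hinj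

/-- Sylow counting in a subgroup `X` containing the Sylow subgroup `P`:
`|X| = |X ∩ N(P)| · n_p(X)`. -/
theorem card_eq_inf_normalizer_mul {p : ℕ} [Fact p.Prime] (P : Sylow p G) (X : Subgroup G)
    (hPX : (P : Subgroup G) ≤ X) :
    Nat.card X = Nat.card (X ⊓ normalizer ((P : Subgroup G) : Set G) : Subgroup G)
      * Nat.card (Sylow p X) := by
  have h2 := Sylow.card_eq_index_normalizer (P.subtype hPX)
  have h3 := (normalizer (((P : Subgroup G).subgroupOf X : Subgroup X) : Set X)).card_mul_index
  have h2' : Nat.card (Sylow p X)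
      = (normalizer (((P : Subgroup G).subgroupOf X : Subgroup X) : Set X)).index := h2
  rw [← h2'] at h3
  rw [← h3]
  congr 1
  rw [← Subgroup.subgroupOf_normalizer_eq hPX]
  have e1 : (X ⊓ normalizer ((P : Subgroup G) : Set G)).subgroupOf X
      = (normalizer ((P : Subgroup G) : Set G)).subgroupOf X :=
    Subgroup.inf_subgroupOf_left (normalizer ((P : Subgroup G) : Set G)) X
  rw [← e1]
  exact Nat.card_congr (Subgroup.subgroupOfEquivOfLe
    (inf_le_left : X ⊓ normalizer ((P : Subgroup G) : Set G) ≤ X)).toEquiv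

/-- `n_p(X) % p = 1`. -/
theorem card_sylow_mod (p : ℕ) [Fact p.Prime] (X : Subgroup G) :
    Nat.card (Sylow p X) % p = 1 := by
  have hp : p.Prime := Fact.out
  have h1 := card_sylow_modEq_one p X
  rw [Nat.ModEq, Nat.mod_eq_of_lt hp.one_lt] at h1
  exact h1

end SylSub

end Cfsg.Agent.Helper8
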