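import Cfsg.Agent.Helper9.OrdTools
import Cfsg.Prelude.Def_Characters

/-!
# Order 5040, piece REP of CALL S0978 (helper8): matrix representations of determinant one
-/

set_option autoImplicit false
set_option linter.style.haveILetI false
set_option maxHeartbeats 1000000
open Cfsg
open scoped ComplexConjugate

universe u

namespace Cfsg.Agent.Helper8

open Cfsg.Agent.Helper9.OrdTools

/-- PIECE REP: a matrix representation of determinant one affording an irreducible character. -/
theorem o5040_rep {G : Type u} [Group G] [Finite G] [IsSimpleGroup G]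
    (hna : ∃ a b : G, a * b ≠ b * a) (χ : Cfsg.IrrCharacter G) :
    ∃ (n : ℕ) (D : G →* Matrix (Fin n) (Fin n) ℂ),
      (∀ g : G, (D g).trace = (χ : G → ℂ) g) ∧ (∀ g : G, (D g).det = 1) := by
  obtain ⟨n, ρ, -, hρ⟩ := χ.2
  let D : G →* Matrix (Fin n) (Fin n) ℂ :=
    (LinearMap.toMatrixAlgEquiv' (R := ℂ) (n := Fin n)).toMulEquiv.toMonoidHom.comp ρ
  have hD : ∀ g : G, D g = LinearMap.toMatrix' (ρ g) := fun g => rfl
  refine ⟨n, D, ?_, ?_⟩
  · intro g
    rw [← hρ, hD]
    change Matrix.trace (LinearMap.toMatrix' (ρ g)) = LinearMap.trace ℂ _ (ρ g)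
    rw [LinearMap.trace_eq_matrix_trace ℂ (Pi.basisFun ℂ (Fin n)), LinearMap.toMatrix_eq_toMatrix']
  · intro g
    let d : G →* ℂ := Matrix.detMonoidHom.comp D
    have h1 := hom_trivial hna d.toHomUnits g
    have h2 : ((d.toHomUnits g : ℂˣ) : ℂ) = d g := MonoidHom.coe_toHomUnits d g
    rw [h1] at h2
    exact h2.symm

end Cfsg.Agent.Helper8
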