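import Mathlib
import Cfsg.Agent.Helper9.OrdTools2

set_option autoImplicit false
set_option linter.style.haveILetI false
set_option maxHeartbeats 1000000

/-!
# Elementary tools for the order 459648 (helper8)

* `Ord459.sylow_count_subgroup`: Sylow counting inside a subgroup containing a Sylow subgroup.
* `Ord459.no_commuting_prime`: in a simple group with Sylow `p`-subgroups of order `p`, no element
  of prime order `q ≠ p` centralizes a Sylow `p`-subgroup when `n_p < p q`.
* `Ord459.exists_sq_mem_normalizer`: normalizer condition in a `2`-group, with a square.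
* `Ord459.eq_one_of_central`: a simple non-commutative group has trivial centre.
-/

namespace Cfsg.Agent.Helper8

namespace Ord459

open Subgroup Cfsg.Agent.Helper9.OrdTools

variable {G : Type*} [Group G] [Finite G]

/-- Sylow counting in a subgroup `X` containing the Sylow subgroup `P`:
`|X| = |X ∩ N(P)| n` with `n ≡ 1 (mod p)`. -/
theorem sylow_count_subgroup {p : ℕ} [Fact p.Prime] (P : Sylow p G) (X : Subgroup G)
    (hPX : (P : Subgroup G) ≤ X) :
    ∃ n, n % p = 1 ∧
      Nat.card X = Nat.card (X ⊓ normalizer ((P : Subgroup G) : Set G) : Subgroup G) * n := by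
  have hp : p.Prime := Fact.out
  have h1 := card_sylow_modEq_one p X
  have h2 := Sylow.card_eq_index_normalizer (P.subtype hPX)
  refine ⟨Nat.card (Sylow p X), ?_, ?_⟩
  · rw [Nat.ModEq, Nat.mod_eq_of_lt hp.one_lt] at h1
    exact h1
  · have h3 := (normalizer (((P : Subgroup G).subgroupOf X : Subgroup X) : Set X)).card_mul_index
    have h2' : Nat.card (Sylow p X)
        = (normalizer (((P : Subgroup G).subgroupOf X : Subgroup X) : Set X)).index := h2
    rw [← h2'] at h3
    rw [← h3]
    congr 1
    rw [← Subgroup.subgroupOf_normalizer_eq hPX]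
    have e1 : (X ⊓ normalizer ((P : Subgroup G) : Set G)).subgroupOf X
        = (normalizer ((P : Subgroup G) : Set G)).subgroupOf X :=
      Subgroup.inf_subgroupOf_left (normalizer ((P : Subgroup G) : Set G)) X
    rw [← e1]
    exact Nat.card_congr (Subgroup.subgroupOfEquivOfLe
      (inf_le_left : X ⊓ normalizer ((P : Subgroup G) : Set G) ≤ X)).toEquiv

omit [Finite G] in
/-- a simple group with two non-commuting elements has trivial centre. -/
theorem eq_one_of_central [IsSimpleGroup G] (hna : ∃ a b : G, a * b ≠ b * a) (u : G)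
    (hu : ∀ g : G, g * u = u * g) : u = 1 := by
  have hmem : u ∈ center G := Subgroup.mem_center_iff.mpr hu
  rcases (inferInstance : (center G).Normal).eq_bot_or_eq_top with h | h
  · rw [h] at hmem
    exact Subgroup.mem_bot.mp hmem
  · exfalso
    obtain ⟨a, b, hab⟩ := hna
    apply hab
    have hb : b ∈ center G := h ▸ Subgroup.mem_top b
    exact (Subgroup.mem_center_iff.mp hb a)

/-- In a simple group whose Sylow `p`-subgroups have order `p`, an element of prime order `q ≠ p`
cannot centralize a Sylow `p`-subgroup if the number of Sylow `p`-subgroups is less than `p q`. -/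
theorem no_commuting_prime [IsSimpleGroup G] {p q : ℕ} [Fact p.Prime] (hq : q.Prime) (hpq : q ≠ p)
    (P : Sylow p G) (hP : Nat.card (P : Subgroup G) = p)
    (s : G) (hs : s ∈ centralizer ((P : Subgroup G) : Set G)) (hso : orderOf s = q)
    (h1 : 1 < Nat.card (Sylow p G)) (h2 : Nat.card (Sylow p G) < p * q) : False := by
  classical
  have hp : p.Prime := Fact.out
  -- a generator `y` of `P`
  obtain ⟨y, hyP, hy1⟩ : ∃ y : G, y ∈ (P : Subgroup G) ∧ y ≠ 1 := by
    have hlt : 1 < Nat.card (P : Subgroup G) := by rw [hP]; exact hp.one_lt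
    haveI : Nontrivial (P : Subgroup G) := Finite.one_lt_card_iff_nontrivial.mp hlt
    obtain ⟨y, hy⟩ := exists_ne (1 : (P : Subgroup G))
    exact ⟨y.1, y.2, fun h => hy (Subtype.ext h)⟩
  have hyP' : zpowers y = (P : Subgroup G) := zpowers_eq_sylow P hP hyP hy1
  have hyo : orderOf y = p := by
    rw [← Nat.card_zpowers, hyP', hP]
  have hcomm : Commute s y := by
    have := Subgroup.mem_centralizer_iff.mp hs y hyP
    exact this.symm
  have hcop : Nat.Coprime q p := (Nat.coprime_primes hq hp).mpr hpq
  have hwo : orderOf (s * y) = q * p := by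
    have := hcomm.orderOf_mul_eq_mul_orderOf_of_coprime (by rw [hso, hyo]; exact hcop)
    rw [this, hso, hyo]
  -- `s` fixes every Sylow `p`-subgroup
  have hfix : ∀ Q : Sylow p G, s • Q = Q := by
    intro Q
    rw [Sylow.smul_eq_iff_mem_normalizer]
    by_cases hQP : Q = P
    · rw [hQP]
      exact Subgroup.centralizer_le_normalizer _ hs
    · -- orbit-stabilizer for the cyclic group generated by `s * y`
      have hos : Nat.card (MulAction.orbit (zpowers (s * y)) Q)
          * Nat.card (MulAction.stabilizer (zpowers (s * y)) Q) = Nat.card (zpowers (s * y)) := by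
        rw [← Nat.card_prod]
        exact Nat.card_congr (MulAction.orbitProdStabilizerEquivGroup (zpowers (s * y)) Q)
      rw [Nat.card_zpowers, hwo] at hos
      have horb : Nat.card (MulAction.orbit (zpowers (s * y)) Q) ≤ Nat.card (Sylow p G) :=
        Nat.card_le_card_of_injective (fun x => x.1) Subtype.coe_injective
      have hstab : 1 < Nat.card (MulAction.stabilizer (zpowers (s * y)) Q) := by
        by_contra hle
        have hpos : 0 < Nat.card (MulAction.stabilizer (zpowers (s * y)) Q) := Nat.card_pos
        have h1' : Nat.card (MulAction.stabilizer (zpowers (s * y)) Q) = 1 := by omega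
        rw [h1', mul_one] at hos
        have : q * p = p * q := mul_comm _ _
        omega
      haveI : Nontrivial (MulAction.stabilizer (zpowers (s * y)) Q) :=
        Finite.one_lt_card_iff_nontrivial.mp hstab
      obtain ⟨a, ha⟩ := exists_ne (1 : MulAction.stabilizer (zpowers (s * y)) Q)
      have ha1 : (a.1 : G) ≠ 1 := by
        intro h
        apply ha
        apply Subtype.ext
        apply Subtype.ext
        exact h
      have hastab : (a.1 : G) • Q = Q := by
        have := MulAction.mem_stabilizer_iff.mp a.2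
        exact this
      have haN : (a.1 : G) ∈ normalizer ((Q : Subgroup G) : Set G) :=
        Sylow.smul_eq_iff_mem_normalizer.mp hastab
      obtain ⟨k, hk⟩ := (mem_powers_iff_mem_zpowers.mpr a.1.2)
      have hk' : (s * y) ^ k = (a.1 : G) := hk
      have hak : (a.1 : G) = s ^ k * y ^ k := by
        rw [← hk', hcomm.mul_pow]
      -- the `q`-th power is a `p`-element of `N(Q)`
      have haq : (a.1 : G) ^ q = y ^ (k * q) := by
        rw [hak, (hcomm.pow_pow k k).mul_pow, ← pow_mul, ← pow_mul, mul_comm k q, pow_mul s,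
          ← hso, pow_orderOf_eq_one, one_pow, one_mul]
      have hyq : y ^ (k * q) ∈ normalizer ((Q : Subgroup G) : Set G) := by
        rw [← haq]
        exact pow_mem haN _
      have hyq1 : y ^ (k * q) = 1 := by
        by_contra hne
        have hz : IsPGroup p (zpowers (y ^ (k * q))) := by
          have hle : zpowers (y ^ (k * q)) ≤ (P : Subgroup G) :=
            (Subgroup.zpowers_le).mpr (pow_mem hyP _)
          exact P.2.to_le hle
        have hle := mem_sylow_of_mem_normalizer Q hz ((Subgroup.zpowers_le).mpr hyq)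
        have hmemQ : y ^ (k * q) ∈ (Q : Subgroup G) := hle (Subgroup.mem_zpowers _)
        have hQcard : Nat.card (Q : Subgroup G) = p := by
          rw [Sylow.card_eq_multiplicity Q, ← Sylow.card_eq_multiplicity P, hP]
        have e1 := zpowers_eq_sylow Q hQcard hmemQ hne
        have e2 := zpowers_eq_sylow P hP (pow_mem hyP (k * q)) hne
        exact hQP (Sylow.ext (e1.symm.trans e2))
      have hpk : p ∣ k := by
        have : orderOf y ∣ k * q := orderOf_dvd_of_pow_eq_one hyq1
        rw [hyo] at this
        rcases (Nat.Prime.dvd_mul hp).mp this with h | h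
        · exact h
        · exact absurd ((Nat.prime_dvd_prime_iff_eq hp hq).mp h).symm hpq
      have hyk : y ^ k = 1 := by
        rw [← hyo] at hpk
        exact orderOf_dvd_iff_pow_eq_one.mp hpk
      rw [hyk, mul_one] at hak
      -- `s` is a power of `s ^ k`
      have hsk1 : s ^ k ≠ 1 := by rw [← hak]; exact ha1
      have hkq : Nat.Coprime k q := by
        rw [Nat.coprime_comm, Nat.Prime.coprime_iff_not_dvd hq]
        intro hdvd
        apply hsk1
        rw [← hso] at hdvd
        exact orderOf_dvd_iff_pow_eq_one.mp hdvd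
      obtain ⟨m, -, hm⟩ := Nat.exists_mul_mod_eq_one_of_coprime hkq hq.one_lt
      have hs' : (s ^ k) ^ m = s := by
        rw [← pow_mul, ← pow_mod_orderOf, hso, hm, pow_one]
      rw [← hs', ← hak]
      exact pow_mem haN m
  have hs1 : s = 1 := eq_one_of_smul_sylow h1 s hfix
  rw [hs1, orderOf_one] at hso
  exact hq.one_lt.ne hso

/-- normalizer condition in a `2`-group, with an element whose square lies in the subgroup. -/
theorem exists_sq_mem_normalizer (S T : Subgroup G) (hS : IsPGroup 2 S) (hTS : T ≤ S)
    (hne : T ≠ S) :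
    ∃ g : G, g ∈ S ∧ g ∉ T ∧ g ^ 2 ∈ T ∧ ∀ u : G, u ∈ T → g * u * g⁻¹ ∈ T := by
  classical
  haveI : Fact (Nat.Prime 2) := ⟨Nat.prime_two⟩
  haveI : Group.IsNilpotent S := hS.isNilpotent
  have hlt : T.subgroupOf S < ⊤ := by
    rw [lt_top_iff_ne_top]
    intro h
    apply hne
    apply le_antisymm hTS
    intro x hx
    have : (⟨x, hx⟩ : S) ∈ T.subgroupOf S := h ▸ Subgroup.mem_top _
    exact Subgroup.mem_subgroupOf.mp this
  have hnc := Group.normalizerCondition_of_isNilpotent (G := S) (T.subgroupOf S) hlt
  obtain ⟨g₀, hg₀N, hg₀T⟩ := SetLike.exists_of_lt hnc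
  obtain ⟨k, hk⟩ := hS g₀
  have hex : ∃ i : ℕ, g₀ ^ 2 ^ i ∈ T.subgroupOf S := ⟨k, by rw [hk]; exact one_mem _⟩
  have hi0 : Nat.find hex ≠ 0 := by
    intro h0
    have := Nat.find_spec hex
    rw [h0, pow_zero, pow_one] at this
    exact hg₀T this
  obtain ⟨j, hj⟩ := Nat.exists_eq_succ_of_ne_zero hi0
  have hjlt : j < Nat.find hex := by omega
  have hnot := Nat.find_min hex hjlt
  have hspec := Nat.find_spec hex
  rw [hj, Nat.succ_eq_add_one, pow_succ, pow_mul] at hspec
  have hgN : g₀ ^ 2 ^ j ∈ normalizer ((T.subgroupOf S : Subgroup S) : Set S) := pow_mem hg₀N _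
  refine ⟨((g₀ ^ 2 ^ j : S) : G), (g₀ ^ 2 ^ j).2, ?_, ?_, ?_⟩
  · intro h
    exact hnot (Subgroup.mem_subgroupOf.mpr h)
  · have := Subgroup.mem_subgroupOf.mp hspec
    simpa using this
  · intro u hu
    have h1 := (Subgroup.mem_normalizer_iff.mp hgN ⟨u, hTS hu⟩).mp (Subgroup.mem_subgroupOf.mpr hu)
    have h2 := Subgroup.mem_subgroupOf.mp h1
    simpa using h2

/-- in a subgroup `T` with a subgroup `K` of index two, the product of two elements outside `K`
lies in `K`. -/
theorem mul_mem_of_card_two_mul {K T : Subgroup G} (hKT : K ≤ T)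
    (h : Nat.card T = 2 * Nat.card K) {u v : G} (hu : u ∈ T) (hv : v ∈ T) (huK : u ∉ K)
    (hvK : v ∉ K) : u * v ∈ K := by
  have hidx : (K.subgroupOf T).index = 2 := by
    have h1 := (K.subgroupOf T).card_mul_index
    rw [Nat.card_congr (Subgroup.subgroupOfEquivOfLe hKT).toEquiv, h] at h1
    have hK : 0 < Nat.card K := Nat.card_pos
    have : Nat.card K * (K.subgroupOf T).index = Nat.card K * 2 := by rw [h1]; ring
    exact Nat.eq_of_mul_eq_mul_left hK this
  have key := Subgroup.mul_mem_iff_of_index_two hidx (a := (⟨u, hu⟩ : T)) (b := ⟨v, hv⟩)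
  have h1 : (⟨u, hu⟩ : T) * ⟨v, hv⟩ ∈ K.subgroupOf T := by
    rw [key]
    constructor
    · intro h; exact absurd (Subgroup.mem_subgroupOf.mp h) huK
    · intro h; exact absurd (Subgroup.mem_subgroupOf.mp h) hvK
  exact Subgroup.mem_subgroupOf.mp h1

end Ord459

end Cfsg.Agent.Helper8
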