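import Mathlib
import Cfsg.Agent.Helper8.Ord459A

set_option autoImplicit false
set_option linter.style.haveILetI false
set_option maxHeartbeats 1000000

/-!
# Order 459648, the case `|N(P)| = 456`, `|C(P)| = 76` (helper8)

Elementary `2`-local argument: `C(P) = P × K` with `|K| = 4`; some `t ∈ K` is centralized by a
Sylow `2`-subgroup `T` of `N(P)`, `C_G(t) ≤ N(P)`, `T = C_S(t)` is abelian, and then `N_S(T) = T`.
-/

namespace Cfsg.Agent.Helper8

namespace Ord459

open Subgroup Cfsg.Agent.Helper9.OrdTools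

variable {G : Type*} [Group G] [Finite G]

theorem arith_d : ∀ d, d ∣ 456 → 8 ∣ d → 19 ∣ d → d = 152 ∨ d = 456 := by
  intro d hd
  have hle : d ≤ 456 := Nat.le_of_dvd (by norm_num) hd
  revert hd
  have key : ∀ d ≤ 456, d ∣ 456 → 8 ∣ d → 19 ∣ d → d = 152 ∨ d = 456 := by
    decide +kernel
  exact key d hle

theorem arith_n1008 : ∀ n, n ∣ 1008 → n % 19 = 1 → n = 1 ∨ n = 1008 := by
  intro n hn
  have hle : n ≤ 1008 := Nat.le_of_dvd (by norm_num) hn
  revert hn
  have key : ∀ n ≤ 1008, n ∣ 1008 → n % 19 = 1 → n = 1 ∨ n = 1008 := by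
    decide +kernel
  exact key n hle

theorem div16 : ∀ a ≤ 16, a ∣ 16 → a ∈ ([1, 2, 4, 8, 16] : List ℕ) := by decide +kernel

theorem div128 : ∀ a ≤ 128, a ∣ 128 → a ∈ ([1, 2, 4, 8, 16, 32, 64, 128] : List ℕ) := by
  decide +kernel

theorem div189 : ∀ b ≤ 189, b ∣ 189 → b ∈ ([1, 3, 7, 9, 21, 27, 63, 189] : List ℕ) := by
  decide +kernel

theorem arith_n3024_aux : ∀ a ∈ ([1, 2, 4, 8, 16] : List ℕ),
    ∀ b ∈ ([1, 3, 7, 9, 21, 27, 63, 189] : List ℕ), (a * b) % 19 = 1 →
    a * b = 1 ∨ a * b = 1008 := by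
  decide +kernel

theorem arith_n3024 : ∀ n, n ∣ 3024 → n % 19 = 1 → n = 1 ∨ n = 1008 := by
  intro n hn hmod
  have h3024 : (3024 : ℕ) = 16 * 189 := by norm_num
  rw [h3024] at hn
  obtain ⟨a, b, ha, hb, rfl⟩ := (Nat.dvd_mul).mp hn
  exact arith_n3024_aux a (div16 a (Nat.le_of_dvd (by norm_num) ha) ha) b
    (div189 b (Nat.le_of_dvd (by norm_num) hb) hb) hmod

theorem arith_sylow_aux : ∀ a ∈ ([1, 2, 4, 8, 16, 32, 64, 128] : List ℕ),
    ∀ b ∈ ([1, 3, 7, 9, 21, 27, 63, 189] : List ℕ), (a * b) % 19 = 1 →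
    a * b = 1 ∨ a * b = 96 ∨ a * b = 1008 := by
  decide +kernel

theorem arith_sylow : ∀ n, n ∣ 24192 → n % 19 = 1 → n = 1 ∨ n = 96 ∨ n = 1008 := by
  intro n hn hmod
  have h : (24192 : ℕ) = 128 * 189 := by norm_num
  rw [h] at hn
  obtain ⟨a, b, ha, hb, rfl⟩ := (Nat.dvd_mul).mp hn
  exact arith_sylow_aux a (div128 a (Nat.le_of_dvd (by norm_num) ha) ha) b
    (div189 b (Nat.le_of_dvd (by norm_num) hb) hb) hmod

theorem arith_deg1 : ∀ f ≤ 677, 2 ≤ f → f ∣ 459648 → f % 19 = 1 → f = 96 := by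
  decide +kernel

theorem arith_degm : ∀ f ≤ 677, 2 ≤ f → f ∣ 459648 → (f + 1) % 19 = 0 →
    f = 18 ∨ f = 56 ∨ f = 189 := by
  decide +kernel

theorem not_dvd_list : ∀ D ∈ ([193, 79, 41, 92, 35, 73, 206, 111, 244, 377, 97, 17, 55, 188] :
    List ℕ), ¬ D ∣ 459648 := by
  decide

omit [Finite G] in
/-- a simple group with a proper nontrivial Sylow subgroup is not abelian. -/
theorem exists_not_comm' [IsSimpleGroup G] {p : ℕ} [Fact p.Prime] (P : Sylow p G)
    (h1 : 1 < Nat.card (P : Subgroup G)) (h2 : Nat.card (P : Subgroup G) < Nat.card G) :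
    ∃ a b : G, a * b ≠ b * a := by
  by_contra hcon
  push Not at hcon
  have hn : (P : Subgroup G).Normal :=
    ⟨fun n hn g => by rw [hcon g n, mul_inv_cancel_right]; exact hn⟩
  rcases hn.eq_bot_or_eq_top with h | h
  · rw [h, Subgroup.card_bot] at h1; omega
  · rw [h, Subgroup.card_top] at h2; omega

/-- a subgroup generated by an abelian subgroup of index two and a central element outside it
is abelian. -/
theorem abel_of_index_two {K T : Subgroup G} (hKT : K ≤ T)
    (h : Nat.card T = 2 * Nat.card K) (hK : ∀ a ∈ K, ∀ b ∈ K, a * b = b * a)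
    (z : G) (hzT : z ∈ T) (hzK : z ∉ K) (hz : ∀ u ∈ T, u * z = z * u) :
    ∀ u ∈ T, ∀ v ∈ T, u * v = v * u := by
  have hsplit : ∀ u ∈ T, u ∈ K ∨ u * z ∈ K := by
    intro u hu
    by_cases huK : u ∈ K
    · exact Or.inl huK
    · exact Or.inr (mul_mem_of_card_two_mul hKT h hu hzT huK hzK)
  intro u hu v hv
  rcases hsplit u hu with hu' | hu' <;> rcases hsplit v hv with hv' | hv'
  · exact hK u hu' v hv'
  · have h1 := hK u hu' (v * z) hv'
    have h2 : u * v * z = v * u * z := by
      calc u * v * z = u * (v * z) := by group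
        _ = v * z * u := h1
        _ = v * (z * u) := by group
        _ = v * (u * z) := by rw [hz u hu]
        _ = v * u * z := by group
    exact mul_right_cancel h2
  · have h1 := hK (u * z) hu' v hv'
    have h2 : u * v * z = v * u * z := by
      calc u * v * z = u * (v * z) := by group
        _ = u * (z * v) := by rw [hz v hv]
        _ = u * z * v := by group
        _ = v * (u * z) := h1
        _ = v * u * z := by group
    exact mul_right_cancel h2
  · have h1 := hK (u * z) hu' (v * z) hv'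
    have h2 : u * v * (z * z) = v * u * (z * z) := by
      calc u * v * (z * z) = u * (v * z) * z := by group
        _ = u * (z * v) * z := by rw [hz v hv]
        _ = u * z * (v * z) := by group
        _ = v * z * (u * z) := h1
        _ = v * (z * u) * z := by group
        _ = v * (u * z) * z := by rw [hz u hu]
        _ = v * u * (z * z) := by group
    exact mul_right_cancel h2

/-- if `K` of order four has index two in `T`, some nonidentity element of `K` is central in
`T`. -/
theorem fixed_in_K {K T : Subgroup G} (hKT : K ≤ T)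
    (hT : Nat.card T = 8) (hK : Nat.card K = 4) :
    (∀ a ∈ K, ∀ b ∈ K, a * b = b * a) ∧
      ∃ t, t ∈ K ∧ t ≠ 1 ∧ ∀ v ∈ T, v * t = t * v := by
  haveI : Fact (Nat.Prime 2) := ⟨Nat.prime_two⟩
  have h2 : Nat.card T = 2 * Nat.card K := by rw [hT, hK]
  have hKab : ∀ a ∈ K, ∀ b ∈ K, a * b = b * a := by
    intro a ha b hb
    have hc : Nat.card K = 2 ^ 2 := by rw [hK]; norm_num
    have := (IsPGroup.isMulCommutative_of_card_eq_prime_sq hc).is_comm.comm
      (⟨a, ha⟩ : K) ⟨b, hb⟩
    exact congrArg Subtype.val this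
  refine ⟨hKab, ?_⟩
  -- an element `w` of `T` outside `K`
  have hlt : K < T := by
    refine lt_of_le_of_ne hKT ?_
    intro h
    rw [h] at hK
    omega
  obtain ⟨w, hwT, hwK⟩ := SetLike.exists_of_lt hlt
  have hwinvK : w⁻¹ ∉ K := fun h => hwK (by simpa using K.inv_mem h)
  have hconj : ∀ u ∈ K, w * u * w⁻¹ ∈ K := by
    intro u hu
    have h1 : u * w⁻¹ ∉ K := by
      intro h
      apply hwinvK
      have := K.mul_mem (K.inv_mem hu) h
      simpa using this
    have := mul_mem_of_card_two_mul hKT h2 hwT (T.mul_mem (hKT hu) (T.inv_mem hwT)) hwK h1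
    simpa [mul_assoc] using this
  have hww : w * w ∈ K := mul_mem_of_card_two_mul hKT h2 hwT hwT hwK hwK
  have hcc : ∀ u ∈ K, w * (w * u * w⁻¹) * w⁻¹ = u := by
    intro u hu
    have h1 := hKab (w * w) hww u hu
    calc w * (w * u * w⁻¹) * w⁻¹ = (w * w * u) * (w⁻¹ * w⁻¹) := by group
      _ = (u * (w * w)) * (w⁻¹ * w⁻¹) := by rw [h1]
      _ = u := by group
  -- reduce to finding `t ∈ K` commuting with `w`
  have hred : ∀ t, t ∈ K → t ≠ 1 → w * t = t * w → ∃ t, t ∈ K ∧ t ≠ 1 ∧ ∀ v ∈ T, v * t = t * v := by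
    intro t htK ht1 hwt
    refine ⟨t, htK, ht1, ?_⟩
    intro v hv
    by_cases hvK : v ∈ K
    · exact hKab v hvK t htK
    · have hvw : v * w ∈ K := mul_mem_of_card_two_mul hKT h2 hv hwT hvK hwK
      have h1 := hKab (v * w) hvw t htK
      have h3 : v * t * w = t * v * w := by
        calc v * t * w = v * (t * w) := by group
          _ = v * (w * t) := by rw [hwt]
          _ = v * w * t := by group
          _ = t * (v * w) := h1
          _ = t * v * w := by group
      exact mul_right_cancel h3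
  by_cases hex : ∃ u ∈ K, u * (w * u * w⁻¹) ≠ 1
  · obtain ⟨u, hu, hne⟩ := hex
    refine hred (u * (w * u * w⁻¹)) (K.mul_mem hu (hconj u hu)) hne ?_
    have h1 := hcc u hu
    have h3 := hKab u hu (w * u * w⁻¹) (hconj u hu)
    calc w * (u * (w * u * w⁻¹)) = (w * u * w⁻¹) * (w * (w * u * w⁻¹) * w⁻¹) * w := by group
      _ = (w * u * w⁻¹) * u * w := by rw [h1]
      _ = u * (w * u * w⁻¹) * w := by rw [h3]
  · push Not at hex
    -- conjugation by `w` inverts `K`; take an involution
    have hdvd : 2 ∣ Nat.card K := by rw [hK]; norm_num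
    obtain ⟨x, hx⟩ := exists_prime_orderOf_dvd_card' 2 hdvd
    have hx1 : (x : G) ≠ 1 := by
      intro h
      have : x = 1 := Subtype.ext h
      rw [this, orderOf_one] at hx
      omega
    have hx2 : (x : G) * (x : G) = 1 := by
      have := pow_orderOf_eq_one x
      rw [hx] at this
      have h' := congrArg Subtype.val this
      simpa [pow_two] using h'
    refine hred (x : G) x.2 hx1 ?_
    have h1 := hex (x : G) x.2
    have h4 : w * (x : G) * w⁻¹ = (x : G) := by
      have : (x : G) * (w * (x : G) * w⁻¹) = (x : G) * (x : G) := by rw [h1, hx2]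
      exact mul_left_cancel this
    calc w * (x : G) = (w * (x : G) * w⁻¹) * w := by group
      _ = (x : G) * w := by rw [h4]

end Ord459

end Cfsg.Agent.Helper8
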