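import Mathlib
import Cfsg.Agent.Helper8.Ord459B

set_option autoImplicit false
set_option linter.style.haveILetI false
set_option maxHeartbeats 1000000

/-!
# Order 459648, the case `|N(P)| = 456`, `|C(P)| = 76`: the main argument (helper8)
-/

namespace Cfsg.Agent.Helper8

namespace Ord459

open Subgroup Cfsg.Agent.Helper9.OrdTools

variable {G : Type*} [Group G] [Finite G]

/-- a central involution of a nontrivial `2`-subgroup. -/
theorem exists_central_involution (S : Subgroup G) (k : ℕ) (hS : Nat.card S = 2 ^ (k + 1)) :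
    ∃ z, z ∈ S ∧ z ≠ 1 ∧ z * z = 1 ∧ ∀ g ∈ S, g * z = z * g := by
  haveI : Fact (Nat.Prime 2) := ⟨Nat.prime_two⟩
  have hp : IsPGroup 2 S := IsPGroup.of_card hS
  haveI : Nontrivial S := by
    apply Finite.one_lt_card_iff_nontrivial.mp
    rw [hS]
    exact Nat.one_lt_two_pow (by omega)
  haveI : Nontrivial (Subgroup.center S) := hp.center_nontrivial
  have hc1 : 1 < Nat.card (Subgroup.center S) :=
    Finite.one_lt_card_iff_nontrivial.mpr inferInstance
  have hdvd : Nat.card (Subgroup.center S) ∣ 2 ^ (k + 1) :=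
    hS ▸ Subgroup.card_subgroup_dvd_card _
  have h2 : 2 ∣ Nat.card (Subgroup.center S) := by
    obtain ⟨j, -, hj'⟩ := (Nat.dvd_prime_pow Nat.prime_two).mp hdvd
    rw [hj'] at hc1 ⊢
    cases j with
    | zero => simp at hc1
    | succ j => exact Dvd.intro_left _ (pow_succ 2 j).symm
  obtain ⟨x, hx⟩ := exists_prime_orderOf_dvd_card' 2 h2
  refine ⟨((x : S) : G), (x : S).2, ?_, ?_, ?_⟩
  · intro h
    have hx1 : x = 1 := Subtype.ext (Subtype.ext h)
    rw [hx1, orderOf_one] at hx
    omega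
  · have h1 := pow_orderOf_eq_one x
    rw [hx, pow_two] at h1
    have h3 := congrArg (fun y : Subgroup.center S => ((y : S) : G)) h1
    simpa using h3
  · intro g hg
    have h1 := Subgroup.mem_center_iff.mp x.2 ⟨g, hg⟩
    exact congrArg Subtype.val h1

/-- the key step: the centralizer of a nonidentity element `u` of `C(P)` centralized by `T`
meets `S` in `T`. -/
theorem cent_in_T [IsSimpleGroup G] (hG : Nat.card G = 459648) (P : Sylow 19 G)
    (hP : Nat.card (P : Subgroup G) = 19)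
    (hN : Nat.card (normalizer ((P : Subgroup G) : Set G)) = 456)
    (S T : Subgroup G) (hTS : T ≤ S) (hTN : T ≤ normalizer ((P : Subgroup G) : Set G))
    (hT : Nat.card T = 8) (hS : Nat.card S = 128)
    (u : G) (hu1 : u ≠ 1) (huP : ∀ x ∈ (P : Subgroup G), x * u = u * x)
    (huT : ∀ v ∈ T, v * u = u * v) :
    ∀ g ∈ S, g * u = u * g → g ∈ T := by
  haveI : Fact (Nat.Prime 19) := ⟨by norm_num⟩
  obtain ⟨X, hXdef⟩ : ∃ X : Subgroup G, X = centralizer ({u} : Set G) := ⟨_, rfl⟩
  have hmemX : ∀ x, x ∈ X ↔ x * u = u * x := by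
    intro x
    rw [hXdef, Subgroup.mem_centralizer_iff]
    constructor
    · intro h; exact (h u rfl).symm
    · intro h y hy; rw [Set.mem_singleton_iff.mp hy]; exact h.symm
  have hPX : (P : Subgroup G) ≤ X := fun x hx => (hmemX x).mpr (huP x hx)
  have hTX : T ≤ X := fun x hx => (hmemX x).mpr (huT x hx)
  obtain ⟨n, hn19, hXcard⟩ := sylow_count_subgroup P X hPX
  obtain ⟨N, hNdef⟩ : ∃ N, N = normalizer ((P : Subgroup G) : Set G) := ⟨_, rfl⟩
  rw [← hNdef] at hN hTN hXcard
  have hPN : (P : Subgroup G) ≤ N := hNdef ▸ Subgroup.le_normalizer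
  have hd1 : Nat.card (X ⊓ N : Subgroup G) ∣ 456 := hN ▸ Subgroup.card_dvd_of_le inf_le_right
  have hd2 : 8 ∣ Nat.card (X ⊓ N : Subgroup G) := hT ▸ Subgroup.card_dvd_of_le (le_inf hTX hTN)
  have hd3 : 19 ∣ Nat.card (X ⊓ N : Subgroup G) :=
    hP ▸ Subgroup.card_dvd_of_le (le_inf hPX hPN)
  have hXG : Nat.card X ∣ 459648 := hG ▸ Subgroup.card_subgroup_dvd_card X
  have hna : ∃ a b : G, a * b ≠ b * a :=
    exists_not_comm' P (by rw [hP]; norm_num) (by rw [hP, hG]; norm_num)
  have hXcases : Nat.card X = 152 ∨ Nat.card X = 456 := by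
    rcases arith_d _ hd1 hd2 hd3 with hd | hd
    · rw [hd] at hXcard
      have hn' : n ∣ 3024 := by
        rw [hXcard] at hXG
        have h3 : (459648 : ℕ) = 152 * 3024 := by norm_num
        rw [h3] at hXG
        exact Nat.dvd_of_mul_dvd_mul_left (by norm_num) hXG
      rcases arith_n3024 n hn' hn19 with h1 | h1
      · left; rw [hXcard, h1]
      · exfalso
        rw [h1] at hXcard
        have hidx : X.index = 3 := by
          have := X.card_mul_index
          rw [hXcard, hG] at this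
          omega
        have hXtop : X ≠ ⊤ := by
          intro h
          rw [h, Subgroup.card_top, hG] at hXcard
          omega
        have := card_dvd_factorial_index X hXtop
        rw [hidx, hG] at this
        norm_num [Nat.factorial] at this
    · rw [hd] at hXcard
      have hn' : n ∣ 1008 := by
        rw [hXcard] at hXG
        have h3 : (459648 : ℕ) = 456 * 1008 := by norm_num
        rw [h3] at hXG
        exact Nat.dvd_of_mul_dvd_mul_left (by norm_num) hXG
      rcases arith_n1008 n hn' hn19 with h1 | h1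
      · right; rw [hXcard, h1]
      · exfalso
        rw [h1] at hXcard
        have hXtop : X = ⊤ := by
          apply (Subgroup.card_eq_iff_eq_top X).mp
          rw [hXcard, hG]
        apply hu1
        apply eq_one_of_central hna u
        intro g
        exact (hmemX g).mp (hXtop ▸ Subgroup.mem_top g)
  intro g hgS hgu
  have hgX : g ∈ X := (hmemX g).mpr hgu
  have hTle : T ≤ S ⊓ X := le_inf hTS hTX
  have hc1 : Nat.card (S ⊓ X : Subgroup G) ∣ 128 := hS ▸ Subgroup.card_dvd_of_le inf_le_left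
  have hc2 : Nat.card (S ⊓ X : Subgroup G) ∣ Nat.card X := Subgroup.card_dvd_of_le inf_le_right
  have hc3 : Nat.card (S ⊓ X : Subgroup G) ∣ 8 := by
    rcases hXcases with h | h
    · rw [h] at hc2
      have := Nat.dvd_gcd hc1 hc2
      norm_num at this
      exact this
    · rw [h] at hc2
      have := Nat.dvd_gcd hc1 hc2
      norm_num at this
      exact this
  have hle : Nat.card (S ⊓ X : Subgroup G) ≤ Nat.card T := by
    rw [hT]; exact Nat.le_of_dvd (by norm_num) hc3
  have heq : T = S ⊓ X := Subgroup.eq_of_le_of_card_ge hTle hle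
  rw [heq]
  exact ⟨hgS, hgX⟩

/-- in a group of order four, all non-trivial squares coincide. -/
theorem sq_eq_of_card_four {K : Subgroup G} (hK : Nat.card K = 4) {k : G} (hk : k ∈ K)
    (hkk : k * k ≠ 1) {v : G} (hv : v ∈ K) (hvv : v * v ≠ 1) : v * v = k * k := by
  classical
  have hdvd : orderOf k ∣ 4 := hK ▸ Subgroup.orderOf_dvd_natCard K hk
  have hk4 : k ^ 4 = 1 := orderOf_dvd_iff_pow_eq_one.mp hdvd
  have ho : orderOf k = 4 := by
    have hle : orderOf k ≤ 4 := Nat.le_of_dvd (by norm_num) hdvd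
    have hpos : 0 < orderOf k := Nat.pos_of_dvd_of_pos hdvd (by norm_num)
    have h1 : orderOf k ≠ 1 := by
      intro h
      rw [orderOf_eq_one_iff] at h
      exact hkk (by rw [h, mul_one])
    have h2 : orderOf k ≠ 2 := by
      intro h
      have := pow_orderOf_eq_one k
      rw [h, pow_two] at this
      exact hkk this
    have h3 : orderOf k ≠ 3 := by
      intro h
      rw [h] at hdvd
      norm_num at hdvd
    omega
  have hzp : zpowers k = K := by
    apply Subgroup.eq_of_le_of_card_ge ((zpowers_le).mpr hk)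
    rw [Nat.card_zpowers, ho, hK]
  have hv' : v ∈ zpowers k := hzp ▸ hv
  rw [mem_zpowers_iff_mem_range_orderOf, ho] at hv'
  obtain ⟨n, hn, rfl⟩ := Finset.mem_image.mp hv'
  have hn4 : n < 4 := Finset.mem_range.mp hn
  interval_cases n
  · exact absurd (by simp) hvv
  · simp
  · exfalso
    apply hvv
    rw [← pow_add]
    exact hk4
  · calc k ^ 3 * k ^ 3 = k ^ 4 * (k * k) := by group
      _ = k * k := by rw [hk4, one_mul]

/-- Case A: `K` has an element of order four; then `g` centralizes its square. -/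
theorem caseA {K T : Subgroup G} (hKT : K ≤ T) (hT : Nat.card T = 8) (hK : Nat.card K = 4)
    (hTab : ∀ u ∈ T, ∀ v ∈ T, u * v = v * u) (z : G) (hzT : z ∈ T) (hzK : z ∉ K)
    (hzz : z * z = 1) (g : G) (hgn : ∀ u ∈ T, g * u * g⁻¹ ∈ T)
    (k : G) (hk : k ∈ K) (hkk : k * k ≠ 1) :
    g * (k * k) = (k * k) * g := by
  have h2 : Nat.card T = 2 * Nat.card K := by rw [hT, hK]
  have hvT : g * k * g⁻¹ ∈ T := hgn k (hKT hk)
  have hvv : (g * k * g⁻¹) * (g * k * g⁻¹) = g * (k * k) * g⁻¹ := by group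
  have hvv1 : (g * k * g⁻¹) * (g * k * g⁻¹) ≠ 1 := by
    rw [hvv]
    intro h
    apply hkk
    have : k * k = g⁻¹ * (g * (k * k) * g⁻¹) * g := by group
    rw [this, h]
    group
  have key : (g * k * g⁻¹) * (g * k * g⁻¹) = k * k := by
    by_cases hvK : g * k * g⁻¹ ∈ K
    · exact sq_eq_of_card_four hK hk hkk hvK hvv1
    · have hvz : g * k * g⁻¹ * z ∈ K := mul_mem_of_card_two_mul hKT h2 hvT hzT hvK hzK
      have hc := hTab z hzT (g * k * g⁻¹) hvT
      have e : (g * k * g⁻¹ * z) * (g * k * g⁻¹ * z) = (g * k * g⁻¹) * (g * k * g⁻¹) := by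
        calc (g * k * g⁻¹ * z) * (g * k * g⁻¹ * z)
            = (g * k * g⁻¹) * (z * (g * k * g⁻¹)) * z := by group
          _ = (g * k * g⁻¹) * ((g * k * g⁻¹) * z) * z := by rw [hc]
          _ = (g * k * g⁻¹) * (g * k * g⁻¹) * (z * z) := by group
          _ = (g * k * g⁻¹) * (g * k * g⁻¹) := by rw [hzz, mul_one]
      rw [← e]
      exact sq_eq_of_card_four hK hk hkk hvz (by rw [e]; exact hvv1)
  rw [hvv] at key
  calc g * (k * k) = (g * (k * k) * g⁻¹) * g := by group
    _ = (k * k) * g := by rw [key]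

/-- Case B: `K` has exponent two; then `g` centralizes a nonidentity element of `K`. -/
theorem caseB {K T : Subgroup G} (hKT : K ≤ T) (hT : Nat.card T = 8) (hK : Nat.card K = 4)
    (hTab : ∀ u ∈ T, ∀ v ∈ T, u * v = v * u) (z : G) (hzT : z ∈ T) (hzK : z ∉ K)
    (hzz : z * z = 1) (g : G) (hg2 : g ^ 2 ∈ T) (hgn : ∀ u ∈ T, g * u * g⁻¹ ∈ T)
    (hexp : ∀ k ∈ K, k * k = 1) :
    ∃ u ∈ K, u ≠ 1 ∧ g * u = u * g := by
  haveI : Fact (Nat.Prime 2) := ⟨Nat.prime_two⟩
  have h2 : Nat.card T = 2 * Nat.card K := by rw [hT, hK]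
  by_contra hcon
  push Not at hcon
  -- `T` has exponent two
  have hTexp : ∀ u ∈ T, u * u = 1 := by
    intro u hu
    by_cases huK : u ∈ K
    · exact hexp u huK
    · have huz : u * z ∈ K := mul_mem_of_card_two_mul hKT h2 hu hzT huK hzK
      have h1 := hexp _ huz
      have hc := hTab z hzT u hu
      calc u * u = u * u * (z * z) := by rw [hzz, mul_one]
        _ = u * (u * z) * z := by group
        _ = u * (z * u) * z := by rw [hc]
        _ = (u * z) * (u * z) := by group
        _ = 1 := h1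
  have hψT : ∀ u ∈ T, g * u * g⁻¹ * u ∈ T := fun u hu => T.mul_mem (hgn u hu) hu
  have hψc : ∀ u ∈ T, g * (g * u * g⁻¹ * u) = (g * u * g⁻¹ * u) * g := by
    intro u hu
    have hs : g * g * u = u * (g * g) := by
      have := hTab (g ^ 2) hg2 u hu
      rwa [pow_two] at this
    have hc := hTab u hu (g * u * g⁻¹) (hgn u hu)
    calc g * (g * u * g⁻¹ * u) = (g * g * u) * g⁻¹ * u := by group
      _ = (u * (g * g)) * g⁻¹ * u := by rw [hs]
      _ = u * (g * u * g⁻¹) * g := by group
      _ = (g * u * g⁻¹) * u * g := by rw [hc]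
      _ = (g * u * g⁻¹ * u) * g := by group
  have hψK : ∀ u ∈ K, u ≠ 1 → g * u * g⁻¹ * u ∉ K := by
    intro u hu hu1 hmem
    by_cases h1 : g * u * g⁻¹ * u = 1
    · apply hcon u hu hu1
      have huu := hexp u hu
      have h3 : g * u * g⁻¹ = u := by
        calc g * u * g⁻¹ = (g * u * g⁻¹ * u) * u⁻¹ := by group
          _ = u⁻¹ := by rw [h1, one_mul]
          _ = u := inv_eq_of_mul_eq_one_left huu
      calc g * u = (g * u * g⁻¹) * g := by group
        _ = u * g := by rw [h3]
    · exact hcon _ hmem h1 (hψc u (hKT hu))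
  -- two distinct nonidentity elements of `K`
  obtain ⟨a, haK, ha1⟩ : ∃ a : G, a ∈ K ∧ a ≠ 1 := by
    have hlt : 1 < Nat.card K := by rw [hK]; norm_num
    haveI : Nontrivial K := Finite.one_lt_card_iff_nontrivial.mp hlt
    obtain ⟨y, hy⟩ := exists_ne (1 : K)
    exact ⟨y.1, y.2, fun h => hy (Subtype.ext h)⟩
  have hoa : orderOf a = 2 := orderOf_eq_prime (by rw [pow_two]; exact hexp a haK) ha1
  have hlt : zpowers a < K := by
    refine lt_of_le_of_ne ((zpowers_le).mpr haK) ?_
    intro h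
    have := Nat.card_zpowers a
    rw [h, hK, hoa] at this
    omega
  obtain ⟨b, hbK, hbz⟩ := SetLike.exists_of_lt hlt
  have hb1 : b ≠ 1 := fun h => hbz (h ▸ one_mem _)
  have hab1 : a * b ≠ 1 := by
    intro h
    apply hbz
    rw [eq_inv_of_mul_eq_one_right h]
    exact Subgroup.inv_mem _ (mem_zpowers a)
  have hA := hψK a haK ha1
  have hB := hψK b hbK hb1
  have hAB := hψK (a * b) (K.mul_mem haK hbK) hab1
  apply hAB
  have hmul := mul_mem_of_card_two_mul hKT h2 (hψT a (hKT haK)) (hψT b (hKT hbK)) hA hB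
  have hc1 := hTab a (hKT haK) (g * b * g⁻¹) (hgn b (hKT hbK))
  have e : g * (a * b) * g⁻¹ * (a * b) = (g * a * g⁻¹ * a) * (g * b * g⁻¹ * b) := by
    calc g * (a * b) * g⁻¹ * (a * b) = (g * a * g⁻¹) * ((g * b * g⁻¹) * a) * b := by group
      _ = (g * a * g⁻¹) * (a * (g * b * g⁻¹)) * b := by rw [hc1]
      _ = (g * a * g⁻¹ * a) * (g * b * g⁻¹ * b) := by group
  rw [e]
  exact hmul

/-- No simple group of order `459648` has a Sylow `19`-subgroup `P` with `|N(P)| = 456` and
`|C(P)| = 76`. -/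
theorem ord459_six [IsSimpleGroup G] (hG : Nat.card G = 459648) (P : Sylow 19 G)
    (hP : Nat.card (P : Subgroup G) = 19)
    (hN : Nat.card (normalizer ((P : Subgroup G) : Set G)) = 456)
    (hC : Nat.card (centralizer ((P : Subgroup G) : Set G)) = 76) : False := by
  classical
  haveI : Fact (Nat.Prime 2) := ⟨Nat.prime_two⟩
  haveI : Fact (Nat.Prime 19) := ⟨by norm_num⟩
  have hN0 := hN
  obtain ⟨N, hNdef⟩ : ∃ N, N = normalizer ((P : Subgroup G) : Set G) := ⟨_, rfl⟩
  obtain ⟨C, hCdef⟩ : ∃ C, C = centralizer ((P : Subgroup G) : Set G) := ⟨_, rfl⟩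
  rw [← hNdef] at hN
  rw [← hCdef] at hC
  have hCN : C ≤ N := by rw [hNdef, hCdef]; exact Subgroup.centralizer_le_normalizer _
  -- `K` of order 4 in `C`
  obtain ⟨K, hK, hKC⟩ : ∃ K : Subgroup G, Nat.card K = 4 ∧ K ≤ C := by
    have hdvd : 2 ^ 2 ∣ Nat.card C := by rw [hC]; norm_num
    obtain ⟨K0, hK0⟩ := Sylow.exists_subgroup_card_pow_prime 2 hdvd
    refine ⟨K0.map C.subtype, ?_, ?_⟩
    · rw [Subgroup.card_map_of_injective C.subtype_injective, hK0]; norm_num
    · exact Subgroup.map_subtype_le K0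
  -- `T` of order 8 in `N` containing `K`
  obtain ⟨T, hT, hKT, hTN⟩ : ∃ T : Subgroup G, Nat.card T = 8 ∧ K ≤ T ∧ T ≤ N := by
    have hdvd : 2 ^ 3 ∣ Nat.card N := by rw [hN]; norm_num
    have hKN : K ≤ N := hKC.trans hCN
    have hK' : Nat.card (K.subgroupOf N) = 2 ^ 2 := by
      rw [Nat.card_congr (Subgroup.subgroupOfEquivOfLe hKN).toEquiv, hK]; norm_num
    obtain ⟨T0, hT0, hle⟩ :=
      Sylow.exists_subgroup_card_pow_prime_le 2 hdvd (K.subgroupOf N) hK' (by norm_num)
    refine ⟨T0.map N.subtype, ?_, ?_, Subgroup.map_subtype_le T0⟩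
    · rw [Subgroup.card_map_of_injective N.subtype_injective, hT0]; norm_num
    · intro x hx
      exact ⟨⟨x, hKN hx⟩, hle (Subgroup.mem_subgroupOf.mpr hx), rfl⟩
  -- `S` of order 128 containing `T`
  obtain ⟨S, hS, hTS⟩ : ∃ S : Subgroup G, Nat.card S = 128 ∧ T ≤ S := by
    have hdvd : 2 ^ 7 ∣ Nat.card G := by rw [hG]; norm_num
    have hT' : Nat.card T = 2 ^ 3 := by rw [hT]; norm_num
    obtain ⟨S, hS, hle⟩ := Sylow.exists_subgroup_card_pow_prime_le 2 hdvd T hT' (by norm_num)
    exact ⟨S, by rw [hS]; norm_num, hle⟩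
  have h2 : Nat.card T = 2 * Nat.card K := by rw [hT, hK]
  obtain ⟨hKab, t, htK, ht1, htT⟩ := fixed_in_K hKT hT hK
  have hTN' : T ≤ normalizer ((P : Subgroup G) : Set G) := hNdef ▸ hTN
  have hcent : ∀ u ∈ K, ∀ x ∈ (P : Subgroup G), x * u = u * x := by
    intro u hu x hx
    have : u ∈ centralizer ((P : Subgroup G) : Set G) := hCdef ▸ hKC hu
    exact Subgroup.mem_centralizer_iff.mp this x hx
  have hstar0 := fun u hu1 huP huT => cent_in_T hG P hP hN0 S T hTS hTN' hT hS u hu1 huP huT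
  -- a central involution of `S`
  obtain ⟨z, hzS, hz1, hzz, hzc⟩ := exists_central_involution S 6 (by rw [hS]; norm_num)
  have hzT : z ∈ T :=
    hstar0 t ht1 (hcent t htK) htT z hzS (hzc t (hTS (hKT htK))).symm
  have hzK : z ∉ K := by
    intro hzK
    have hST : S ≤ T := fun g hg =>
      hstar0 z hz1 (hcent z hzK) (fun v hv => hzc v (hTS hv)) g hg (hzc g hg)
    have := Subgroup.card_le_of_le hST
    rw [hS, hT] at this
    omega
  have hTab := abel_of_index_two hKT h2 hKab z hzT hzK (fun u hu => hzc u (hTS hu))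
  have hstar : ∀ u ∈ K, u ≠ 1 → ∀ g ∈ S, g * u = u * g → g ∈ T := fun u hu hu1 =>
    hstar0 u hu1 (hcent u hu) (fun v hv => hTab v hv u (hKT hu))
  have hSp : IsPGroup 2 S := IsPGroup.of_card (n := 7) (by rw [hS]; norm_num)
  have hne : T ≠ S := by
    intro h
    rw [h, hS] at hT
    omega
  obtain ⟨g, hgS, hgT, hg2, hgn⟩ := exists_sq_mem_normalizer S T hSp hTS hne
  by_cases hex : ∃ k ∈ K, k * k ≠ 1
  · obtain ⟨k, hk, hkk⟩ := hex
    exact hgT (hstar (k * k) (K.mul_mem hk hk) hkk g hgS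
      (caseA hKT hT hK hTab z hzT hzK hzz g hgn k hk hkk))
  · push Not at hex
    obtain ⟨u, hu, hu1, hgu⟩ := caseB hKT hT hK hTab z hzT hzK hzz g hg2 hgn hex
    exact hgT (hstar u hu hu1 g hgS hgu)

end Ord459

end Cfsg.Agent.Helper8
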