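import Mathlib
import Cfsg.Agent.Helper8.Ord459C

set_option autoImplicit false
set_option linter.style.haveILetI false
set_option maxHeartbeats 1000000

/-!
# A general `2`-local contradiction (helper8)

`two_local_contra`: a `2`-group `S` with subgroups `K ≤ T < S`, `|K| = 4`, `|T| = 8`, such that
`C_S(u) ≤ T` for every nonidentity `u ∈ K` centralized by `T`, does not exist.
`exists_KTS`: the chain `K ≤ T ≤ S` of `2`-subgroups inside `C ≤ N ≤ G`.
-/

namespace Cfsg.Agent.Helper8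

namespace Ord2Local

open Subgroup Cfsg.Agent.Helper9.OrdTools Cfsg.Agent.Helper8.Ord459

variable {G : Type*} [Group G] [Finite G]

/-- general `2`-local contradiction. -/
theorem two_local_contra {S T K : Subgroup G} (hKT : K ≤ T) (hTS : T ≤ S)
    (hT : Nat.card T = 8) (hK : Nat.card K = 4) (k : ℕ) (hS : Nat.card S = 2 ^ (k + 1))
    (hlt : 8 < Nat.card S)
    (hstar0 : ∀ u ∈ K, u ≠ 1 → (∀ v ∈ T, v * u = u * v) → ∀ g ∈ S, g * u = u * g → g ∈ T) :
    False := by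
  haveI : Fact (Nat.Prime 2) := ⟨Nat.prime_two⟩
  have h2 : Nat.card T = 2 * Nat.card K := by rw [hT, hK]
  obtain ⟨hKab, t, htK, ht1, htT⟩ := fixed_in_K hKT hT hK
  obtain ⟨z, hzS, hz1, hzz, hzc⟩ := exists_central_involution S k hS
  have hzT : z ∈ T := hstar0 t htK ht1 htT z hzS (hzc t (hTS (hKT htK))).symm
  have hzK : z ∉ K := by
    intro hzK
    have hST : S ≤ T := fun g hg =>
      hstar0 z hzK hz1 (fun v hv => hzc v (hTS hv)) g hg (hzc g hg)
    have := Subgroup.card_le_of_le hST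
    rw [hT] at this
    omega
  have hTab := abel_of_index_two hKT h2 hKab z hzT hzK (fun u hu => hzc u (hTS hu))
  have hstar : ∀ u ∈ K, u ≠ 1 → ∀ g ∈ S, g * u = u * g → g ∈ T := fun u hu hu1 =>
    hstar0 u hu hu1 (fun v hv => hTab v hv u (hKT hu))
  have hSp : IsPGroup 2 S := IsPGroup.of_card hS
  have hne : T ≠ S := by
    intro h
    rw [h] at hT
    omega
  obtain ⟨g, hgS, hgT, hg2, hgn⟩ := exists_sq_mem_normalizer S T hSp hTS hne
  by_cases hex : ∃ k ∈ K, k * k ≠ 1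
  · obtain ⟨k, hk, hkk⟩ := hex
    exact hgT (hstar (k * k) (K.mul_mem hk hk) hkk g hgS
      (caseA hKT hT hK hTab z hzT hzK hzz g hgn k hk hkk))
  · push Not at hex
    obtain ⟨u, hu, hu1, hgu⟩ := caseB hKT hT hK hTab z hzT hzK hzz g hg2 hgn hex
    exact hgT (hstar u hu hu1 g hgS hgu)

/-- a chain `K ≤ T ≤ S` of `2`-subgroups of orders `4`, `8`, `2 ^ a` with `K ≤ C`, `T ≤ N`. -/
theorem exists_KTS (C N : Subgroup G) (hCN : C ≤ N) (hC4 : 2 ^ 2 ∣ Nat.card C)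
    (hN8 : 2 ^ 3 ∣ Nat.card N) (a : ℕ) (hG : 2 ^ a ∣ Nat.card G) (ha : 3 ≤ a) :
    ∃ K T S : Subgroup G, Nat.card K = 4 ∧ K ≤ C ∧ Nat.card T = 8 ∧ K ≤ T ∧ T ≤ N ∧
      Nat.card S = 2 ^ a ∧ T ≤ S := by
  haveI : Fact (Nat.Prime 2) := ⟨Nat.prime_two⟩
  obtain ⟨K, hK, hKC⟩ : ∃ K : Subgroup G, Nat.card K = 4 ∧ K ≤ C := by
    obtain ⟨K0, hK0⟩ := Sylow.exists_subgroup_card_pow_prime 2 hC4
    refine ⟨K0.map C.subtype, ?_, ?_⟩
    · rw [Subgroup.card_map_of_injective C.subtype_injective, hK0]; norm_num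
    · exact Subgroup.map_subtype_le K0
  obtain ⟨T, hT, hKT, hTN⟩ : ∃ T : Subgroup G, Nat.card T = 8 ∧ K ≤ T ∧ T ≤ N := by
    have hKN : K ≤ N := hKC.trans hCN
    have hK' : Nat.card (K.subgroupOf N) = 2 ^ 2 := by
      rw [Nat.card_congr (Subgroup.subgroupOfEquivOfLe hKN).toEquiv, hK]; norm_num
    obtain ⟨T0, hT0, hle⟩ :=
      Sylow.exists_subgroup_card_pow_prime_le 2 hN8 (K.subgroupOf N) hK' (by norm_num)
    refine ⟨T0.map N.subtype, ?_, ?_, Subgroup.map_subtype_le T0⟩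
    · rw [Subgroup.card_map_of_injective N.subtype_injective, hT0]; norm_num
    · intro x hx
      exact ⟨⟨x, hKN hx⟩, hle (Subgroup.mem_subgroupOf.mpr hx), rfl⟩
  obtain ⟨S, hS, hTS⟩ : ∃ S : Subgroup G, Nat.card S = 2 ^ a ∧ T ≤ S := by
    have hT' : Nat.card T = 2 ^ 3 := by rw [hT]; norm_num
    exact Sylow.exists_subgroup_card_pow_prime_le 2 hG T hT' ha
  exact ⟨K, T, S, hK, hKC, hT, hKT, hTN, hS, hTS⟩

end Ord2Local

end Cfsg.Agent.Helper8
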