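import Mathlib
import Cfsg.Agent.Helper8.Ord2Local
import Cfsg.Agent.Helper8.SylFix

set_option autoImplicit false
set_option linter.style.haveILetI false
set_option maxHeartbeats 1000000

/-!
# Order 1440 (helper8)

The cases for the number `n_5` of Sylow `5`-subgroups of a simple group of order `1440`:
`n_5 = 16` (`ord1440_sixteen`), `n_5 = 36` with `|C(P)| = 20` (`ord1440_two`) and `|C(P)| = 10`
(`ord1440_four`).
-/

namespace Cfsg.Agent.Helper8

namespace Ord1440

open Subgroup Cfsg.Agent.Helper9.OrdTools Cfsg.Agent.Helper8.Ord459 Cfsg.Agent.Helper8.Ord2Local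
  Cfsg.Agent.Helper8.SylFix

variable {G : Type*} [Group G] [Finite G]

theorem arith_sylow : ∀ n, n ∣ 288 → n % 5 = 1 → n = 1 ∨ n = 6 ∨ n = 16 ∨ n = 36 ∨ n = 96 := by
  intro n hn
  have hle : n ≤ 288 := Nat.le_of_dvd (by norm_num) hn
  revert hn
  have key : ∀ n ≤ 288, n ∣ 288 → n % 5 = 1 → n = 1 ∨ n = 6 ∨ n = 16 ∨ n = 36 ∨ n = 96 := by
    decide +kernel
  exact key n hle

theorem arith_d : ∀ d, d ∣ 40 → 8 ∣ d → 5 ∣ d → d = 40 := by
  intro d hd
  have hle : d ≤ 40 := Nat.le_of_dvd (by norm_num) hd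
  revert hd
  have key : ∀ d ≤ 40, d ∣ 40 → 8 ∣ d → 5 ∣ d → d = 40 := by
    decide +kernel
  exact key d hle

theorem arith_n : ∀ n, n ∣ 36 → n % 5 = 1 → n = 1 ∨ n = 6 ∨ n = 36 := by
  intro n hn
  have hle : n ≤ 36 := Nat.le_of_dvd (by norm_num) hn
  revert hn
  have key : ∀ n ≤ 36, n ∣ 36 → n % 5 = 1 → n = 1 ∨ n = 6 ∨ n = 36 := by
    decide +kernel
  exact key n hle

/-! ### The case `n_5 = 16` -/

theorem fix_one_of_order3 [IsSimpleGroup G] (hn : Nat.card (Sylow 5 G) = 16) (P : Sylow 5 G)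
    (s : G) (hsC : ∀ x ∈ (P : Subgroup G), x * s = s * x) (hs1 : s ≠ 1) (hs3 : s ^ 3 = 1) :
    Nat.card (MulAction.fixedBy (Sylow 5 G) s) = 1 := by
  haveI : Fact (Nat.Prime 5) := ⟨by norm_num⟩
  haveI : Fact (Nat.Prime 3) := ⟨by norm_num⟩
  have ho : orderOf s = 3 ^ 1 := by rw [pow_one]; exact orderOf_eq_prime hs3 hs1
  have h1 := card_fixedBy_modEq_one P s hsC
  have h2 := card_fixedBy_modEq (p := 5) s ho
  have h3 := card_fixedBy_lt (p := 5) (by rw [hn]; norm_num) s hs1
  rw [hn] at h2 h3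
  rw [Nat.ModEq] at h1 h2
  omega

theorem ord1440_sixteen [IsSimpleGroup G] (hn : Nat.card (Sylow 5 G) = 16) (P : Sylow 5 G)
    (hC : Nat.card (centralizer ((P : Subgroup G) : Set G)) = 45) : False := by
  haveI : Fact (Nat.Prime 3) := ⟨by norm_num⟩
  haveI : Fact (Nat.Prime 5) := ⟨by norm_num⟩
  obtain ⟨R, hR, hRC⟩ : ∃ R : Subgroup G, Nat.card R = 9 ∧
      R ≤ centralizer ((P : Subgroup G) : Set G) := by
    have hdvd : 3 ^ 2 ∣ Nat.card (centralizer ((P : Subgroup G) : Set G)) := by
      rw [hC]; norm_num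
    obtain ⟨K0, hK0⟩ := Sylow.exists_subgroup_card_pow_prime 3 hdvd
    refine ⟨K0.map (Subgroup.subtype _), ?_, Subgroup.map_subtype_le K0⟩
    rw [Subgroup.card_map_of_injective (Subgroup.subtype_injective _), hK0]; norm_num
  have hfix : ∀ r ∈ R, r ≠ 1 → Nat.card (MulAction.fixedBy (Sylow 5 G) r) = 1 := by
    intro r hr hr1
    have hrC : ∀ x ∈ (P : Subgroup G), x * r = r * x := fun x hx =>
      Subgroup.mem_centralizer_iff.mp (hRC hr) x hx
    have hr9 : r ^ 9 = 1 := by
      have := Subgroup.orderOf_dvd_natCard R hr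
      rw [hR] at this
      exact orderOf_dvd_iff_pow_eq_one.mp this
    have hP : P ∈ MulAction.fixedBy (Sylow 5 G) r := by
      rw [MulAction.mem_fixedBy, Sylow.smul_eq_iff_mem_normalizer]
      exact Subgroup.centralizer_le_normalizer _ (hRC hr)
    have hge : 1 ≤ Nat.card (MulAction.fixedBy (Sylow 5 G) r) := by
      haveI : Nonempty (MulAction.fixedBy (Sylow 5 G) r) := ⟨⟨P, hP⟩⟩
      exact Nat.card_pos
    by_cases h3 : r ^ 3 = 1
    · exact fix_one_of_order3 hn P r hrC hr1 h3
    · have hs := fix_one_of_order3 hn P (r ^ 3)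
        (fun x hx => ((show Commute x r from hrC x hx).pow_right 3).eq) h3
        (by rw [← pow_mul]; exact hr9)
      have hsub : MulAction.fixedBy (Sylow 5 G) r ⊆ MulAction.fixedBy (Sylow 5 G) (r ^ 3) := by
        intro Q hQ
        rw [MulAction.mem_fixedBy] at hQ ⊢
        have : r ^ 3 ∈ MulAction.stabilizer G Q := pow_mem (MulAction.mem_stabilizer_iff.mpr hQ) 3
        exact MulAction.mem_stabilizer_iff.mp this
      have hle := Nat.card_mono (Set.toFinite _) hsub
      omega
  have hdvd := card_dvd_of_fix_one (X := Sylow 5 G) R hfix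
  rw [hR, hn] at hdvd
  norm_num at hdvd

/-! ### The case `n_5 = 36` -/

/-- the centralizer of a nonidentity element centralizing `P` and a subgroup `T ≤ N(P)` of
order `8` has order `40`. -/
theorem card_cent_eq [IsSimpleGroup G] (hG : Nat.card G = 1440) (P : Sylow 5 G)
    (hP : Nat.card (P : Subgroup G) = 5)
    (hN : Nat.card (normalizer ((P : Subgroup G) : Set G)) = 40)
    (T : Subgroup G) (hTN : T ≤ normalizer ((P : Subgroup G) : Set G))
    (hT : Nat.card T = 8)
    (u : G) (hu1 : u ≠ 1) (huP : ∀ x ∈ (P : Subgroup G), x * u = u * x)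
    (huT : ∀ v ∈ T, v * u = u * v) :
    Nat.card (centralizer ({u} : Set G)) = 40 := by
  haveI : Fact (Nat.Prime 5) := ⟨by norm_num⟩
  obtain ⟨X, hXdef⟩ : ∃ X : Subgroup G, X = centralizer ({u} : Set G) := ⟨_, rfl⟩
  rw [← hXdef]
  have hmemX : ∀ x, x ∈ X ↔ x * u = u * x := by
    intro x
    rw [hXdef, Subgroup.mem_centralizer_iff]
    constructor
    · intro h; exact (h u rfl).symm
    · intro h y hy; rw [Set.mem_singleton_iff.mp hy]; exact h.symm
  have hPX : (P : Subgroup G) ≤ X := fun x hx => (hmemX x).mpr (huP x hx)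
  have hTX : T ≤ X := fun x hx => (hmemX x).mpr (huT x hx)
  obtain ⟨n, hn5, hXcard⟩ := sylow_count_subgroup P X hPX
  obtain ⟨N, hNdef⟩ : ∃ N, N = normalizer ((P : Subgroup G) : Set G) := ⟨_, rfl⟩
  rw [← hNdef] at hN hTN hXcard
  have hPN : (P : Subgroup G) ≤ N := hNdef ▸ Subgroup.le_normalizer
  have hd1 : Nat.card (X ⊓ N : Subgroup G) ∣ 40 := hN ▸ Subgroup.card_dvd_of_le inf_le_right
  have hd2 : 8 ∣ Nat.card (X ⊓ N : Subgroup G) := hT ▸ Subgroup.card_dvd_of_le (le_inf hTX hTN)
  have hd3 : 5 ∣ Nat.card (X ⊓ N : Subgroup G) :=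
    hP ▸ Subgroup.card_dvd_of_le (le_inf hPX hPN)
  have hXG : Nat.card X ∣ 1440 := hG ▸ Subgroup.card_subgroup_dvd_card X
  have hna : ∃ a b : G, a * b ≠ b * a :=
    exists_not_comm' P (by rw [hP]; norm_num) (by rw [hP, hG]; norm_num)
  have hd := arith_d _ hd1 hd2 hd3
  rw [hd] at hXcard
  have hn' : n ∣ 36 := by
    rw [hXcard] at hXG
    have h3 : (1440 : ℕ) = 40 * 36 := by norm_num
    rw [h3] at hXG
    exact Nat.dvd_of_mul_dvd_mul_left (by norm_num) hXG
  rcases arith_n n hn' hn5 with h1 | h1 | h1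
  · rw [hXcard, h1]
  · exfalso
    rw [h1] at hXcard
    have hidx : X.index = 6 := by
      have := X.card_mul_index
      rw [hXcard, hG] at this
      omega
    have hXtop : X ≠ ⊤ := by
      intro h
      rw [h, Subgroup.card_top, hG] at hXcard
      omega
    have := card_dvd_factorial_index X hXtop
    rw [hidx, hG] at this
    norm_num [Nat.factorial] at this
  · exfalso
    rw [h1] at hXcard
    have hXtop : X = ⊤ := by
      apply (Subgroup.card_eq_iff_eq_top X).mp
      rw [hXcard, hG]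
    apply hu1
    apply eq_one_of_central hna u
    intro g
    exact (hmemX g).mp (hXtop ▸ Subgroup.mem_top g)

/-- No simple group of order `1440` has a Sylow `5`-subgroup `P` with `|N(P)| = 40` and
`|C(P)| = 20`. -/
theorem ord1440_two [IsSimpleGroup G] (hG : Nat.card G = 1440) (P : Sylow 5 G)
    (hP : Nat.card (P : Subgroup G) = 5)
    (hN : Nat.card (normalizer ((P : Subgroup G) : Set G)) = 40)
    (hC : Nat.card (centralizer ((P : Subgroup G) : Set G)) = 20) : False := by
  obtain ⟨K, T, S, hK, hKC, hT, hKT, hTN, hS, hTS⟩ :=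
    exists_KTS (centralizer ((P : Subgroup G) : Set G)) (normalizer ((P : Subgroup G) : Set G))
      (Subgroup.centralizer_le_normalizer _) (by rw [hC]; norm_num) (by rw [hN]; norm_num) 5
      (by rw [hG]; norm_num) (by norm_num)
  have hS32 : Nat.card S = 32 := by rw [hS]; norm_num
  have hcent : ∀ u ∈ K, ∀ x ∈ (P : Subgroup G), x * u = u * x := by
    intro u hu x hx
    exact Subgroup.mem_centralizer_iff.mp (hKC hu) x hx
  refine two_local_contra hKT hTS hT hK 4 (by rw [hS]) (by rw [hS32]; norm_num) ?_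
  intro u hu hu1 huT g hgS hgu
  have hX := card_cent_eq hG P hP hN T hTN hT u hu1 (hcent u hu) huT
  have hTX : T ≤ centralizer ({u} : Set G) := by
    intro x hx
    rw [Subgroup.mem_centralizer_iff]
    intro y hy
    rw [Set.mem_singleton_iff.mp hy]
    exact (huT x hx).symm
  have hgX : g ∈ centralizer ({u} : Set G) := by
    rw [Subgroup.mem_centralizer_iff]
    intro y hy
    rw [Set.mem_singleton_iff.mp hy]
    exact hgu.symm
  have hTle : T ≤ S ⊓ centralizer ({u} : Set G) := le_inf hTS hTX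
  have hc1 : Nat.card (S ⊓ centralizer ({u} : Set G) : Subgroup G) ∣ 32 :=
    hS32 ▸ Subgroup.card_dvd_of_le inf_le_left
  have hc2 : Nat.card (S ⊓ centralizer ({u} : Set G) : Subgroup G) ∣ 40 :=
    hX ▸ Subgroup.card_dvd_of_le inf_le_right
  have hc3 : Nat.card (S ⊓ centralizer ({u} : Set G) : Subgroup G) ∣ 8 := by
    have := Nat.dvd_gcd hc1 hc2
    norm_num at this
    exact this
  have hle : Nat.card (S ⊓ centralizer ({u} : Set G) : Subgroup G) ≤ Nat.card T := by
    rw [hT]; exact Nat.le_of_dvd (by norm_num) hc3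
  have heq : T = S ⊓ centralizer ({u} : Set G) := Subgroup.eq_of_le_of_card_ge hTle hle
  rw [heq]
  exact ⟨hgS, hgX⟩

/-- an involution of the normalizer of `P` not centralizing `P` inverts `P`. -/
theorem inverts_of_not_centralizes (P : Sylow 5 G) (hP : Nat.card (P : Subgroup G) = 5) (x : G)
    (hxN : x ∈ normalizer ((P : Subgroup G) : Set G)) (hx2 : x * x = 1)
    (hxC : x ∉ centralizer ((P : Subgroup G) : Set G)) :
    ∀ y ∈ (P : Subgroup G), x * y * x⁻¹ = y⁻¹ := by
  haveI : Fact (Nat.Prime 5) := ⟨by norm_num⟩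
  obtain ⟨y0, hy0P, hy01⟩ : ∃ y0 ∈ (P : Subgroup G), y0 ≠ 1 := by
    by_contra hcon
    push Not at hcon
    have : (P : Subgroup G) = ⊥ := (Subgroup.eq_bot_iff_forall _).mpr hcon
    rw [this, Subgroup.card_bot] at hP
    omega
  have hz := zpowers_eq_sylow P hP hy0P hy01
  have ho : orderOf y0 = 5 := by rw [← Nat.card_zpowers, hz, hP]
  have hinv : x⁻¹ = x := inv_eq_of_mul_eq_one_left hx2
  have hconj : x * y0 * x⁻¹ ∈ zpowers y0 := by
    rw [hz]; exact (Subgroup.mem_normalizer_iff.mp hxN y0).mp hy0P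
  obtain ⟨k, hk⟩ := Subgroup.mem_zpowers_iff.mp hconj
  obtain ⟨j, hj5, hj⟩ : ∃ j : ℕ, j < 5 ∧ y0 ^ j = x * y0 * x⁻¹ := by
    refine ⟨(k % 5).toNat, ?_, ?_⟩
    · omega
    · rw [← zpow_natCast, Int.toNat_of_nonneg (by omega), ← hk]
      have := zpow_mod_orderOf y0 k
      rw [ho] at this
      exact this
  have hjj : y0 ^ (j * j) = y0 ^ 1 := by
    rw [pow_mul, hj, pow_one, conj_pow, hj, hinv]
    calc x * (x * y0 * x) * x = (x * x) * y0 * (x * x) := by group
      _ = y0 := by rw [hx2, one_mul, mul_one]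
  rw [pow_eq_pow_iff_modEq, ho] at hjj
  have hj14 : j = 1 ∨ j = 4 := by
    interval_cases j <;> simp [Nat.ModEq] at hjj ⊢
  rcases hj14 with rfl | rfl
  · exfalso
    apply hxC
    rw [← centralizer_singleton_eq hz, Subgroup.mem_centralizer_iff]
    intro w hw
    rw [Set.mem_singleton_iff.mp hw]
    rw [pow_one] at hj
    calc y0 * x = (x * y0 * x⁻¹) * x := by rw [← hj]
      _ = x * y0 := by group
  · intro y hy
    rw [← hz] at hy
    obtain ⟨i, rfl⟩ := Subgroup.mem_zpowers_iff.mp hy
    have h4 : x * y0 * x⁻¹ = y0⁻¹ := by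
      rw [← hj]
      apply eq_inv_of_mul_eq_one_left
      rw [← pow_succ]
      have h5 := pow_orderOf_eq_one y0
      rw [ho] at h5
      exact h5
    rw [← conj_zpow, h4, inv_zpow]

/-- the involution attached to a Sylow `5`-subgroup `Q` with `|N(Q)| = 40`, `|C(Q)| = 10`:
the unique involution of `C(Q)`; its centralizer is `N(Q)`. -/
theorem invol_of_sylow [IsSimpleGroup G] (hG : Nat.card G = 1440) (Q : Sylow 5 G)
    (hQ : Nat.card (Q : Subgroup G) = 5)
    (hN : Nat.card (normalizer ((Q : Subgroup G) : Set G)) = 40)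
    (hC : Nat.card (centralizer ((Q : Subgroup G) : Set G)) = 10) :
    ∃ t : G, t ∈ centralizer ((Q : Subgroup G) : Set G) ∧ t ≠ 1 ∧ t * t = 1 ∧
      ∀ g : G, g * t = t * g ↔ g ∈ normalizer ((Q : Subgroup G) : Set G) := by
  haveI : Fact (Nat.Prime 5) := ⟨by norm_num⟩
  haveI : Fact (Nat.Prime 2) := ⟨Nat.prime_two⟩
  have h2 : 2 ∣ Nat.card (centralizer ((Q : Subgroup G) : Set G)) := by rw [hC]; norm_num
  obtain ⟨t0, ht0⟩ := exists_prime_orderOf_dvd_card' 2 h2
  obtain ⟨t, htdef⟩ : ∃ t : G, t = (t0 : G) := ⟨_, rfl⟩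
  have htC : t ∈ centralizer ((Q : Subgroup G) : Set G) := htdef ▸ t0.2
  have hto : orderOf t = 2 := by rw [htdef, Subgroup.orderOf_coe]; exact ht0
  have ht1 : t ≠ 1 := by intro h; rw [h, orderOf_one] at hto; omega
  have ht2 : t * t = 1 := by rw [← pow_two, ← hto]; exact pow_orderOf_eq_one t
  have hQC := le_centralizer_of_prime Q hQ
  have hcard2 : Nat.card (centralizer ((Q : Subgroup G) : Set G)) =
      2 * Nat.card (Q : Subgroup G) := by rw [hC, hQ]
  have hnotQ : ∀ s : G, s ≠ 1 → s * s = 1 → s ∉ (Q : Subgroup G) := by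
    intro s hs1 hs2 hsQ
    have ho2 : orderOf s = 2 := orderOf_eq_prime (by rw [pow_two]; exact hs2) hs1
    have := Subgroup.orderOf_dvd_natCard _ hsQ
    rw [ho2, hQ] at this
    omega
  have huniq : ∀ s ∈ centralizer ((Q : Subgroup G) : Set G), s ≠ 1 → s * s = 1 → s = t := by
    intro s hsC hs1 hs2
    have hmem := mul_mem_of_card_two_mul hQC hcard2 hsC htC (hnotQ s hs1 hs2) (hnotQ t ht1 ht2)
    have hcomm : (s * t) * t = t * (s * t) := Subgroup.mem_centralizer_iff.mp htC _ hmem
    have hst : s * t = t * s := by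
      have : s = t * s * t := by
        calc s = (s * t) * t := by rw [mul_assoc, ht2, mul_one]
          _ = t * (s * t) := hcomm
          _ = t * s * t := by group
      calc s * t = (t * s * t) * t := by rw [← this]
        _ = t * s := by rw [mul_assoc, ht2, mul_one]
    have hsq : (s * t) * (s * t) = 1 := by
      calc (s * t) * (s * t) = s * (t * s) * t := by group
        _ = s * (s * t) * t := by rw [hst]
        _ = (s * s) * (t * t) := by group
        _ = 1 := by rw [hs2, ht2, one_mul]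
    by_contra hne
    have hst1 : s * t ≠ 1 := by
      intro h
      apply hne
      calc s = s * (t * t) := by rw [ht2, mul_one]
        _ = (s * t) * t := by group
        _ = t := by rw [h, one_mul]
    exact hnotQ (s * t) hst1 hsq hmem
  refine ⟨t, htC, ht1, ht2, ?_⟩
  have hNt : ∀ g ∈ normalizer ((Q : Subgroup G) : Set G), g * t = t * g := by
    intro g hg
    have hconjC : g * t * g⁻¹ ∈ centralizer ((Q : Subgroup G) : Set G) := by
      rw [Subgroup.mem_centralizer_iff]
      intro y hy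
      have hy' : g⁻¹ * y * g ∈ (Q : Subgroup G) := by
        have := (Subgroup.mem_normalizer_iff.mp (inv_mem hg) y).mp hy
        simpa using this
      have := Subgroup.mem_centralizer_iff.mp htC _ hy'
      calc y * (g * t * g⁻¹) = g * ((g⁻¹ * y * g) * t) * g⁻¹ := by group
        _ = g * (t * (g⁻¹ * y * g)) * g⁻¹ := by rw [this]
        _ = g * t * g⁻¹ * y := by group
    have h1 : g * t * g⁻¹ ≠ 1 := by
      intro h
      apply ht1
      have : t = g⁻¹ * (g * t * g⁻¹) * g := by group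
      rw [this, h]; group
    have h2 : (g * t * g⁻¹) * (g * t * g⁻¹) = 1 := by
      calc (g * t * g⁻¹) * (g * t * g⁻¹) = g * (t * t) * g⁻¹ := by group
        _ = 1 := by rw [ht2]; group
    have := huniq _ hconjC h1 h2
    calc g * t = (g * t * g⁻¹) * g := by group
      _ = t * g := by rw [this]
  intro g
  constructor
  · intro hg
    obtain ⟨T, hTN, hT⟩ : ∃ T : Subgroup G, T ≤ normalizer ((Q : Subgroup G) : Set G) ∧
        Nat.card T = 8 := by
      have hdvd : 2 ^ 3 ∣ Nat.card (normalizer ((Q : Subgroup G) : Set G)) := by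
        rw [hN]; norm_num
      obtain ⟨K0, hK0⟩ := Sylow.exists_subgroup_card_pow_prime 2 hdvd
      refine ⟨K0.map (Subgroup.subtype _), Subgroup.map_subtype_le K0, ?_⟩
      rw [Subgroup.card_map_of_injective (Subgroup.subtype_injective _), hK0]; norm_num
    have hX := card_cent_eq hG Q hQ hN T hTN hT t ht1
      (fun x hx => Subgroup.mem_centralizer_iff.mp htC x hx) (fun v hv => hNt v (hTN hv))
    have hle : normalizer ((Q : Subgroup G) : Set G) ≤ centralizer ({t} : Set G) := by
      intro x hx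
      rw [Subgroup.mem_centralizer_iff]
      intro y hy
      rw [Set.mem_singleton_iff.mp hy]
      exact (hNt x hx).symm
    have heq := Subgroup.eq_of_le_of_card_ge hle (by rw [hX, hN])
    rw [heq, Subgroup.mem_centralizer_iff]
    intro y hy
    rw [Set.mem_singleton_iff.mp hy]
    exact hg.symm
  · exact hNt g

/-- No simple group of order `1440` has `36` Sylow `5`-subgroups `P` with `|N(P)| = 40` and
`|C(P)| = 10`: the involution of `C(P)` would be an odd permutation of the Sylow
`5`-subgroups. -/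
theorem ord1440_four [IsSimpleGroup G] (hG : Nat.card G = 1440)
    (hn : Nat.card (Sylow 5 G) = 36)
    (hP5 : ∀ P : Sylow 5 G, Nat.card (P : Subgroup G) = 5)
    (hN : ∀ P : Sylow 5 G, Nat.card (normalizer ((P : Subgroup G) : Set G)) = 40)
    (hC : ∀ P : Sylow 5 G, Nat.card (centralizer ((P : Subgroup G) : Set G)) = 10) : False := by
  classical
  haveI : Fact (Nat.Prime 5) := ⟨by norm_num⟩
  haveI : Fact (Nat.Prime 2) := ⟨Nat.prime_two⟩
  choose τ hτC hτ1 hτ2 hτN using fun Q : Sylow 5 G => invol_of_sylow hG Q (hP5 Q) (hN Q) (hC Q)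
  obtain ⟨P⟩ : Nonempty (Sylow 5 G) := inferInstance
  obtain ⟨t, htdef⟩ : ∃ t, t = τ P := ⟨_, rfl⟩
  have htC : t ∈ centralizer ((P : Subgroup G) : Set G) := htdef ▸ hτC P
  have ht1 : t ≠ 1 := htdef ▸ hτ1 P
  have ht2 : t * t = 1 := htdef ▸ hτ2 P
  have htN : ∀ g : G, g * t = t * g ↔ g ∈ normalizer ((P : Subgroup G) : Set G) :=
    htdef ▸ hτN P
  have hto : orderOf t = 2 ^ 1 := by
    rw [pow_one]; exact orderOf_eq_prime (by rw [pow_two]; exact ht2) ht1
  have hf1 := card_fixedBy_modEq_one P t (fun x hx => Subgroup.mem_centralizer_iff.mp htC x hx)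
  have hf2 := card_fixedBy_modEq (p := 5) t hto
  rw [hn] at hf2
  have hτinj : Function.Injective τ := by
    intro Q Q' h
    have hNN : ∀ g, g ∈ normalizer ((Q : Subgroup G) : Set G) ↔
        g ∈ normalizer ((Q' : Subgroup G) : Set G) := by
      intro g
      rw [← hτN Q g, ← hτN Q' g, h]
    apply eq_of_le_normalizer Q' Q
    intro x hx
    exact (hNN x).mpr (Subgroup.le_normalizer hx)
  have hfixN : ∀ Q : Sylow 5 G, t • Q = Q → τ Q ∈ normalizer ((P : Subgroup G) : Set G) := by
    intro Q hQ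
    have h1 : t ∈ normalizer ((Q : Subgroup G) : Set G) :=
      Sylow.smul_eq_iff_mem_normalizer.mp hQ
    have h2 : t * τ Q = τ Q * t := (hτN Q t).mpr h1
    exact (htN (τ Q)).mp h2.symm
  have hfixC : ∀ Q : Sylow 5 G, Q ≠ P → τ Q ∉ centralizer ((P : Subgroup G) : Set G) := by
    intro Q hQP hmem
    apply hQP
    apply eq_of_le_normalizer P Q
    intro x hx
    exact (hτN Q x).mp (Subgroup.mem_centralizer_iff.mp hmem x hx)
  have hle : Nat.card (MulAction.fixedBy (Sylow 5 G) t) ≤ 11 := by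
    by_cases hex : ∃ Q0 : Sylow 5 G, t • Q0 = Q0 ∧ Q0 ≠ P
    · obtain ⟨Q0, hQ0fix, hQ0P⟩ := hex
      have hinv0 := inverts_of_not_centralizes P (hP5 P) (τ Q0) (hfixN Q0 hQ0fix) (hτ2 Q0)
        (hfixC Q0 hQ0P)
      have hx0inv : (τ Q0)⁻¹ = τ Q0 := inv_eq_of_mul_eq_one_left (hτ2 Q0)
      have hmemC : ∀ Q : Sylow 5 G, t • Q = Q → Q ≠ P →
          τ Q * (τ Q0)⁻¹ ∈ centralizer ((P : Subgroup G) : Set G) := by
        intro Q hQfix hQP
        have hinv := inverts_of_not_centralizes P (hP5 P) (τ Q) (hfixN Q hQfix) (hτ2 Q)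
          (hfixC Q hQP)
        rw [Subgroup.mem_centralizer_iff]
        intro y hy
        have e1 : τ Q0 * y * τ Q0 = y⁻¹ := by
          have := hinv0 y hy
          rwa [hx0inv] at this
        have e2 : τ Q * y⁻¹ * (τ Q)⁻¹ = y := by
          have := hinv y⁻¹ (inv_mem hy)
          rwa [inv_inv] at this
        rw [hx0inv]
        calc y * (τ Q * τ Q0) = (τ Q * y⁻¹ * (τ Q)⁻¹) * (τ Q * τ Q0) := by rw [e2]
          _ = τ Q * y⁻¹ * τ Q0 := by group
          _ = τ Q * (τ Q0 * y * τ Q0) * τ Q0 := by rw [e1]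
          _ = τ Q * τ Q0 * y * (τ Q0 * τ Q0) := by group
          _ = τ Q * τ Q0 * y := by rw [hτ2 Q0, mul_one]
      let f : MulAction.fixedBy (Sylow 5 G) t →
          Option (centralizer ((P : Subgroup G) : Set G)) :=
        fun Q => if h : (Q : Sylow 5 G) = P then none
          else some ⟨τ Q * (τ Q0)⁻¹, hmemC Q Q.2 h⟩
      have hfinj : Function.Injective f := by
        intro Q Q' h
        by_cases h1 : (Q : Sylow 5 G) = P <;> by_cases h2 : (Q' : Sylow 5 G) = P
        · exact Subtype.ext (h1.trans h2.symm)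
        · simp [f, h1, h2] at h
        · simp [f, h1, h2] at h
        · simp only [f, h1, h2, dite_false] at h
          have := congrArg Subtype.val (Option.some.inj h)
          exact Subtype.ext (hτinj (mul_right_cancel this))
      have h3 := Nat.card_le_card_of_injective f hfinj
      rw [Finite.card_option, hC P] at h3
      exact h3
    · push Not at hex
      have : Subsingleton (MulAction.fixedBy (Sylow 5 G) t) :=
        ⟨fun a b => Subtype.ext ((hex a a.2).trans (hex b b.2).symm)⟩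
      have := Finite.card_le_one_iff_subsingleton.mpr this
      omega
  have hf6 : Nat.card (MulAction.fixedBy (Sylow 5 G) t) = 6 := by
    rw [Nat.ModEq] at hf1 hf2
    omega
  haveI : Fintype (Sylow 5 G) := Fintype.ofFinite _
  have hna : ∃ a b : G, a * b ≠ b * a :=
    exists_not_comm' P (by rw [hP5 P]; norm_num) (by rw [hP5 P, hG]; norm_num)
  have hsign := hom_trivial hna
    ((Equiv.Perm.sign).comp (MulAction.toPermHom G (Sylow 5 G))) t
  have hsq : (MulAction.toPermHom G (Sylow 5 G) t) ^ 2 = 1 := by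
    rw [← map_pow, pow_two, ht2, map_one]
  have hfp : Fintype.card (Function.fixedPoints (MulAction.toPermHom G (Sylow 5 G) t)) + 2 * 15
      = Fintype.card (Sylow 5 G) := by
    rw [← Nat.card_eq_fintype_card, ← Nat.card_eq_fintype_card, hn]
    have : Function.fixedPoints (MulAction.toPermHom G (Sylow 5 G) t) =
        MulAction.fixedBy (Sylow 5 G) t := by
      ext Q
      rfl
    rw [this, hf6]
  have h5 := sign_of_involution _ hsq 15 hfp (by decide)
  rw [MonoidHom.comp_apply] at hsign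
  rw [hsign] at h5
  exact absurd h5 (by decide)

end Ord1440

end Cfsg.Agent.Helper8
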