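import Mathlib
import Cfsg.Agent.Helper8.Ord1440

set_option autoImplicit false
set_option linter.style.haveILetI false
set_option maxHeartbeats 1000000

/-!
# Order 4032, group-theoretic glue (helper8)

* `Ord4032.index_ne_8`: a simple group of order `4032` has no subgroup of index `8`.
* `Ord4032.dihedral_data`: if the normalizer of a Sylow `7`-subgroup has order `14`, it is
  dihedral: a generator `x`, self-centralizing, inverted by some `t`.
-/

namespace Cfsg.Agent.Helper8

namespace Ord4032

open Subgroup Cfsg.Agent.Helper9.OrdTools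

variable {G : Type*} [Group G] [Finite G]

omit [Finite G] in
theorem arith_sylow : ∀ n, n ∣ 576 → n % 7 = 1 → n = 1 ∨ n = 8 ∨ n = 36 ∨ n = 64 ∨ n = 288 := by
  intro n hn
  have hle : n ≤ 576 := Nat.le_of_dvd (by norm_num) hn
  revert hn
  have key : ∀ n ≤ 576, n ∣ 576 → n % 7 = 1 → n = 1 ∨ n = 8 ∨ n = 36 ∨ n = 64 ∨ n = 288 := by
    decide +kernel
  exact key n hle

theorem index_ne_8 [IsSimpleGroup G] (hG : Nat.card G = 4032) (H : Subgroup G) :
    H.index ≠ 8 := by
  intro h8
  haveI : Fact (Nat.Prime 7) := ⟨by norm_num⟩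
  obtain ⟨P⟩ : Nonempty (Sylow 7 G) := inferInstance
  have hP : Nat.card (P : Subgroup G) = 7 := by
    have := sylow_card 1 576 (hG.trans (by norm_num)) (by norm_num) P
    simpa using this
  have hna : ∃ a b : G, a * b ≠ b * a :=
    Cfsg.Agent.Helper8.Ord459.exists_not_comm' P (by rw [hP]; norm_num) (by rw [hP, hG]; norm_num)
  obtain ⟨k, hk, hk2⟩ := alt_index hna H (by rw [h8]; norm_num)
  rw [h8, hG] at hk
  have hf : Nat.factorial 8 = 40320 := by decide
  rw [hf] at hk
  have hk5 : k = 5 := by omega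
  subst hk5
  rcases hk2 with h | h
  · omega
  · rw [hG] at h
    have hf5 : Nat.factorial 5 = 120 := by decide
    rw [hf5] at h
    have := Nat.le_of_dvd (by norm_num) h
    omega

theorem dihedral_data [IsSimpleGroup G] (hG : Nat.card G = 4032)
    (P : Sylow 7 G) (hN : Nat.card (Subgroup.normalizer ((P : Subgroup G) : Set G)) = 14) :
    ∃ x t : G, orderOf x = 7 ∧ Subgroup.zpowers x = (P : Subgroup G) ∧
      (∀ g : G, g * x = x * g → g ∈ Subgroup.zpowers x) ∧
      (∀ g : G, g * x * g⁻¹ ∈ Subgroup.zpowers x → g * x * g⁻¹ = x ∨ g * x * g⁻¹ = x⁻¹) ∧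
      t * x * t⁻¹ = x⁻¹ := by
  haveI : Fact (Nat.Prime 7) := ⟨by norm_num⟩
  have hcardS : ∀ Q : Sylow 7 G, Nat.card (Q : Subgroup G) = 7 := by
    intro Q
    have := sylow_card 1 576 (hG.trans (by norm_num)) (by norm_num) Q
    simpa using this
  have hP := hcardS P
  obtain ⟨e, he, he1, hNe, ⟨c, hc⟩⟩ := normalizer_centralizer_prime P hP (by rw [hG]; norm_num)
  have hC : Nat.card (Subgroup.centralizer ((P : Subgroup G) : Set G)) = 7 := by
    rw [hN, hc] at hNe
    have hec : e * c = 2 := by nlinarith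
    have he6 : e ≤ 6 := Nat.le_of_dvd (by norm_num) he
    have hc1 : c = 1 := by
      interval_cases e <;> omega
    rw [hc, hc1]
  have hPC : (P : Subgroup G) = Subgroup.centralizer ((P : Subgroup G) : Set G) :=
    Subgroup.eq_of_le_of_card_ge (le_centralizer_of_prime P hP) (by rw [hC, hP])
  obtain ⟨x, hxP, hx1⟩ : ∃ x ∈ (P : Subgroup G), x ≠ 1 := by
    by_contra hcon
    push Not at hcon
    have : (P : Subgroup G) = ⊥ := (Subgroup.eq_bot_iff_forall _).mpr hcon
    rw [this, Subgroup.card_bot] at hP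
    omega
  have hz := zpowers_eq_sylow P hP hxP hx1
  have ho : orderOf x = 7 := by rw [← Nat.card_zpowers, hz, hP]
  have hcent : ∀ g : G, g * x = x * g → g ∈ Subgroup.zpowers x := by
    intro g hg
    rw [hz, hPC, ← centralizer_singleton_eq hz, Subgroup.mem_centralizer_iff]
    intro w hw
    rw [Set.mem_singleton_iff.mp hw]
    exact hg.symm
  have hmemN : ∀ g : G, g * x * g⁻¹ ∈ (P : Subgroup G) →
      g ∈ Subgroup.normalizer ((P : Subgroup G) : Set G) := by
    intro g hg
    apply Sylow.smul_eq_iff_mem_normalizer.mp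
    have hne : g * x * g⁻¹ ≠ 1 := by
      intro h
      apply hx1
      have h2 : x = g⁻¹ * (g * x * g⁻¹) * g := by group
      rw [h2, h]; group
    have h1 := zpowers_eq_sylow P hP hg hne
    have hg' : g * x * g⁻¹ ∈ ((g • P : Sylow 7 G) : Subgroup G) := by
      rw [Sylow.coe_subgroup_smul, Subgroup.mem_pointwise_smul_iff_inv_smul_mem]
      have e : (MulAut.conj g)⁻¹ • (g * x * g⁻¹) = x := by
        rw [MulAut.smul_def, ← map_inv, MulAut.conj_apply]
        group
      rw [e]
      exact hxP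
    have h2 := zpowers_eq_sylow (g • P) (hcardS _) hg' hne
    exact Sylow.ext (h2.symm.trans h1)
  have hnorm : ∀ g : G, g * x * g⁻¹ ∈ Subgroup.zpowers x →
      g * x * g⁻¹ = x ∨ g * x * g⁻¹ = x⁻¹ := by
    intro g hg
    have hgN := hmemN g (hz ▸ hg)
    obtain ⟨k, hk⟩ := Subgroup.mem_zpowers_iff.mp hg
    obtain ⟨j, hj7, hj⟩ : ∃ j : ℕ, j < 7 ∧ x ^ j = g * x * g⁻¹ := by
      refine ⟨(k % 7).toNat, ?_, ?_⟩
      · omega
      · rw [← zpow_natCast, Int.toNat_of_nonneg (by omega), ← hk]
        have := zpow_mod_orderOf x k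
        rw [ho] at this
        exact this
    -- `g ^ 14 = 1`
    have hg14 : g ^ 14 = 1 := by
      have h1 : (⟨g, hgN⟩ : Subgroup.normalizer ((P : Subgroup G) : Set G)) ^ 14 = 1 := by
        rw [← hN]; exact pow_card_eq_one'
      have h2 := congrArg Subtype.val h1
      simpa using h2
    have hiter : ∀ n : ℕ, g ^ n * x * (g ^ n)⁻¹ = x ^ (j ^ n) := by
      intro n
      induction n with
      | zero => simp
      | succ n ih =>
        have e1 : g ^ (n + 1) * x * (g ^ (n + 1))⁻¹ = g * (g ^ n * x * (g ^ n)⁻¹) * g⁻¹ := by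
          rw [pow_succ']; group
        rw [e1, ih, ← conj_pow, ← hj, ← pow_mul, pow_succ']
    have h14 := hiter 14
    rw [hg14] at h14
    simp only [one_mul, inv_one, mul_one] at h14
    have hjj : x ^ (j ^ 14) = x ^ 1 := by rw [← h14, pow_one]
    rw [pow_eq_pow_iff_modEq, ho] at hjj
    have hj16 : j = 1 ∨ j = 6 := by
      interval_cases j <;> simp [Nat.ModEq] at hjj ⊢
    rcases hj16 with rfl | rfl
    · left; rw [← hj, pow_one]
    · right
      rw [← hj]
      apply eq_inv_of_mul_eq_one_left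
      rw [← pow_succ]
      have h7 := pow_orderOf_eq_one x
      rw [ho] at h7
      exact h7
  -- an element of `N(P)` outside `P`
  obtain ⟨t, htN, htP⟩ : ∃ t ∈ Subgroup.normalizer ((P : Subgroup G) : Set G),
      t ∉ (P : Subgroup G) := by
    by_contra hcon
    push Not at hcon
    have hle : Subgroup.normalizer ((P : Subgroup G) : Set G) ≤ (P : Subgroup G) := hcon
    have := Subgroup.card_le_of_le hle
    rw [hN, hP] at this
    omega
  refine ⟨x, t, ho, hz, hcent, hnorm, ?_⟩
  have htx : t * x * t⁻¹ ∈ Subgroup.zpowers x := by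
    rw [hz]; exact (Subgroup.mem_normalizer_iff.mp htN x).mp hxP
  rcases hnorm t htx with h | h
  · exfalso
    apply htP
    rw [← hz]
    apply hcent
    calc t * x = (t * x * t⁻¹) * t := by group
      _ = x * t := by rw [h]
  · exact h

end Ord4032

end Cfsg.Agent.Helper8
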