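import Cfsg.Agent.Helper9.BRDefs

/-!
# Brauer–Reynolds: splitting a sum over `Irr(G)` along the block table (helper8)

`br_sum_split`: for a table `T : BRTab p M P q` and `K` the set of irreducible characters outside
the principal block, `∑ᶠ χ, F χ = F 1 + ∑_{X1} F + ∑_{X2} F + ∑_Y F + ∑_K F`.
-/

set_option autoImplicit false
open Cfsg
open scoped ComplexConjugate

universe u

namespace Cfsg.Agent.Helper8

theorem br_sum_split {G : Type u} [Group G] [Fintype G] {p : ℕ} {M : Ideal Cfsg.AlgInt}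
    {P : Sylow p G} {q : ℕ} (T : Cfsg.Agent.Helper9.BRTab p M P q)
    (K : Finset (Cfsg.IrrCharacter G))
    (hK : ∀ χ : Cfsg.IrrCharacter G, χ ∈ K ↔ χ ∉ Cfsg.principalBlock M G)
    (F : Cfsg.IrrCharacter G → ℂ) :
    ∑ᶠ χ : Cfsg.IrrCharacter G, F χ = F (Helper81.trivIrr G) + ∑ χ ∈ T.X1, F χ
      + ∑ χ ∈ T.X2, F χ + ∑ χ ∈ T.Y, F χ + ∑ χ ∈ K, F χ := by
  classical
  have : Fintype (Cfsg.IrrCharacter G) := Fintype.ofFinite _
  rw [finsum_eq_sum_of_fintype]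
  have hB1 : ∀ χ ∈ T.X1, χ ∈ Cfsg.principalBlock M G := fun χ h =>
    (T.hB χ).mpr (Or.inr (Or.inl h))
  have hB2 : ∀ χ ∈ T.X2, χ ∈ Cfsg.principalBlock M G := fun χ h =>
    (T.hB χ).mpr (Or.inr (Or.inr (Or.inl h)))
  have hBY : ∀ χ ∈ T.Y, χ ∈ Cfsg.principalBlock M G := fun χ h =>
    (T.hB χ).mpr (Or.inr (Or.inr (Or.inr h)))
  have hBt : Helper81.trivIrr G ∈ Cfsg.principalBlock M G := (T.hB _).mpr (Or.inl rfl)
  have huniv : (Finset.univ : Finset (Cfsg.IrrCharacter G))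
      = insert (Helper81.trivIrr G) (T.X1 ∪ (T.X2 ∪ (T.Y ∪ K))) := by
    ext χ
    simp only [Finset.mem_univ, Finset.mem_insert, Finset.mem_union, true_iff]
    by_cases h : χ ∈ Cfsg.principalBlock M G
    · rcases (T.hB χ).mp h with h1 | h1 | h1 | h1
      · exact Or.inl h1
      · exact Or.inr (Or.inl h1)
      · exact Or.inr (Or.inr (Or.inl h1))
      · exact Or.inr (Or.inr (Or.inr (Or.inl h1)))
    · exact Or.inr (Or.inr (Or.inr (Or.inr ((hK χ).mpr h))))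
  have hdYK : Disjoint T.Y K := by
    rw [Finset.disjoint_left]
    intro χ h1 h2
    exact (hK χ).mp h2 (hBY χ h1)
  have hd2 : Disjoint T.X2 (T.Y ∪ K) := by
    rw [Finset.disjoint_union_right]
    refine ⟨T.hX2Y, ?_⟩
    rw [Finset.disjoint_left]
    intro χ h1 h2
    exact (hK χ).mp h2 (hB2 χ h1)
  have hd1 : Disjoint T.X1 (T.X2 ∪ (T.Y ∪ K)) := by
    rw [Finset.disjoint_union_right, Finset.disjoint_union_right]
    refine ⟨T.hX12, T.hX1Y, ?_⟩
    rw [Finset.disjoint_left]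
    intro χ h1 h2
    exact (hK χ).mp h2 (hB1 χ h1)
  have hnot : Helper81.trivIrr G ∉ T.X1 ∪ (T.X2 ∪ (T.Y ∪ K)) := by
    simp only [Finset.mem_union, not_or]
    exact ⟨T.h1X1, T.h1X2, T.h1Y, fun h => (hK _).mp h hBt⟩
  rw [huniv, Finset.sum_insert hnot, Finset.sum_union hd1, Finset.sum_union hd2,
    Finset.sum_union hdYK]
  ring

end Cfsg.Agent.Helper8
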