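import Cfsg.Agent.Helper81.SectionChar

/-!
# Order 5040, piece INT2 of CALL S0978 (helper8): the multiplicity of the trivial character of
`⟨x⟩ × ⟨c⟩`
-/

set_option autoImplicit false
set_option linter.style.haveILetI false
set_option maxHeartbeats 1000000
open Cfsg
open scoped ComplexConjugate

universe u

namespace Cfsg.Agent.Helper8

/-- the sum of a character over a cyclic subgroup, as a sum over exponents. -/
theorem o5040_cyclic_sum {G : Type u} [Group G] [Finite G] (χ : Cfsg.IrrCharacter G) (g : G) :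
    ∃ n : ℕ, ∑ i ∈ Finset.range (orderOf g), (χ : G → ℂ) (g ^ i)
      = (orderOf g : ℂ) * (n : ℂ) := by
  classical
  haveI : Fintype (Subgroup.zpowers g) := Fintype.ofFinite _
  obtain ⟨n, hn⟩ := Helper81.exists_linMult χ (Subgroup.zpowers g).subtype
    (1 : (Subgroup.zpowers g) →* ℂˣ)
  refine ⟨n, ?_⟩
  have hfin : IsOfFinOrder g := isOfFinOrder_of_finite g
  have h1 : ∑ q : Subgroup.zpowers g, (χ : G → ℂ) ((Subgroup.zpowers g).subtype q)
      * conj (((1 : (Subgroup.zpowers g) →* ℂˣ) q : ℂˣ) : ℂ)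
      = ∑ i ∈ Finset.range (orderOf g), (χ : G → ℂ) (g ^ i) := by
    rw [← Fin.sum_univ_eq_sum_range (fun i => (χ : G → ℂ) (g ^ i)) (orderOf g)]
    rw [← Equiv.sum_comp (finEquivZPowers hfin)]
    apply Finset.sum_congr rfl
    intro i _
    simp [finEquivZPowers_apply]
  rw [← h1, hn, ← Nat.card_eq_fintype_card, Nat.card_zpowers]

/-- PIECE INT2: the multiplicity of the trivial character of `⟨x⟩ × ⟨c⟩`, `c` an involution. -/
theorem o5040_int2 {G : Type u} [Group G] [Finite G] (χ : Cfsg.IrrCharacter G) (p : ℕ)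
    (hp : p.Prime) (hp2 : p ≠ 2) (x c : G) (hxc : x * c = c * x) (hx : orderOf x = p)
    (hc : orderOf c = 2) (s : ℂ)
    (h : ∀ a b : ℕ, ¬ p ∣ a → (χ : G → ℂ) (x ^ a * c ^ b) = s) :
    ∃ n : ℕ, (χ : G → ℂ) 1 + (χ : G → ℂ) c + 2 * ((p : ℂ) - 1) * s = 2 * (p : ℂ) * (n : ℂ) := by
  classical
  have hcomm : Commute x c := hxc
  have hpodd : Odd p := hp.odd_of_ne_two hp2
  have hp2' : 2 ≤ p := hp.two_le
  have hord : orderOf (x * c) = p * 2 := by
    rw [hcomm.orderOf_mul_eq_mul_orderOf_of_coprime (by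
      rw [hx, hc]; exact (Nat.coprime_primes hp Nat.prime_two).mpr hp2), hx, hc]
  obtain ⟨n, hn⟩ := o5040_cyclic_sum χ (x * c)
  refine ⟨n, ?_⟩
  rw [hord] at hn
  have hF : ∀ i : ℕ, (χ : G → ℂ) ((x * c) ^ i) = (χ : G → ℂ) (x ^ i * c ^ i) := fun i => by
    rw [hcomm.mul_pow]
  have hcp : c ^ p = c := by
    obtain ⟨k, hk⟩ := hpodd
    have hc2 : c ^ 2 = 1 := by rw [← hc]; exact pow_orderOf_eq_one c
    rw [hk, pow_succ, pow_mul, hc2, one_pow, one_mul]
  have hxp : x ^ p = 1 := by rw [← hx]; exact pow_orderOf_eq_one x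
  have h0mem : 0 ∈ Finset.range (p * 2) := Finset.mem_range.mpr (by omega)
  have hpmem : p ∈ (Finset.range (p * 2)).erase 0 :=
    Finset.mem_erase.mpr ⟨by omega, Finset.mem_range.mpr (by omega)⟩
  rw [← Finset.add_sum_erase _ _ h0mem, ← Finset.add_sum_erase _ _ hpmem] at hn
  have hrest : ∑ i ∈ ((Finset.range (p * 2)).erase 0).erase p, (χ : G → ℂ) ((x * c) ^ i)
      = ((p * 2 - 2 : ℕ) : ℂ) * s := by
    rw [Finset.sum_congr rfl (g := fun _ => s)]
    · rw [Finset.sum_const, Finset.card_erase_of_mem hpmem, Finset.card_erase_of_mem h0mem,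
        Finset.card_range, nsmul_eq_mul]
      congr 2
    · intro i hi
      rw [Finset.mem_erase, Finset.mem_erase, Finset.mem_range] at hi
      obtain ⟨hip, hi0, hilt⟩ := hi
      rw [hF]
      apply h
      rintro ⟨k, rfl⟩
      have hk : k = 0 ∨ k = 1 := by
        have : p * k < p * 2 := hilt
        have := Nat.lt_of_mul_lt_mul_left this
        omega
      rcases hk with rfl | rfl
      · exact hi0 (by simp)
      · exact hip (by simp)
  rw [hrest, hF 0, hF p, pow_zero, pow_zero, one_mul, hxp, one_mul, hcp] at hn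
  have hcast : ((p * 2 - 2 : ℕ) : ℂ) = 2 * ((p : ℂ) - 1) := by
    rw [Nat.cast_sub (by omega)]
    push_cast
    ring
  rw [hcast] at hn
  rw [show (2 : ℂ) * (p : ℂ) * (n : ℂ) = ((p * 2 : ℕ) : ℂ) * (n : ℂ) by push_cast; ring]
  rw [← hn]
  ring

end Cfsg.Agent.Helper8
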