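import Cfsg.Agent.Helper9.OrdTools
import Cfsg.Agent.Helper8.Ord459B
import Cfsg.Agent.Helper79.Codegree
import Cfsg.Agent.Helper81.Blocks

/-!
# Order 5040, pieces KER, IDX and REP of CALL S0978 (helper8)
-/

set_option autoImplicit false
set_option linter.style.haveILetI false
set_option maxHeartbeats 1000000
open Cfsg
open scoped ComplexConjugate

universe u

namespace Cfsg.Agent.Helper8

open Subgroup Cfsg.Agent.Helper9.OrdTools

/-- PIECE KER: a nontrivial irreducible character of a simple group is faithful. -/
theorem o5040_ker {G : Type u} [Group G] [Finite G] [IsSimpleGroup G] (χ : Cfsg.IrrCharacter G)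
    (hχ : χ ≠ Helper81.trivIrr G) (c : G) (h : (χ : G → ℂ) c = (χ : G → ℂ) 1) : c = 1 := by
  have hχ' : χ ≠ Helper79.trivIrr G := by
    intro h'
    apply hχ
    rw [h']
    exact Subtype.ext rfl
  have h1 := Helper79.irr_card_ker_of_isSimpleGroup χ hχ'
  have hsub : Subsingleton {g : G // (χ : G → ℂ) g = (χ : G → ℂ) 1} :=
    (Nat.card_eq_one_iff_unique.mp h1).1
  have := hsub.elim ⟨c, h⟩ ⟨1, rfl⟩
  exact congrArg Subtype.val this

/-- PIECE IDX: proper subgroups have index at least nine. -/
theorem o5040_index_ge_9 {G : Type u} [Group G] [Finite G] [IsSimpleGroup G]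
    (hG : Nat.card G = 5040) (H : Subgroup G) (hH : H ≠ ⊤) : 9 ≤ H.index := by
  haveI : Fact (Nat.Prime 7) := ⟨by norm_num⟩
  obtain ⟨P⟩ : Nonempty (Sylow 7 G) := inferInstance
  have hP : Nat.card (P : Subgroup G) = 7 := by
    have := sylow_card (p := 7) 1 720 (hG.trans (by norm_num)) (by norm_num) P
    simpa using this
  have hna : ∃ a b : G, a * b ≠ b * a :=
    Ord459.exists_not_comm' P (by rw [hP]; norm_num) (by rw [hP, hG]; norm_num)
  have h := card_dvd_factorial_index H hH
  rw [hG] at h
  by_contra hcon
  push Not at hcon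
  have h7 : 7 ≤ H.index := by
    by_contra hcon7
    push Not at hcon7
    have h6 : (H.index).factorial ∣ Nat.factorial 6 := Nat.factorial_dvd_factorial (by omega)
    have h720 : Nat.factorial 6 = 720 := by decide
    rw [h720] at h6
    have := Nat.le_of_dvd (by norm_num) (h.trans h6)
    omega
  obtain ⟨k, hk, hk'⟩ := alt_index hna H (by omega)
  rw [hG] at hk hk'
  have hidx : H.index = 7 ∨ H.index = 8 := by omega
  rcases hidx with h78 | h78
  · rw [h78] at hk
    have h5040 : Nat.factorial 7 = 5040 := by decide
    rw [h5040] at hk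
    omega
  · rw [h78] at hk
    have h40320 : Nat.factorial 8 = 40320 := by decide
    rw [h40320] at hk
    have hk4 : k = 4 := by omega
    subst hk4
    rcases hk' with h1 | h1
    · omega
    · have h24 : Nat.factorial 4 = 24 := by decide
      rw [h24] at h1
      have := Nat.le_of_dvd (by norm_num) h1
      omega

end Cfsg.Agent.Helper8
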