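import Mathlib
import Cfsg.Prelude.Def_Characters
import Cfsg.Prelude.Def_Blocks
import Cfsg.Agent.Helper3.Exceptional
import Cfsg.Agent.Helper3.TIConj
import Cfsg.Agent.Helper79.Induced
import Cfsg.Agent.Helper79.Perm
import Cfsg.Agent.Helper79.Codegree
import Cfsg.Agent.Helper80.LinChar
import Cfsg.Agent.Helper39.Ord4032G1
import Cfsg.Agent.Helper19.Ord4032G2
import Cfsg.Agent.Helper19.Ord4032G3

set_option autoImplicit false
set_option linter.style.haveILetI false
set_option maxHeartbeats 1000000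

/-!
# Order 4032, the character-theoretic step (helper8)

`Ord4032.char_contra`: a perfect group of order `4032` with a self-centralizing element `x` of
order `7` inverted by some `t` (dihedral Sylow `7`-normalizer) has no subgroup of index `21`.
Uses the pieces `bsw7_gram` (helper39), `bsw_pattern`, `bsw7_degree` (helper19).
-/

universe u

open Cfsg



namespace Cfsg.Agent.Helper8

namespace Ord4032

open Cfsg.Agent.Helper39 Cfsg.Agent.Helper19
open scoped ComplexConjugate

/-- a nontrivial linear character of a cyclic group of order `7`. -/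
theorem exists_lam {G : Type u} [Group G] [Finite G] (x : G) (hx : orderOf x = 7) :
    ∃ lam : ↥(Subgroup.zpowers x) →* ℂˣ, lam ≠ 1 := by
  have hcomm : commutator ↥(Subgroup.zpowers x) = ⊥ := by
    rw [commutator_eq_bot_iff_center_eq_top, eq_top_iff]
    intro a _
    rw [Subgroup.mem_center_iff]
    intro b
    obtain ⟨m, hm⟩ := Subgroup.mem_zpowers_iff.mp a.2
    obtain ⟨n, hn⟩ := Subgroup.mem_zpowers_iff.mp b.2
    apply Subtype.ext
    rw [Subgroup.coe_mul, Subgroup.coe_mul, ← hm, ← hn, ← zpow_add, ← zpow_add, add_comm]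
  have h1 : Nat.card (↥(Subgroup.zpowers x) →* ℂˣ) = 7 := by
    rw [Cfsg.Agent.Helper80.card_hom, hcomm, Subgroup.index_bot, Nat.card_zpowers, hx]
  by_contra hcon
  push Not at hcon
  haveI : Subsingleton (↥(Subgroup.zpowers x) →* ℂˣ) := ⟨fun a b => by rw [hcon a, hcon b]⟩
  rw [Nat.card_of_subsingleton (1 : ↥(Subgroup.zpowers x) →* ℂˣ)] at h1
  omega

theorem lam_pow_ne_one {G : Type u} [Group G] (x : G) (hx : orderOf x = 7)
    (lam : ↥(Subgroup.zpowers x) →* ℂˣ) (hlam : lam ≠ 1) (i : ℕ) (hi : 1 ≤ i) (hi6 : i ≤ 6) :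
    lam ^ i ≠ 1 := by
  have h7 : lam ^ 7 = 1 := by
    ext h
    have hh : h ^ 7 = 1 := by
      have : Nat.card ↥(Subgroup.zpowers x) = 7 := by rw [Nat.card_zpowers, hx]
      rw [← this]; exact pow_card_eq_one'
    rw [MonoidHom.pow_apply, ← map_pow, hh, map_one, MonoidHom.one_apply]
  have ho : orderOf lam = 7 := by
    have hd : orderOf lam ∣ 7 := by
      apply orderOf_dvd_of_pow_eq_one
      exact h7
    rcases (Nat.dvd_prime (by norm_num : Nat.Prime 7)).mp hd with h | h
    · exact absurd (orderOf_eq_one_iff.mp h) hlam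
    · exact h
  intro h
  have hd : orderOf lam ∣ i := by
    apply orderOf_dvd_of_pow_eq_one
    exact h
  rw [ho] at hd
  have := Nat.le_of_dvd (by omega) hd
  omega

theorem classInner_pattern {G : Type u} [Group G] [Fintype G] (a b c ψ : G → ℂ) (ε : ℂ) :
    classInner (fun g => a g + ε * (b g - c g)) ψ
      = classInner a ψ + ε * (classInner b ψ - classInner c ψ) := by
  unfold classInner
  simp only [add_mul, mul_sub, sub_mul, Finset.sum_add_distrib, Finset.sum_sub_distrib,
    mul_assoc, ← Finset.mul_sum]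
  ring

/-- the multiplicities of `Ind (1 - lam ^ i)` are integers. -/
theorem alpha_int {G : Type u} [Group G] [Fintype G] (P : Subgroup G) (mu : ↥P →* ℂˣ)
    (χ : IrrCharacter G) :
    ∃ z : ℤ, classInner (indFun P (fun h => 1 - ((mu h : ℂˣ) : ℂ))) (χ : G → ℂ) = (z : ℂ) := by
  have e : (fun h : ↥P => 1 - ((mu h : ℂˣ) : ℂ))
      = (fun _ : ↥P => (1 : ℂ)) - (fun h : ↥P => ((mu h : ℂˣ) : ℂ)) := rfl
  rw [e, Cfsg.Agent.Helper3.indFun_sub, Cfsg.Agent.Helper3.classInner_sub_left]
  obtain ⟨a, ha⟩ := Cfsg.Agent.Helper3.classInner_isCharacter_nat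
    (Cfsg.Agent.Helper3.isCharacter_indFun P _ Cfsg.Agent.Helper79.isCharacter_one)
    (Cfsg.Agent.Helper79.irr_isCharacter χ)
  obtain ⟨b, hb⟩ := Cfsg.Agent.Helper3.classInner_isCharacter_nat
    (Cfsg.Agent.Helper3.isCharacter_indFun P _
      (Cfsg.Agent.Helper79.isCharacter_of_irr (Cfsg.Agent.Helper79.isIrrCharacter_of_hom mu)))
    (Cfsg.Agent.Helper79.irr_isCharacter χ)
  refine ⟨(a : ℤ) - (b : ℤ), ?_⟩
  rw [ha, hb]
  push_cast
  ring

/-- `⟨Ind (1 - mu), 1⟩ = 1` for a nontrivial linear character `mu`. -/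
theorem alpha_triv {G : Type u} [Group G] [Fintype G] (P : Subgroup G) [Fintype P]
    (mu : ↥P →* ℂˣ) (hmu : mu ≠ 1) :
    classInner (indFun P (fun h => 1 - ((mu h : ℂˣ) : ℂ))) (fun _ : G => (1 : ℂ)) = 1 := by
  have hcl : IsClassFunction G (fun _ : G => (1 : ℂ)) := fun _ _ => rfl
  rw [Cfsg.Agent.Helper3.frobenius_reciprocity P _ _ hcl]
  have o := Cfsg.Agent.Helper80.hom_orthogonality mu (1 : ↥P →* ℂˣ)
  rw [if_neg hmu] at o
  simp only [MonoidHom.one_apply, Units.val_one, map_one, mul_one] at o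
  unfold classInner
  have hP : (Nat.card P : ℂ) ≠ 0 := by exact_mod_cast Nat.card_pos.ne'
  simp only [map_one, mul_one, Finset.sum_sub_distrib, o, sub_zero, Finset.sum_const,
    Finset.card_univ, nsmul_eq_mul]
  rw [← Nat.card_eq_fintype_card]
  field_simp

/-- a function induced from `P` and vanishing at `1` is orthogonal to the permutation character
on the cosets of `M`, if no nonidentity element of `P` is conjugate into `M`. -/
theorem perm_orth {G : Type u} [Group G] [Fintype G] (P : Subgroup G) [Fintype P]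
    (M : Subgroup G) (φ : ↥P → ℂ) (h1 : φ 1 = 0)
    (hM : ∀ h : ↥P, h ≠ 1 → ∀ y : G, y * (h : G) * y⁻¹ ∉ M) :
    classInner (indFun P φ) (indFun M (fun _ : ↥M => (1 : ℂ))) = 0 := by
  rw [Cfsg.Agent.Helper3.frobenius_reciprocity P _ _
    (Cfsg.Agent.Helper3.indFun_isClassFunction M _)]
  unfold classInner
  rw [Finset.sum_eq_zero, mul_zero]
  intro h _
  beta_reduce
  by_cases hh : h = 1
  · rw [hh, h1, zero_mul]
  · rw [Cfsg.Agent.Helper3.indFun_eq_zero_of_not_conj M _ (h : G) (hM h hh), map_zero, mul_zero]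

theorem sum_comp_le {I J : Type*} [Fintype I] [Fintype J] (F : I → ℕ) (ι : J → I)
    (hι : Function.Injective ι) : ∑ j, F (ι j) ≤ ∑ i, F i := by
  classical
  rw [← Finset.sum_image (f := F) (g := ι) (s := Finset.univ) (fun a _ b _ h => hι h)]
  exact Finset.sum_le_sum_of_subset (Finset.subset_univ _)

theorem sum_ge4 {I : Type*} [Fintype I] (F : I → ℕ) (t : I) (θ : Fin 3 → I)
    (hinj : Function.Injective θ) (hθt : ∀ k, θ k ≠ t) :
    F t + (F (θ 0) + F (θ 1) + F (θ 2)) ≤ ∑ i, F i := by
  have h := sum_comp_le F (fun o : Option (Fin 3) => o.elim t θ) (by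
    intro a b hab
    cases a with
    | none =>
      cases b with
      | none => rfl
      | some b => exact absurd hab.symm (hθt b)
    | some a =>
      cases b with
      | none => exact absurd hab (hθt a)
      | some b => rw [hinj hab])
  rw [Fintype.sum_option, Fin.sum_univ_three] at h
  exact h

theorem sum_ge5 {I : Type*} [Fintype I] (F : I → ℕ) (t c : I) (θ : Fin 3 → I)
    (hinj : Function.Injective θ) (hθt : ∀ k, θ k ≠ t) (hθc : ∀ k, θ k ≠ c) (hct : c ≠ t) :
    F t + (F c + (F (θ 0) + F (θ 1) + F (θ 2))) ≤ ∑ i, F i := by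
  have h := sum_comp_le F (fun o : Option (Option (Fin 3)) => o.elim t (fun o' => o'.elim c θ)) (by
    intro a b hab
    cases a with
    | none =>
      cases b with
      | none => rfl
      | some b =>
        cases b with
        | none => exact absurd hab.symm hct
        | some b => exact absurd hab.symm (hθt b)
    | some a =>
      cases a with
      | none =>
        cases b with
        | none => exact absurd hab hct
        | some b =>
          cases b with
          | none => rfl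
          | some b => exact absurd hab.symm (hθc b)
      | some a =>
        cases b with
        | none => exact absurd hab (hθt a)
        | some b =>
          cases b with
          | none => exact absurd hab (hθc a)
          | some b =>
            have : a = b := hinj hab
            rw [this])
  rw [Fintype.sum_option, Fintype.sum_option, Fin.sum_univ_three] at h
  exact h

theorem char_contra {G : Type u} [Group G] [Finite G]
    (hcard : Nat.card G = 4032) (hlin : ∀ (f : G →* ℂˣ) (g : G), f g = 1)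
    (x t : G) (hx : orderOf x = 7)
    (hcent : ∀ g : G, g * x = x * g → g ∈ Subgroup.zpowers x)
    (hnorm : ∀ g : G, g * x * g⁻¹ ∈ Subgroup.zpowers x → g * x * g⁻¹ = x ∨ g * x * g⁻¹ = x⁻¹)
    (ht : t * x * t⁻¹ = x⁻¹)
    (M : Subgroup G) (hM : M.index = 21) : False := by
  classical
  haveI : Fintype G := Fintype.ofFinite G
  haveI : Fintype (IrrCharacter G) := Fintype.ofFinite _
  haveI : Fintype ↥(Subgroup.zpowers x) := Fintype.ofFinite _
  haveI : Fintype ↥M := Fintype.ofFinite _
  obtain ⟨lam, hlam⟩ := exists_lam x hx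
  have hpow : ∀ i, 1 ≤ i → i ≤ 6 → lam ^ i ≠ 1 := lam_pow_ne_one x hx lam hlam
  -- the pattern of the three generalized characters
  obtain ⟨χ₁, θ, ε, hε, hθinj, hχ₁1, hθ1, hθχ, hα⟩ := bsw_pattern
    (fun k : Fin 3 =>
      indFun (Subgroup.zpowers x) (fun h => 1 - (((lam ^ (k.val + 1)) h : ℂˣ) : ℂ)))
    (fun k => Cfsg.Agent.Helper3.indFun_isClassFunction _ _)
    (fun k χ => alpha_int _ (lam ^ (k.val + 1)) χ)
    (fun k => Cfsg.Agent.Helper3.indFun_apply_one_of_zero _ _ (by simp))
    (fun k => alpha_triv _ (lam ^ (k.val + 1))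
      (hpow _ (by omega) (by have := k.isLt; omega)))
    (fun k l => by
      have hk := k.isLt
      have hl := l.isLt
      rw [bsw7_gram x t hx hcent hnorm ht lam hlam (k.val + 1) (l.val + 1) (by omega) (by omega)
        (by omega) (by omega)]
      congr 1
      by_cases hkl : k = l
      · subst hkl; simp
      · rw [if_neg hkl, if_neg]
        intro h
        apply hkl
        ext
        omega)
  have hα' : ∀ k : Fin 3,
      indFun (Subgroup.zpowers x) (fun h => 1 - (((lam ^ (k.val + 1)) h : ℂˣ) : ℂ))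
        = fun g => 1 + (ε : ℂ) * ((χ₁ : G → ℂ) g - ((θ k : IrrCharacter G) : G → ℂ) g) := hα
  -- degrees
  have hχ₁deg : (χ₁ : G → ℂ) 1 = (charDegree (χ₁ : G → ℂ) : ℂ) :=
    Cfsg.Agent.Helper79.isCharacter_one_eq_charDegree (Cfsg.Agent.Helper79.irr_isCharacter χ₁)
  have hθdeg : ∀ k, ((θ k : IrrCharacter G) : G → ℂ) 1
      = (charDegree ((θ k : IrrCharacter G) : G → ℂ) : ℂ) := fun k =>
    Cfsg.Agent.Helper79.isCharacter_one_eq_charDegree (Cfsg.Agent.Helper79.irr_isCharacter (θ k))
  have hval : ∀ k : Fin 3, 1 + ε * ((charDegree (χ₁ : G → ℂ) : ℤ)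
      - (charDegree ((θ k : IrrCharacter G) : G → ℂ) : ℤ)) = 0 := by
    intro k
    have h0 : indFun (Subgroup.zpowers x) (fun h => 1 - (((lam ^ (k.val + 1)) h : ℂˣ) : ℂ)) 1 = 0 :=
      Cfsg.Agent.Helper3.indFun_apply_one_of_zero _ _ (by simp)
    rw [hα' k] at h0
    beta_reduce at h0
    rw [hχ₁deg, hθdeg k] at h0
    exact_mod_cast h0
  -- the permutation character
  have hπ : IsCharacter G (indFun M (fun _ : ↥M => (1 : ℂ))) :=
    Cfsg.Agent.Helper3.isCharacter_indFun M _ Cfsg.Agent.Helper79.isCharacter_one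
  have hπdeg : charDegree (indFun M (fun _ : ↥M => (1 : ℂ))) = 21 := by
    rw [Cfsg.Agent.Helper79.charDegree_indFun M Cfsg.Agent.Helper79.isCharacter_one, hM]
    simp [charDegree]
  obtain ⟨b, hb, -, hbdeg⟩ := Cfsg.Agent.Helper79.isCharacter_decomp hπ
  rw [hπdeg] at hbdeg
  have hMcard : Nat.card M = 192 := by
    have := M.card_mul_index
    rw [hM, hcard] at this
    omega
  have hb1 : b (Cfsg.Agent.Helper79.trivIrr G) = 1 := by
    have h1 := hb (Cfsg.Agent.Helper79.trivIrr G)
    have hcl : IsClassFunction G (fun _ : G => (1 : ℂ)) := fun _ _ => rfl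
    have h2 := Cfsg.Agent.Helper79.classInner_indFun_one M hcl
    have h3 : ((Cfsg.Agent.Helper79.trivIrr G : IrrCharacter G) : G → ℂ) = fun _ => 1 := rfl
    rw [h3, h2] at h1
    simp only [Finset.sum_const, Finset.card_univ, nsmul_eq_mul, mul_one, Complex.conj_natCast]
      at h1
    rw [← Nat.card_eq_fintype_card, hMcard] at h1
    have h4 : ((192 : ℕ) : ℂ)⁻¹ * ((192 : ℕ) : ℂ) = 1 := by norm_num
    rw [h4] at h1
    exact_mod_cast h1.symm
  have hMconj : ∀ h : ↥(Subgroup.zpowers x), h ≠ 1 → ∀ y : G, y * (h : G) * y⁻¹ ∉ M := by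
    intro h hh y hmem
    have ho : orderOf (h : G) = 7 := by
      have hd : orderOf (h : G) ∣ 7 := by
        rw [← hx, ← Nat.card_zpowers x]
        exact Subgroup.orderOf_dvd_natCard _ h.2
      rcases (Nat.dvd_prime (by norm_num : Nat.Prime 7)).mp hd with h1 | h1
      · exact absurd (Subtype.ext (orderOf_eq_one_iff.mp h1)) hh
      · exact h1
    have ho' : orderOf (y * (h : G) * y⁻¹) = 7 := by
      have h1 := MulEquiv.orderOf_eq (MulAut.conj y) (h : G)
      rw [MulAut.conj_apply] at h1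
      rw [h1, ho]
    have hd := Subgroup.orderOf_dvd_natCard M hmem
    rw [ho', hMcard] at hd
    omega
  have hmult : ∀ k : Fin 3, 1 + ε * ((b χ₁ : ℤ) - (b (θ k) : ℤ)) = 0 := by
    intro k
    have h0 := perm_orth (Subgroup.zpowers x) M
      (fun h => 1 - (((lam ^ (k.val + 1)) h : ℂˣ) : ℂ)) (by simp) hMconj
    rw [hα' k, classInner_pattern (fun _ => (1 : ℂ)) (χ₁ : G → ℂ) ((θ k : IrrCharacter G) : G → ℂ)
      (indFun M (fun _ : ↥M => (1 : ℂ))) (ε : ℂ)] at h0
    have hc : ∀ η : IrrCharacter G,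
        classInner (η : G → ℂ) (indFun M (fun _ : ↥M => (1 : ℂ))) = (b η : ℂ) := by
      intro η
      rw [Cfsg.Agent.Helper3.classInner_conj (indFun M (fun _ : ↥M => (1 : ℂ))) (η : G → ℂ), hb η,
        Complex.conj_natCast]
    have h3 : (fun _ : G => (1 : ℂ)) = ((Cfsg.Agent.Helper79.trivIrr G : IrrCharacter G) : G → ℂ) :=
      rfl
    rw [h3, hc, hc, hc, hb1] at h0
    exact_mod_cast h0
  -- inner products with `χ₁`
  have hin : ∀ i : ℕ, 1 ≤ i → i ≤ 3 →
      classInner (indFun (Subgroup.zpowers x) (fun h => 1 - (((lam ^ i) h : ℂˣ) : ℂ)))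
        (χ₁ : G → ℂ) = (ε : ℂ) := by
    intro i hi hi3
    have h0 := hα' ⟨i - 1, by omega⟩
    have hi' : (⟨i - 1, by omega⟩ : Fin 3).val + 1 = i := by
      show i - 1 + 1 = i
      omega
    rw [hi'] at h0
    rw [h0, classInner_pattern (fun _ => (1 : ℂ)) (χ₁ : G → ℂ)
      ((θ ⟨i - 1, by omega⟩ : IrrCharacter G) : G → ℂ) (χ₁ : G → ℂ) (ε : ℂ)]
    have h3 : (fun _ : G => (1 : ℂ)) = ((Cfsg.Agent.Helper79.trivIrr G : IrrCharacter G) : G → ℂ) :=
      rfl
    rw [h3, Cfsg.Agent.Helper3.classInner_irr, Cfsg.Agent.Helper3.classInner_irr,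
      Cfsg.Agent.Helper3.classInner_irr, if_pos rfl, if_neg (hθχ _), if_neg]
    · ring
    · intro h
      apply hχ₁1
      rw [← h]
      rfl
  obtain ⟨m, hm, hf⟩ := bsw7_degree x t hx ht lam hlam (χ₁ : G → ℂ)
    (Cfsg.Agent.Helper79.irr_isCharacter χ₁) ε hin
  have htriv_deg : charDegree ((Cfsg.Agent.Helper79.trivIrr G : IrrCharacter G) : G → ℂ) = 1 := by
    simp [charDegree]
  have hθtriv : ∀ k, θ k ≠ Cfsg.Agent.Helper79.trivIrr G := by
    intro k h
    apply hθ1 k
    rw [h]
    rfl
  have hχtriv : χ₁ ≠ Cfsg.Agent.Helper79.trivIrr G := by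
    intro h
    apply hχ₁1
    rw [h]
    rfl
  rcases hε with rfl | rfl
  · -- `ε = 1`
    have h4 := sum_ge4 (fun η : IrrCharacter G => b η * charDegree (η : G → ℂ))
      (Cfsg.Agent.Helper79.trivIrr G) θ hθinj hθtriv
    rw [← hbdeg] at h4
    simp only [hb1, htriv_deg] at h4
    have hv0 := hval 0
    have hv1 := hval 1
    have hv2 := hval 2
    have hm0 := hmult 0
    have hm1 := hmult 1
    have hm2 := hmult 2
    have hb0 : 1 ≤ b (θ 0) := by omega
    have hb1' : 1 ≤ b (θ 1) := by omega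
    have hb2 : 1 ≤ b (θ 2) := by omega
    have e0 := Nat.mul_le_mul_right (charDegree ((θ 0 : IrrCharacter G) : G → ℂ)) hb0
    have e1 := Nat.mul_le_mul_right (charDegree ((θ 1 : IrrCharacter G) : G → ℂ)) hb1'
    have e2 := Nat.mul_le_mul_right (charDegree ((θ 2 : IrrCharacter G) : G → ℂ)) hb2
    have hf1 : charDegree (χ₁ : G → ℂ) = 1 := by omega
    obtain ⟨f, hf'⟩ := Cfsg.Agent.Helper80.exists_hom_of_linear χ₁ hf1
    apply hχ₁1
    rw [← hf']
    funext g
    rw [Cfsg.Agent.Helper80.homIrr_apply, hlin f g]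
    simp
  · -- `ε = -1`
    have h5 := sum_ge5 (fun η : IrrCharacter G => b η * charDegree (η : G → ℂ))
      (Cfsg.Agent.Helper79.trivIrr G) χ₁ θ hθinj hθtriv hθχ hχtriv
    rw [← hbdeg] at h5
    simp only [hb1, htriv_deg] at h5
    have hv0 := hval 0
    have hv1 := hval 1
    have hv2 := hval 2
    have hm0 := hmult 0
    have hm1 := hmult 1
    have hm2 := hmult 2
    have hdvd := Cfsg.Agent.Helper79.irr_charDegree_dvd_card χ₁
    have hdvd0 := Cfsg.Agent.Helper79.irr_charDegree_dvd_card (θ 0)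
    rw [hcard] at hdvd hdvd0
    by_cases hb0 : 1 ≤ b (θ 0)
    · exfalso
      have hbχ : 2 ≤ b χ₁ := by omega
      have hb1' : 1 ≤ b (θ 1) := by omega
      have hb2 : 1 ≤ b (θ 2) := by omega
      have e := Nat.mul_le_mul_right (charDegree (χ₁ : G → ℂ)) hbχ
      have e0 := Nat.mul_le_mul_right (charDegree ((θ 0 : IrrCharacter G) : G → ℂ)) hb0
      have e1 := Nat.mul_le_mul_right (charDegree ((θ 1 : IrrCharacter G) : G → ℂ)) hb1'
      have e2 := Nat.mul_le_mul_right (charDegree ((θ 2 : IrrCharacter G) : G → ℂ)) hb2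
      omega
    · have hbχ : b χ₁ = 1 := by omega
      rw [hbχ] at h5
      have hle : charDegree (χ₁ : G → ℂ) ≤ 20 := by omega
      have hm2' : m ≤ 2 := by omega
      have hf6 : charDegree (χ₁ : G → ℂ) = 6 := by
        interval_cases m
        · omega
        · exfalso
          have : charDegree (χ₁ : G → ℂ) = 13 := by omega
          rw [this] at hdvd
          omega
        · exfalso
          have : charDegree (χ₁ : G → ℂ) = 20 := by omega
          rw [this] at hdvd
          omega
      have hd5 : charDegree ((θ 0 : IrrCharacter G) : G → ℂ) = 5 := by omega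
      rw [hd5] at hdvd0
      omega

end Ord4032

end Cfsg.Agent.Helper8
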