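import Cfsg.Agent.Helper9.BRDefs
import Cfsg.Agent.Helper79.Basic
import Cfsg.Agent.Helper81.CharBasic
import Cfsg.Agent.Helper31.BRK3
import Cfsg.Agent.Helper75.BRT1
import Cfsg.Agent.Helper75.BRT3

/-!
# Brauer–Reynolds, beta stage: the character table at the involution (helper8, piece S3a)
-/

set_option autoImplicit false
set_option maxHeartbeats 1000000
open Cfsg
open scoped ComplexConjugate

universe u

namespace Cfsg.Agent.Helper8

/-- the sum of a function over a subgroup, split off the identity. -/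
theorem br_sum_subgroup_split {G : Type u} [Group G] [Fintype G] (H : Subgroup G) (f : G → ℂ)
    (c : ℂ) (hc : ∀ x : G, x ∈ H → x ≠ 1 → f x = c) :
    ∑ᶠ x : H, f (x : G) = f 1 + ((Nat.card H : ℂ) - 1) * c := by
  classical
  have : Fintype H := Fintype.ofFinite H
  rw [finsum_eq_sum_of_fintype, ← Finset.add_sum_erase Finset.univ _ (Finset.mem_univ (1 : H))]
  congr 1
  rw [Finset.sum_congr rfl (g := fun _ => c)]
  · rw [Finset.sum_const, Finset.card_erase_of_mem (Finset.mem_univ _), Finset.card_univ,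
      nsmul_eq_mul, Nat.card_eq_fintype_card, Nat.cast_sub Fintype.card_pos, Nat.cast_one]
  · intro x hx
    have hx1 : x ≠ 1 := Finset.ne_of_mem_erase hx
    exact hc x x.2 (fun h => hx1 (Subtype.ext h))

/-- S3a: the character table at the involution `τ`. -/
theorem br_beta_table {G : Type u} [Group G] [Fintype G] {p : ℕ} [Fact p.Prime] (hodd : p ≠ 2)
    {M : Ideal Cfsg.AlgInt} (hM : Cfsg.IsPModular p M)
    (P : Sylow p G) (hP : Nat.card (P : Subgroup G) = p)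
    (hC : Nat.card (Subgroup.centralizer ((P : Subgroup G) : Set G)) = p)
    (q t : ℕ) (T : Cfsg.Agent.Helper9.BRTab p M P q) (ht : 2 ≤ t) (hqt : q * t = p - 1)
    (hε : T.ε = -1)
    (hX1 : ∀ χ ∈ T.X1, Cfsg.charDegree (χ : G → ℂ) = 1 + (t - 1) * p)
    (hX2 : ∀ χ ∈ T.X2, Cfsg.charDegree (χ : G → ℂ) = p - 1)
    (hY : ∀ θ ∈ T.Y, Cfsg.charDegree (θ : G → ℂ) = p - q)
    (τ : G) (hτ : orderOf τ = 2) (hinv : ∀ x : G, x ∈ (P : Subgroup G) → τ * x * τ⁻¹ = x⁻¹) :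
    ∃ (r : Cfsg.IrrCharacter G → ℤ) (w : Cfsg.IrrCharacter G → ℕ) (κ : ℤ),
      (∀ χ : Cfsg.IrrCharacter G, (χ : G → ℂ) τ = (r χ : ℂ)) ∧
      (∀ χ ∈ T.X2, r χ = 0) ∧ (∀ χ ∈ T.X1, |r χ| ≤ (t : ℤ)) ∧
      (∀ θ ∈ T.Y, r θ = κ) ∧ (κ = 0 ∨ κ = 1 ∨ κ = -1) ∧
      (∀ χ : Cfsg.IrrCharacter G, χ ∉ Cfsg.principalBlock M G →
        Cfsg.charDegree (χ : G → ℂ) = p * w χ ∧ 1 ≤ w χ) := by
  classical
  have hpp : p.Prime := Fact.out
  have hp2 : 2 ≤ p := hpp.two_le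
  have hpodd : Odd (Nat.card (P : Subgroup G)) := by
    rw [hP]
    exact hpp.odd_of_ne_two hodd
  have hq1 : 1 ≤ q := by
    rcases Nat.eq_zero_or_pos q with h | h
    · rw [h] at hqt; omega
    · exact h
  have hqp : q < p := by
    have : q * 1 ≤ q * t := Nat.mul_le_mul_left q (by omega)
    omega
  have hpC : (p : ℂ) ≠ 0 := by exact_mod_cast (by omega : p ≠ 0)
  have hdeg : ∀ χ : Cfsg.IrrCharacter G,
      (χ : G → ℂ) 1 = (Cfsg.charDegree (χ : G → ℂ) : ℂ) := fun χ =>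
    Cfsg.Agent.Helper79.isCharacter_one_eq_charDegree (Cfsg.Agent.Helper79.irr_isCharacter χ)
  have hreg1 : ¬ p ∣ orderOf (1 : G) := by
    rw [orderOf_one]
    intro hd
    have := Nat.le_of_dvd (by norm_num) hd
    omega
  have hregτ : ¬ p ∣ orderOf τ := by
    rw [hτ]
    intro hd
    have := Nat.le_of_dvd (by norm_num) hd
    omega
  -- the dihedral data
  choose m₁ m₂ hm hsum using fun χ : Cfsg.IrrCharacter G =>
    Cfsg.Agent.Helper31.br_dihedral χ (P : Subgroup G) hpodd τ hτ hinv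
  simp only [hP] at hsum
  have hYcard : T.Y.card = t := by
    rw [T.hcardY, ← hqt, Nat.mul_comm]
    exact Nat.mul_div_cancel t hq1
  have hYne : T.Y.Nonempty := by
    rw [← Finset.card_pos, hYcard]
    omega
  obtain ⟨θ₀, hθ₀⟩ := hYne
  have hr : ∀ χ : Cfsg.IrrCharacter G, (χ : G → ℂ) τ = (((m₁ χ : ℤ) - (m₂ χ : ℤ) : ℤ) : ℂ) := by
    intro χ
    rw [hm χ]
    push_cast
    ring
  -- sums over `P`
  have hsumX2 : ∀ χ ∈ T.X2, m₁ χ + m₂ χ = 0 := by
    intro χ hχ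
    have h1 := br_sum_subgroup_split (P : Subgroup G) (χ : G → ℂ) (-1) (by
      intro x hx hx1
      have h := (T.hX2 χ hχ).2 x hx hx1 1 (Subgroup.one_mem _) hreg1
      rwa [mul_one] at h)
    rw [hsum χ, hdeg, hX2 χ hχ, hP, Nat.cast_sub (by omega : 1 ≤ p)] at h1
    have h2 : (p : ℂ) * (((m₁ χ + m₂ χ : ℕ) : ℂ)) = 0 := by
      push_cast
      rw [h1]
      push_cast
      ring
    rcases mul_eq_zero.mp h2 with h | h
    · exact absurd h hpC
    · exact_mod_cast h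
  have hsumX1 : ∀ χ ∈ T.X1, m₁ χ + m₂ χ = t := by
    intro χ hχ
    have h1 := br_sum_subgroup_split (P : Subgroup G) (χ : G → ℂ) 1 (by
      intro x hx hx1
      have h := (T.hX1 χ hχ).2 x hx hx1 1 (Subgroup.one_mem _) hreg1
      rwa [mul_one] at h)
    rw [hsum χ, hdeg, hX1 χ hχ, hP] at h1
    have h2 : (p : ℂ) * (((m₁ χ + m₂ χ : ℕ) : ℂ)) = (p : ℂ) * (t : ℂ) := by
      push_cast
      rw [h1]
      push_cast [Nat.cast_sub (by omega : 1 ≤ t)]
      ring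
    have h3 := mul_left_cancel₀ hpC h2
    exact_mod_cast h3
  have hsumK : ∀ χ : Cfsg.IrrCharacter G, χ ∉ Cfsg.principalBlock M G →
      Cfsg.charDegree (χ : G → ℂ) = p * (m₁ χ + m₂ χ) := by
    intro χ hχ
    have h1 := br_sum_subgroup_split (P : Subgroup G) (χ : G → ℂ) 0 (by
      intro x hx hx1
      exact Cfsg.Agent.Helper75.br_vanish hM P hP hC χ hχ x hx hx1)
    rw [hsum χ, hdeg, mul_zero, add_zero] at h1
    have h2 : ((Cfsg.charDegree (χ : G → ℂ) : ℕ) : ℂ) = ((p * (m₁ χ + m₂ χ) : ℕ) : ℂ) := by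
      rw [← h1]
      push_cast
      ring
    exact_mod_cast h2
  -- the exceptional characters
  have hYτ : ∀ θ ∈ T.Y, (m₁ θ : ℤ) - (m₂ θ : ℤ) = (m₁ θ₀ : ℤ) - (m₂ θ₀ : ℤ) := by
    intro θ hθ
    have h := T.hYreg θ hθ θ₀ hθ₀ τ hregτ
    rw [hr θ, hr θ₀] at h
    exact_mod_cast h
  have hsumY : ∑ θ ∈ T.Y, (m₁ θ + m₂ θ) = t := by
    have h1 : ∑ θ ∈ T.Y, ∑ᶠ x : (P : Subgroup G), (θ : G → ℂ) (x : G)
        = (p : ℂ) * (t : ℂ) := by
      have : Fintype (P : Subgroup G) := Fintype.ofFinite _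
      have h2 : ∀ θ ∈ T.Y, ∑ᶠ x : (P : Subgroup G), (θ : G → ℂ) (x : G)
          = ∑ x : (P : Subgroup G), (θ : G → ℂ) (x : G) := fun θ _ => finsum_eq_sum_of_fintype _
      rw [Finset.sum_congr rfl h2, Finset.sum_comm]
      rw [← Finset.add_sum_erase Finset.univ _ (Finset.mem_univ (1 : (P : Subgroup G)))]
      have h3 : ∑ θ ∈ T.Y, (θ : G → ℂ) ((1 : (P : Subgroup G)) : G)
          = (t : ℂ) * ((p : ℂ) - (q : ℂ)) := by
        rw [Finset.sum_congr rfl (g := fun _ => (p : ℂ) - (q : ℂ))]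
        · rw [Finset.sum_const, hYcard, nsmul_eq_mul]
        · intro θ hθ
          rw [Subgroup.coe_one, hdeg, hY θ hθ, Nat.cast_sub hqp.le]
      have h4 : ∑ x ∈ Finset.univ.erase (1 : (P : Subgroup G)), ∑ θ ∈ T.Y, (θ : G → ℂ) (x : G)
          = ((p : ℂ) - 1) * 1 := by
        rw [Finset.sum_congr rfl (g := fun _ => (1 : ℂ))]
        · rw [Finset.sum_const, Finset.card_erase_of_mem (Finset.mem_univ _), Finset.card_univ,
            nsmul_eq_mul, ← Nat.card_eq_fintype_card, hP, Nat.cast_sub (by omega : 1 ≤ p),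
            Nat.cast_one]
        · intro x hx
          have hx1 : x ≠ 1 := Finset.ne_of_mem_erase hx
          rw [Cfsg.Agent.Helper75.br_theta_sum hM T ⟨θ₀, hθ₀⟩ (x : G) x.2 (fun h => hx1 (Subtype.ext h)), hε]
          push_cast
          ring
      rw [h3, h4]
      have hqtC : (q : ℂ) * (t : ℂ) = (p : ℂ) - 1 := by
        have h : ((q * t : ℕ) : ℂ) = ((p - 1 : ℕ) : ℂ) := by rw [hqt]
        rw [Nat.cast_sub (by omega : 1 ≤ p)] at h
        push_cast at h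
        exact h
      linear_combination (-1 : ℂ) * hqtC
    rw [Finset.sum_congr rfl (fun θ _ => hsum θ), ← Finset.mul_sum] at h1
    have h5 := mul_left_cancel₀ hpC h1
    have h6 : ((∑ θ ∈ T.Y, (m₁ θ + m₂ θ) : ℕ) : ℂ) = (t : ℂ) := by
      rw [← h5]
      push_cast
      rfl
    exact_mod_cast h6
  refine ⟨fun χ => (m₁ χ : ℤ) - (m₂ χ : ℤ), fun χ => m₁ χ + m₂ χ,
    (m₁ θ₀ : ℤ) - (m₂ θ₀ : ℤ), hr, ?_, ?_, hYτ, ?_, ?_⟩
  · intro χ hχ
    have := hsumX2 χ hχ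
    show (m₁ χ : ℤ) - (m₂ χ : ℤ) = 0
    omega
  · intro χ hχ
    have := hsumX1 χ hχ
    show |(m₁ χ : ℤ) - (m₂ χ : ℤ)| ≤ (t : ℤ)
    rw [abs_le]
    constructor <;> omega
  · -- `|κ| ≤ 1`
    by_contra hcon
    have hbig : ∀ θ ∈ T.Y, 2 ≤ m₁ θ + m₂ θ := by
      intro θ hθ
      have := hYτ θ hθ
      omega
    have h1 : ∑ θ ∈ T.Y, 2 ≤ ∑ θ ∈ T.Y, (m₁ θ + m₂ θ) := Finset.sum_le_sum hbig
    rw [Finset.sum_const, hYcard, hsumY, smul_eq_mul] at h1
    omega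
  · intro χ hχ
    refine ⟨hsumK χ hχ, ?_⟩
    have hpos := Cfsg.Agent.Helper81.charDegree_pos χ
    rw [hsumK χ hχ] at hpos
    rcases Nat.eq_zero_or_pos (m₁ χ + m₂ χ) with h | h
    · rw [h, mul_zero] at hpos
      omega
    · exact h

end Cfsg.Agent.Helper8
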