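import Cfsg.Agent.Helper9.BRDefs
import Cfsg.Agent.Helper8.BRSplit
import Cfsg.Agent.Helper67.BRK1
import Cfsg.Agent.Helper37.BRA4
import Cfsg.Agent.Helper79.Basic
import Cfsg.Agent.Helper75.BRT1
import Cfsg.Agent.Helper75.BRT3

/-!
# Brauer–Reynolds, beta stage: the class-constant relations (helper8, piece S3b2 of CALL S0999)
-/

set_option autoImplicit false
set_option maxHeartbeats 1000000
open Cfsg
open scoped ComplexConjugate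

universe u

namespace Cfsg.Agent.Helper8

open Cfsg.Agent.Helper67 Cfsg.Agent.Helper37

/-- S3b2: the two class-constant relations (E1 and the cubic one). -/
theorem br_beta_class {G : Type u} [Group G] [Fintype G] {p : ℕ} [Fact p.Prime] (hodd : p ≠ 2)
    {M : Ideal Cfsg.AlgInt} (hM : Cfsg.IsPModular p M)
    (P : Sylow p G) (hP : Nat.card (P : Subgroup G) = p)
    (hC : Nat.card (Subgroup.centralizer ((P : Subgroup G) : Set G)) = p)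
    (q t : ℕ)
    (hcard : Nat.card G = p * q * (1 + (t - 1) * p))
    (T : Cfsg.Agent.Helper9.BRTab p M P q) (ht : 2 ≤ t) (hqt : q * t = p - 1)
    (hε : T.ε = -1)
    (hX1 : ∀ χ ∈ T.X1, Cfsg.charDegree (χ : G → ℂ) = 1 + (t - 1) * p)
    (hX2 : ∀ χ ∈ T.X2, Cfsg.charDegree (χ : G → ℂ) = p - 1)
    (hY : ∀ θ ∈ T.Y, Cfsg.charDegree (θ : G → ℂ) = p - q)
    (τ : G) (hτ : orderOf τ = 2) (hinv : ∀ x : G, x ∈ (P : Subgroup G) → τ * x * τ⁻¹ = x⁻¹)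
    (hall : ∀ σ : G, σ ∈ Subgroup.normalizer ((P : Subgroup G) : Set G) → orderOf σ = 2 →
        ∃ x : G, x ∈ (P : Subgroup G) ∧ σ = x * τ)
    (K : Finset (Cfsg.IrrCharacter G))
    (hK : ∀ χ : Cfsg.IrrCharacter G, χ ∈ K ↔ χ ∉ Cfsg.principalBlock M G)
    (r : Cfsg.IrrCharacter G → ℤ) (w : Cfsg.IrrCharacter G → ℕ) (κ : ℤ)
    (hr : ∀ χ : Cfsg.IrrCharacter G, (χ : G → ℂ) τ = (r χ : ℂ))
    (hrX2 : ∀ χ ∈ T.X2, r χ = 0) (hrY : ∀ θ ∈ T.Y, r θ = κ)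
    (hw : ∀ χ ∈ K, Cfsg.charDegree (χ : G → ℂ) = p * w χ ∧ 1 ≤ w χ) :
    ((Nat.card (Subgroup.centralizer ({τ} : Set G)) : ℤ) ^ 2
        = q * ((1 + ((t : ℤ) - 1) * p) + ∑ i ∈ T.X1, r i ^ 2 + t * κ ^ 2)) ∧
    ((Nat.card {gh : G × G // gh.1 * τ * gh.1⁻¹ * (gh.2 * τ * gh.2⁻¹) = τ} : ℚ)
      = ((p : ℚ) * q * (1 + ((t : ℚ) - 1) * p)) *
        (1 + ∑ i ∈ T.X1, (r i : ℚ) ^ 3 / (1 + ((t : ℚ) - 1) * p) + t * (κ : ℚ) ^ 3 / ((p : ℚ) - q)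
          + ∑ k ∈ K, (r k : ℚ) ^ 3 / ((p : ℚ) * (w k : ℚ)))) := by
  classical
  have hpp : p.Prime := Fact.out
  have hp2 : 2 ≤ p := hpp.two_le
  have hq1 : 1 ≤ q := by
    rcases Nat.eq_zero_or_pos q with h | h
    · rw [h] at hqt; omega
    · exact h
  have hqp : q < p := by
    have : q * 1 ≤ q * t := Nat.mul_le_mul_left q (by omega)
    omega
  -- complex versions of the arithmetic
  have hqtC : (q : ℂ) * (t : ℂ) = (p : ℂ) - 1 := by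
    have h : ((q * t : ℕ) : ℂ) = ((p - 1 : ℕ) : ℂ) := by rw [hqt]
    rw [Nat.cast_sub (by omega : 1 ≤ p)] at h
    push_cast at h
    exact h
  have hpC : (p : ℂ) ≠ 0 := by exact_mod_cast (by omega : p ≠ 0)
  have hpqC : (p : ℂ) - (q : ℂ) ≠ 0 := by
    have h : ((p - q : ℕ) : ℂ) ≠ 0 := by exact_mod_cast (by omega : p - q ≠ 0)
    rw [Nat.cast_sub hqp.le] at h
    exact h
  have hNnat : 1 + (t - 1) * p = t * (p - q) := by
    have h1 : t * (p - q) = t * p - t * q := Nat.mul_sub t p q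
    have h2 : t * q = p - 1 := by rw [Nat.mul_comm]; exact hqt
    have h3 : (t - 1) * p = t * p - p := by
      rw [Nat.sub_mul, Nat.one_mul]
    have h4 : p ≤ t * p := Nat.le_mul_of_pos_left p (by omega)
    omega
  have hNC : (1 : ℂ) + ((t : ℂ) - 1) * (p : ℂ) = (t : ℂ) * ((p : ℂ) - (q : ℂ)) := by
    have h : ((1 + (t - 1) * p : ℕ) : ℂ) = ((t * (p - q) : ℕ) : ℂ) := by rw [hNnat]
    rw [Nat.cast_mul, Nat.cast_sub hqp.le] at h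
    rw [← h]
    push_cast [Nat.cast_sub (by omega : 1 ≤ t)]
    ring
  have htC : (t : ℂ) ≠ 0 := by exact_mod_cast (by omega : t ≠ 0)
  have hNC0 : (1 : ℂ) + ((t : ℂ) - 1) * (p : ℂ) ≠ 0 := by
    rw [hNC]
    exact mul_ne_zero htC hpqC
  have hGC : (Nat.card G : ℂ) = (p : ℂ) * (q : ℂ) * (1 + ((t : ℂ) - 1) * (p : ℂ)) := by
    rw [hcard]
    push_cast [Nat.cast_sub (by omega : 1 ≤ t)]
    ring
  -- degrees
  have hdeg : ∀ χ : Cfsg.IrrCharacter G,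
      (χ : G → ℂ) 1 = (Cfsg.charDegree (χ : G → ℂ) : ℂ) := fun χ =>
    Cfsg.Agent.Helper79.isCharacter_one_eq_charDegree (Cfsg.Agent.Helper79.irr_isCharacter χ)
  have hdegX1 : ∀ χ ∈ T.X1, (χ : G → ℂ) 1 = 1 + ((t : ℂ) - 1) * (p : ℂ) := by
    intro χ hχ
    rw [hdeg, hX1 χ hχ]
    push_cast [Nat.cast_sub (by omega : 1 ≤ t)]
    ring
  have hdegY : ∀ θ ∈ T.Y, (θ : G → ℂ) 1 = (p : ℂ) - (q : ℂ) := by
    intro θ hθ
    rw [hdeg, hY θ hθ, Nat.cast_sub hqp.le]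
  have hdegK : ∀ χ ∈ K, (χ : G → ℂ) 1 = (p : ℂ) * (w χ : ℂ) := by
    intro χ hχ
    rw [hdeg, (hw χ hχ).1]
    push_cast
    ring
  have hYcard : T.Y.card = t := by
    rw [T.hcardY, ← hqt, Nat.mul_comm]
    exact Nat.mul_div_cancel t hq1
  have hYne : T.Y.Nonempty := by
    rw [← Finset.card_pos, hYcard]
    omega
  -- an element of order `p`
  obtain ⟨z, hzP, hz1⟩ : ∃ z ∈ (P : Subgroup G), z ≠ 1 := by
    by_contra hcon
    push Not at hcon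
    have : (P : Subgroup G) = ⊥ := (Subgroup.eq_bot_iff_forall _).mpr hcon
    rw [this, Subgroup.card_bot] at hP
    omega
  have htriv1 : ∀ g : G, ((Helper81.trivIrr G : Cfsg.IrrCharacter G) : G → ℂ) g = 1 := fun g => rfl
  have hX1z : ∀ χ ∈ T.X1, (χ : G → ℂ) z = 1 := by
    intro χ hχ
    have h := (T.hX1 χ hχ).2 z hzP hz1 1 (Subgroup.one_mem _) (by
      rw [orderOf_one]
      intro hd
      have := Nat.le_of_dvd (by norm_num) hd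
      omega)
    rwa [mul_one] at h
  have hKz : ∀ χ ∈ K, (χ : G → ℂ) z = 0 := fun χ hχ =>
    Cfsg.Agent.Helper75.br_vanish hM P hP hC χ ((hK χ).mp hχ) z hzP hz1
  have hYz : ∑ θ ∈ T.Y, (θ : G → ℂ) z = 1 := by
    rw [Cfsg.Agent.Helper75.br_theta_sum hM T hYne z hzP hz1, hε]
    push_cast
    ring
  constructor
  · -- E1
    have h1 := br_class_const τ τ z
    rw [br_pairs_z hodd P hP τ hτ hinv hall z hzP hz1, hGC,
      br_sum_split T K hK] at h1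
    have e1 : ∑ χ ∈ T.X1, (χ : G → ℂ) τ * (χ : G → ℂ) τ * conj ((χ : G → ℂ) z) / (χ : G → ℂ) 1
        = (∑ χ ∈ T.X1, (r χ : ℂ) ^ 2) / (1 + ((t : ℂ) - 1) * (p : ℂ)) := by
      rw [Finset.sum_div]
      apply Finset.sum_congr rfl
      intro χ hχ
      rw [hr χ, hX1z χ hχ, hdegX1 χ hχ, map_one]
      ring
    have e2 : ∑ χ ∈ T.X2, (χ : G → ℂ) τ * (χ : G → ℂ) τ * conj ((χ : G → ℂ) z) / (χ : G → ℂ) 1
        = 0 := by
      apply Finset.sum_eq_zero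
      intro χ hχ
      rw [hr χ, hrX2 χ hχ]
      simp
    have e3 : ∑ χ ∈ T.Y, (χ : G → ℂ) τ * (χ : G → ℂ) τ * conj ((χ : G → ℂ) z) / (χ : G → ℂ) 1
        = (κ : ℂ) ^ 2 / ((p : ℂ) - (q : ℂ)) := by
      have : ∀ χ ∈ T.Y, (χ : G → ℂ) τ * (χ : G → ℂ) τ * conj ((χ : G → ℂ) z) / (χ : G → ℂ) 1
          = (κ : ℂ) ^ 2 / ((p : ℂ) - (q : ℂ)) * conj ((χ : G → ℂ) z) := by
        intro χ hχ
        rw [hr χ, hrY χ hχ, hdegY χ hχ]
        ring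
      rw [Finset.sum_congr rfl this, ← Finset.mul_sum, ← map_sum, hYz, map_one, mul_one]
    have e4 : ∑ χ ∈ K, (χ : G → ℂ) τ * (χ : G → ℂ) τ * conj ((χ : G → ℂ) z) / (χ : G → ℂ) 1
        = 0 := by
      apply Finset.sum_eq_zero
      intro χ hχ
      rw [hKz χ hχ]
      simp
    rw [e1, e2, e3, e4, htriv1, htriv1, htriv1, map_one] at h1
    have e5 : (κ : ℂ) ^ 2 / ((p : ℂ) - (q : ℂ))
        = (t : ℂ) * (κ : ℂ) ^ 2 / (1 + ((t : ℂ) - 1) * (p : ℂ)) := by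
      rw [hNC]
      field_simp
    rw [e5] at h1
    obtain ⟨Nc, hNc⟩ : ∃ Nc : ℂ, Nc = 1 + ((t : ℂ) - 1) * (p : ℂ) := ⟨_, rfl⟩
    rw [← hNc] at h1 hNC0
    have h2 : (((Nat.card (Subgroup.centralizer ({τ} : Set G)) : ℤ) ^ 2 : ℤ) : ℂ)
        = ((q * ((1 + ((t : ℤ) - 1) * p) + ∑ i ∈ T.X1, r i ^ 2 + t * κ ^ 2) : ℤ) : ℂ) := by
      push_cast
      push_cast at h1
      rw [← hNc]
      have h3 : (p : ℂ) * (Nat.card (Subgroup.centralizer ({τ} : Set G)) : ℂ) ^ 2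
          = (p : ℂ) * ((q : ℂ) * (Nc + ∑ i ∈ T.X1, (r i : ℂ) ^ 2 + (t : ℂ) * (κ : ℂ) ^ 2)) := by
        rw [mul_comm (p : ℂ) ((Nat.card (Subgroup.centralizer ({τ} : Set G)) : ℂ) ^ 2), h1]
        field_simp
        ring
      exact mul_left_cancel₀ hpC h3
    exact_mod_cast h2
  · -- the cubic relation
    have h1 := br_class_const τ τ τ
    rw [hGC, br_sum_split T K hK] at h1
    have hreal : ∀ χ : Cfsg.IrrCharacter G, conj ((χ : G → ℂ) τ) = (r χ : ℂ) := by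
      intro χ
      rw [hr χ, map_intCast]
    have e1 : ∑ χ ∈ T.X1, (χ : G → ℂ) τ * (χ : G → ℂ) τ * conj ((χ : G → ℂ) τ) / (χ : G → ℂ) 1
        = ∑ χ ∈ T.X1, (r χ : ℂ) ^ 3 / (1 + ((t : ℂ) - 1) * (p : ℂ)) := by
      apply Finset.sum_congr rfl
      intro χ hχ
      rw [hreal χ, hr χ, hdegX1 χ hχ]
      ring
    have e2 : ∑ χ ∈ T.X2, (χ : G → ℂ) τ * (χ : G → ℂ) τ * conj ((χ : G → ℂ) τ) / (χ : G → ℂ) 1
        = 0 := by
      apply Finset.sum_eq_zero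
      intro χ hχ
      rw [hr χ, hrX2 χ hχ]
      simp
    have e3 : ∑ χ ∈ T.Y, (χ : G → ℂ) τ * (χ : G → ℂ) τ * conj ((χ : G → ℂ) τ) / (χ : G → ℂ) 1
        = (t : ℂ) * (κ : ℂ) ^ 3 / ((p : ℂ) - (q : ℂ)) := by
      have : ∀ χ ∈ T.Y, (χ : G → ℂ) τ * (χ : G → ℂ) τ * conj ((χ : G → ℂ) τ) / (χ : G → ℂ) 1
          = (κ : ℂ) ^ 3 / ((p : ℂ) - (q : ℂ)) := by
        intro χ hχ
        rw [hreal χ, hr χ, hrY χ hχ, hdegY χ hχ]
        ring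
      rw [Finset.sum_congr rfl this, Finset.sum_const, hYcard, nsmul_eq_mul]
      ring
    have e4 : ∑ χ ∈ K, (χ : G → ℂ) τ * (χ : G → ℂ) τ * conj ((χ : G → ℂ) τ) / (χ : G → ℂ) 1
        = ∑ χ ∈ K, (r χ : ℂ) ^ 3 / ((p : ℂ) * (w χ : ℂ)) := by
      apply Finset.sum_congr rfl
      intro χ hχ
      rw [hreal χ, hr χ, hdegK χ hχ]
      ring
    rw [e1, e2, e3, e4, htriv1, htriv1] at h1
    have h2 : (((Nat.card {gh : G × G // gh.1 * τ * gh.1⁻¹ * (gh.2 * τ * gh.2⁻¹) = τ} : ℚ)) : ℂ)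
        = ((((p : ℚ) * q * (1 + ((t : ℚ) - 1) * p)) *
        (1 + ∑ i ∈ T.X1, (r i : ℚ) ^ 3 / (1 + ((t : ℚ) - 1) * p) + t * (κ : ℚ) ^ 3 / ((p : ℚ) - q)
          + ∑ k ∈ K, (r k : ℚ) ^ 3 / ((p : ℚ) * (w k : ℚ))) : ℚ) : ℂ) := by
      push_cast
      rw [h1]
      simp
    exact_mod_cast h2

end Cfsg.Agent.Helper8
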