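import Cfsg.Agent.Helper9.BRDefs
import Cfsg.Agent.Helper37.BRA3
import Cfsg.Agent.Helper8.BRS3a
import Cfsg.Agent.Helper37.BRS3b1
import Cfsg.Agent.Helper8.BRS3b2
import Cfsg.Agent.Helper65.BRNb
import Cfsg.Agent.Helper55.BRS3c

/-!
# Brauer–Reynolds, the beta stage (helper8, piece S3 of CALL S0999)
-/

set_option autoImplicit false
set_option maxHeartbeats 1000000
open Cfsg
open scoped ComplexConjugate

universe u

namespace Cfsg.Agent.Helper8

open Cfsg.Agent.Helper37 Cfsg.Agent.Helper65 Cfsg.Agent.Helper55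

theorem br_stage_beta {G : Type u} [Group G] [Fintype G] {p : ℕ} [Fact p.Prime] (hodd : p ≠ 2)
    {M : Ideal Cfsg.AlgInt} (hM : Cfsg.IsPModular p M)
    (P : Sylow p G) (hP : Nat.card (P : Subgroup G) = p)
    (hC : Nat.card (Subgroup.centralizer ((P : Subgroup G) : Set G)) = p)
    (q t a : ℕ)
    (hq : (Subgroup.centralizer ((P : Subgroup G) : Set G)).relIndex
        (Subgroup.normalizer ((P : Subgroup G) : Set G)) = q)
    (hcard : Nat.card G = p * q * (1 + (t - 1) * p))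
    (T : Cfsg.Agent.Helper9.BRTab p M P q) (ht : 2 ≤ t) (hqt : q * t = p - 1)
    (hqa : q = 2 + a * t) (hε : T.ε = -1) (hX1c : T.X1.card = a)
    (hX1 : ∀ χ ∈ T.X1, Cfsg.charDegree (χ : G → ℂ) = 1 + (t - 1) * p)
    (hX2 : ∀ χ ∈ T.X2, Cfsg.charDegree (χ : G → ℂ) = p - 1)
    (hY : ∀ θ ∈ T.Y, Cfsg.charDegree (θ : G → ℂ) = p - q) :
    t = 2 ∨ (q = 2 ∧ ∃ τ : G, orderOf τ = 2 ∧
      Nat.card (Subgroup.centralizer ({τ} : Set G)) = p - 1 ∧
      ∀ c : G, c ∈ Subgroup.centralizer ({τ} : Set G) → c ≠ 1 → IsConj c τ) := by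
  classical
  have hpp : p.Prime := Fact.out
  have hp2 : 2 ≤ p := hpp.two_le
  have hpodd : Odd p := hpp.odd_of_ne_two hodd
  have hp : p = t * q + 1 := by
    have : t * q = q * t := Nat.mul_comm t q
    omega
  -- `q` is even
  have hqeven : Even q := by
    rcases Nat.even_or_odd t with h | h
    · rw [hqa]
      exact Even.add (by decide) (Even.mul_left h a)
    · by_contra hq'
      have hqo : Odd q := Nat.not_even_iff_odd.mp hq'
      have h1 : Odd (t * q) := Odd.mul h hqo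
      have h2 : Even (t * q + 1) := Odd.add_one h1
      rw [← hp] at h2
      exact (Nat.not_even_iff_odd.mpr hpodd) h2
  obtain ⟨τ, hτ, hτN, hinv, hall, hQ₀card, huniq⟩ := br_invol hodd P hP hC q hq hqeven
  obtain ⟨r, w, κ, hr, hrX2, hrX1, hrY, hκ, hw⟩ :=
    br_beta_table hodd hM P hP hC q t T ht hqt hε hX1 hX2 hY τ hτ hinv
  haveI : Fintype (Cfsg.IrrCharacter G) := Fintype.ofFinite _
  obtain ⟨K, hK⟩ : ∃ K : Finset (Cfsg.IrrCharacter G),
      ∀ χ : Cfsg.IrrCharacter G, χ ∈ K ↔ χ ∉ Cfsg.principalBlock M G :=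
    ⟨Finset.univ.filter (fun χ => χ ∉ Cfsg.principalBlock M G), fun χ => by simp⟩
  obtain ⟨E2, E3, E4, E5⟩ := br_beta_orth hodd P q t a hcard T ht hqt hqa hε hX1c hX1 hX2 hY
    τ hτ K hK r w κ hr hrX2 hrY (fun χ hχ => (hw χ ((hK χ).mp hχ)).1)
  obtain ⟨E1, hcub⟩ := br_beta_class hodd hM P hP hC q t hcard T ht hqt hε hX1 hX2 hY τ hτ hinv
    hall K hK r w κ hr hrX2 hrY (fun χ hχ => hw χ ((hK χ).mp hχ))
  have hQ₀le : Subgroup.centralizer ({τ} : Set G) ⊓
      Subgroup.normalizer ((P : Subgroup G) : Set G) ≤ Subgroup.centralizer ({τ} : Set G) :=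
    inf_le_left
  have hqC : q ∣ Nat.card (Subgroup.centralizer ({τ} : Set G)) := by
    rw [← hQ₀card]
    exact Subgroup.card_dvd_of_le hQ₀le
  obtain ⟨hCτ, -, hcubic⟩ := br_num_beta T.X1 K r w p q t a
    (Nat.card (Subgroup.centralizer ({τ} : Set G))) κ ht hqa hp hX1c hrX1
    (fun k hk => (hw k ((hK k).mp hk)).2) hκ hqC E1 E2 E3 E4 E5
  have hcount : Nat.card {gh : G × G // gh.1 * τ * gh.1⁻¹ * (gh.2 * τ * gh.2⁻¹) = τ}
      = (q * t) ^ 2 * (q * t - q) := by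
    have h1 := hcub.trans hcubic
    have h2 : q * t - q = q * (t - 1) := by
      rw [Nat.mul_sub, Nat.mul_one]
    rw [h2]
    have h3 : ((q : ℚ) * t) ^ 2 * ((q : ℚ) * ((t : ℚ) - 1))
        = (((q * t) ^ 2 * (q * (t - 1)) : ℕ) : ℚ) := by
      push_cast [Nat.cast_sub (by omega : 1 ≤ t)]
      ring
    rw [h3] at h1
    exact_mod_cast h1
  have hτQ : τ ∈ Subgroup.centralizer ({τ} : Set G) ⊓
      Subgroup.normalizer ((P : Subgroup G) : Set G) := by
    refine Subgroup.mem_inf.mpr ⟨?_, hτN⟩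
    rw [Subgroup.mem_centralizer_iff]
    intro h hh
    rw [Set.mem_singleton_iff.mp hh]
  rcases br_beta_finish p q t ht hqt τ hτ _ hQ₀le hτQ hQ₀card huniq hCτ hcount with h | ⟨h1, h2, h3⟩
  · left; exact h
  · right; exact ⟨h1, τ, hτ, h2, h3⟩

end Cfsg.Agent.Helper8
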