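import Mathlib
import Cfsg.Agent.Helper8.Flavell

/-!
# Casolo's subnormalizer count (helper8)

Generic part: an Euler-characteristic weight on finite posets (given as finsets of a partial
order), with the cone lemma and the retraction lemma.  Group part: for `p`-subgroups the
weights summed over a normalizer vanish unless the subgroup is a maximal `p`-subgroup.
-/

set_option autoImplicit false
set_option linter.unusedSectionVars false

namespace Cfsg.Agent.Helper8.Casolo

open Classical

section Poset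

variable {α : Type*} [PartialOrder α]

/-- The weight `eul C x = 1 - ∑_{y ∈ C, x < y} eul C y`. -/
noncomputable def eul (C : Finset α) (x : α) : ℤ :=
  1 - ∑ y ∈ (C.filter (x < ·)).attach, eul C y.1
termination_by (C.filter (x < ·)).card
decreasing_by
  have hy := y.2
  rw [Finset.mem_filter] at hy
  apply Finset.card_lt_card
  rw [Finset.ssubset_iff_of_subset]
  · exact ⟨y.1, Finset.mem_filter.mpr hy, fun h => lt_irrefl _ (Finset.mem_filter.mp h).2⟩
  · intro z hz
    rw [Finset.mem_filter] at hz ⊢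
    exact ⟨hz.1, hy.2.trans hz.2⟩

theorem eul_eq (C : Finset α) (x : α) :
    eul C x = 1 - ∑ y ∈ C.filter (x < ·), eul C y := by
  rw [eul, Finset.sum_attach (C.filter (x < ·)) (fun y => eul C y)]

theorem eul_congr (C D : Finset α) : ∀ (n : ℕ) (x : α), (C.filter (x < ·)).card = n →
    (∀ y, x < y → (y ∈ C ↔ y ∈ D)) → eul C x = eul D x := by
  intro n
  induction' n using Nat.strong_induction_on with n ih
  intro x hn h
  have hf : C.filter (x < ·) = D.filter (x < ·) := by
    ext y
    simp only [Finset.mem_filter]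
    constructor
    · rintro ⟨h1, h2⟩; exact ⟨(h y h2).mp h1, h2⟩
    · rintro ⟨h1, h2⟩; exact ⟨(h y h2).mpr h1, h2⟩
  rw [eul_eq C, eul_eq D, ← hf]
  congr 1
  apply Finset.sum_congr rfl
  intro y hy
  rw [Finset.mem_filter] at hy
  apply ih (C.filter (y < ·)).card _ y rfl
  · intro z hz; exact h z (hy.2.trans hz)
  · rw [← hn]
    apply Finset.card_lt_card
    rw [Finset.ssubset_iff_of_subset]
    · exact ⟨y, Finset.mem_filter.mpr hy, fun h => lt_irrefl _ (Finset.mem_filter.mp h).2⟩
    · intro z hz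
      rw [Finset.mem_filter] at hz ⊢
      exact ⟨hz.1, hy.2.trans hz.2⟩

/-- Cone lemma: the weights above an element of `C` sum to `1`. -/
theorem eul_cone (C : Finset α) {u : α} (hu : u ∈ C) :
    ∑ x ∈ C.filter (u ≤ ·), eul C x = 1 := by
  have hf : C.filter (u ≤ ·) = insert u (C.filter (u < ·)) := by
    ext y
    simp only [Finset.mem_filter, Finset.mem_insert]
    constructor
    · rintro ⟨h1, h2⟩
      rcases eq_or_lt_of_le h2 with h | h
      · exact Or.inl h.symm
      · exact Or.inr ⟨h1, h⟩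
    · rintro (h | ⟨h1, h2⟩)
      · subst h; exact ⟨hu, le_rfl⟩
      · exact ⟨h1, h2.le⟩
  rw [hf, Finset.sum_insert (by simp), eul_eq C u]
  ring

/-- Weights summed over the elements strictly above `a` only depend on that upper set. -/
theorem sum_eul_filter_lt (C : Finset α) (a : α) :
    ∑ y ∈ C.filter (a < ·), eul (C.filter (a < ·)) y = ∑ y ∈ C.filter (a < ·), eul C y := by
  apply Finset.sum_congr rfl
  intro y hy
  rw [Finset.mem_filter] at hy
  apply eul_congr _ _ _ y rfl
  intro z hz
  simp only [Finset.mem_filter]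
  exact ⟨fun h => h.1, fun h => ⟨h, hy.2.trans hz⟩⟩

theorem eul_erase (C : Finset α) {x t : α} (hx : x ∈ C) (ht : t ∈ C) (htx : t < x)
    (hbelow : ∀ y ∈ C, y < x → y ≤ t) : ∀ (n : ℕ) (y : α), (C.filter (y < ·)).card = n →
    y ∈ C → y ≠ x → eul C y = eul (C.erase x) y - (if y = t then eul C x else 0) := by
  intro n
  induction' n using Nat.strong_induction_on with n ih
  intro y hn hy hyx
  have hIH : ∀ z ∈ (C.erase x).filter (y < ·),
      eul C z = eul (C.erase x) z - (if z = t then eul C x else 0) := by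
    intro z hz
    rw [Finset.mem_filter, Finset.mem_erase] at hz
    apply ih (C.filter (z < ·)).card _ z rfl hz.1.2 hz.1.1
    rw [← hn]
    apply Finset.card_lt_card
    rw [Finset.ssubset_iff_of_subset]
    · exact ⟨z, Finset.mem_filter.mpr ⟨hz.1.2, hz.2⟩,
        fun h => lt_irrefl _ (Finset.mem_filter.mp h).2⟩
    · intro w hw
      rw [Finset.mem_filter] at hw ⊢
      exact ⟨hw.1, hz.2.trans hw.2⟩
  have hsum : ∑ z ∈ C.filter (y < ·), eul C z =
      ∑ z ∈ (C.erase x).filter (y < ·), eul C z + (if y < x then eul C x else 0) := by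
    by_cases hyx' : y < x
    · have hf : C.filter (y < ·) = insert x ((C.erase x).filter (y < ·)) := by
        ext z
        simp only [Finset.mem_filter, Finset.mem_insert, Finset.mem_erase]
        constructor
        · rintro ⟨h1, h2⟩
          by_cases hzx : z = x
          · exact Or.inl hzx
          · exact Or.inr ⟨⟨hzx, h1⟩, h2⟩
        · rintro (h | ⟨⟨-, h1⟩, h2⟩)
          · subst h; exact ⟨hx, hyx'⟩
          · exact ⟨h1, h2⟩
      rw [hf, Finset.sum_insert (by simp), if_pos hyx', add_comm]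
    · have hf : C.filter (y < ·) = (C.erase x).filter (y < ·) := by
        ext z
        simp only [Finset.mem_filter, Finset.mem_erase]
        constructor
        · rintro ⟨h1, h2⟩
          refine ⟨⟨?_, h1⟩, h2⟩
          rintro rfl
          exact hyx' h2
        · rintro ⟨⟨-, h1⟩, h2⟩
          exact ⟨h1, h2⟩
      rw [hf, if_neg hyx', add_zero]
  have htne : t ≠ x := ne_of_lt htx
  have hite : ∑ z ∈ (C.erase x).filter (y < ·), (if z = t then eul C x else 0) =
      if y < t then eul C x else 0 := by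
    rw [Finset.sum_ite_eq']
    by_cases hyt : y < t
    · rw [if_pos hyt, if_pos]
      rw [Finset.mem_filter, Finset.mem_erase]
      exact ⟨⟨htne, ht⟩, hyt⟩
    · rw [if_neg hyt, if_neg]
      rw [Finset.mem_filter]
      exact fun h => hyt h.2
  rw [eul_eq C y, hsum, Finset.sum_congr rfl hIH, Finset.sum_sub_distrib, hite,
    eul_eq (C.erase x) y]
  by_cases hyt : y = t
  · subst hyt
    rw [if_neg (lt_irrefl y), if_pos htx, if_pos rfl]
    ring
  · rw [if_neg hyt]
    by_cases hyx' : y < x
    · have : y < t := lt_of_le_of_ne (hbelow y hy hyx') hyt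
      rw [if_pos this, if_pos hyx']
      ring
    · have : ¬ y < t := fun h => hyx' (h.trans htx)
      rw [if_neg this, if_neg hyx']
      ring

/-- Removing a point whose strict lower set has a top element does not change the total. -/
theorem chi_erase (C : Finset α) {x t : α} (hx : x ∈ C) (ht : t ∈ C) (htx : t < x)
    (hbelow : ∀ y ∈ C, y < x → y ≤ t) :
    ∑ y ∈ C, eul C y = ∑ y ∈ C.erase x, eul (C.erase x) y := by
  have htne : t ≠ x := ne_of_lt htx
  have h1 : ∀ y ∈ C.erase x, eul C y = eul (C.erase x) y - (if y = t then eul C x else 0) := by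
    intro y hy
    rw [Finset.mem_erase] at hy
    exact eul_erase C hx ht htx hbelow _ y rfl hy.2 hy.1
  rw [← Finset.add_sum_erase C _ hx, Finset.sum_congr rfl h1, Finset.sum_sub_distrib,
    Finset.sum_ite_eq', if_pos (Finset.mem_erase.mpr ⟨htne, ht⟩)]
  ring

/-- Retraction lemma: a monotone decreasing retraction `r` of `A` onto `B ⊆ A` preserves the
total weight. -/
theorem chi_retract (r : α → α) (B : Finset α) : ∀ (n : ℕ) (A : Finset α), (A \ B).card = n →
    B ⊆ A → (∀ x ∈ A, r x ∈ B) → (∀ x ∈ A, r x ≤ x) → (∀ x ∈ B, r x = x) →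
    (∀ x ∈ A, ∀ y ∈ A, x ≤ y → r x ≤ r y) →
    ∑ y ∈ A, eul A y = ∑ y ∈ B, eul B y := by
  intro n
  induction' n using Nat.strong_induction_on with n ih
  intro A hn hBA hrB hrle hrid hmono
  by_cases hAB : A \ B = ∅
  · have : A = B := by
      apply Finset.Subset.antisymm _ hBA
      exact Finset.sdiff_eq_empty_iff_subset.mp hAB
    rw [this]
  · have hne : (A \ B).Nonempty := Finset.nonempty_iff_ne_empty.mpr hAB
    obtain ⟨x, hxmin⟩ := (A \ B).exists_minimal hne
    have hxmem : x ∈ A ∧ x ∉ B := Finset.mem_sdiff.mp hxmin.1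
    have htB : r x ∈ B := hrB x hxmem.1
    have htA : r x ∈ A := hBA htB
    have htx : r x < x := by
      apply lt_of_le_of_ne (hrle x hxmem.1)
      intro h
      rw [h] at htB
      exact hxmem.2 htB
    have hbelow : ∀ y ∈ A, y < x → y ≤ r x := by
      intro y hy hyx
      have hyB : y ∈ B := by
        by_contra hyB
        exact absurd (hxmin.2 (Finset.mem_sdiff.mpr ⟨hy, hyB⟩) hyx.le) (not_le_of_gt hyx)
      rw [← hrid y hyB]
      exact hmono y hy x hxmem.1 hyx.le
    rw [chi_erase A hxmem.1 htA htx hbelow]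
    have hBA' : B ⊆ A.erase x := by
      intro b hb
      rw [Finset.mem_erase]
      refine ⟨?_, hBA hb⟩
      rintro rfl
      exact hxmem.2 hb
    apply ih ((A.erase x) \ B).card _ (A.erase x) rfl hBA'
    · intro y hy; exact hrB y (Finset.mem_of_mem_erase hy)
    · intro y hy; exact hrle y (Finset.mem_of_mem_erase hy)
    · exact hrid
    · intro y hy z hz; exact hmono y (Finset.mem_of_mem_erase hy) z (Finset.mem_of_mem_erase hz)
    · rw [← hn]
      apply Finset.card_lt_card
      rw [Finset.ssubset_iff_of_subset]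
      · exact ⟨x, Finset.mem_sdiff.mpr hxmem, fun h =>
          (Finset.mem_erase.mp (Finset.mem_sdiff.mp h).1).1 rfl⟩
      · intro z hz
        rw [Finset.mem_sdiff] at hz ⊢
        exact ⟨Finset.mem_of_mem_erase hz.1, hz.2⟩

end Poset

section GroupPart

open Cfsg.Agent.Helper72 Cfsg.Agent.Helper8.Flavell
open scoped Cfsg.Agent.Helper8.Flavell

variable {G : Type*} [Group G] [Finite G]

attribute [local instance] Fintype.ofFinite

/-- The elements of a subgroup, as a finset. -/
noncomputable def elts (M : Subgroup G) : Finset G := Finset.univ.filter (· ∈ M)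

theorem mem_elts {M : Subgroup G} {g : G} : g ∈ elts M ↔ g ∈ M := by simp [elts]

theorem card_elts (M : Subgroup G) : (elts M).card = Nat.card M :=
  (Nat.subtype_card (elts M) (fun _ => mem_elts)).symm

/-- The `g`-invariant `p`-subgroups of `M`. -/
noncomputable def PP (p : ℕ) (M : Subgroup G) (g : G) : Finset (Subgroup G) :=
  Finset.univ.filter (fun V => IsPGroup p V ∧ V ≤ M ∧ cj(V, g) = V)

theorem mem_PP {p : ℕ} {M : Subgroup G} {g : G} {V : Subgroup G} :
    V ∈ PP p M g ↔ IsPGroup p V ∧ V ≤ M ∧ cj(V, g) = V := by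
  simp only [PP, Finset.mem_filter, Finset.mem_univ, true_and]

/-- `V` is a maximal `p`-subgroup of `M`. -/
def IsMaxP (p : ℕ) (M V : Subgroup G) : Prop :=
  IsPGroup p V ∧ V ≤ M ∧ ∀ V' : Subgroup G, IsPGroup p V' → V' ≤ M → V ≤ V' → V' = V

theorem cj_eq_iff_mem_normalizer (V : Subgroup G) (g : G) :
    cj(V, g) = V ↔ g ∈ Subgroup.normalizer (V : Set G) :=
  ⟨mem_normalizer_of_map_conj_eq V g, map_conj_eq_of_mem_normalizer V g⟩

theorem pgroup_lt_normalizer {p : ℕ} [Fact p.Prime] {V V' : Subgroup G} (hV' : IsPGroup p V')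
    (h : V < V') : V < V' ⊓ Subgroup.normalizer (V : Set G) := by
  have hnil : Group.IsNilpotent ↥V' := hV'.isNilpotent
  have hnc : NormalizerCondition ↥V' := Group.normalizerCondition_of_isNilpotent
  have hW : V.subgroupOf V' < ⊤ := by
    rw [lt_top_iff_ne_top, Ne, Subgroup.subgroupOf_eq_top]
    exact fun hle => absurd (lt_of_lt_of_le h hle) (lt_irrefl _)
  have h1 := hnc _ hW
  rw [← Subgroup.subgroupOf_normalizer_eq h.le] at h1
  have h2 := (Subgroup.map_lt_map_iff_of_injective (f := V'.subtype)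
    (Subgroup.subtype_injective V')).mpr h1
  rw [Subgroup.subgroupOf_map_subtype, Subgroup.subgroupOf_map_subtype,
    inf_eq_left.mpr h.le] at h2
  rwa [inf_comm] at h2

theorem le_of_isMaxP {p : ℕ} [Fact p.Prime] {N V Q : Subgroup G} (hV : IsPGroup p V)
    (hVN : V ≤ N) (hN : N ≤ Subgroup.normalizer (V : Set G)) (hQ : IsMaxP p N Q) : V ≤ Q := by
  have h1 : IsPGroup p (Q ⊔ V : Subgroup G) :=
    hQ.1.to_sup_of_normal_right' hV (hQ.2.1.trans hN)
  have h2 := hQ.2.2 (Q ⊔ V) h1 (sup_le hQ.2.1 hVN) le_sup_left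
  rw [← h2]; exact le_sup_right

theorem sum_isMaxP_card_normalizer (p : ℕ) [Fact p.Prime] (N : Subgroup G) :
    ∑ Q ∈ Finset.univ.filter (IsMaxP p N),
      (Nat.card ↥(N ⊓ Subgroup.normalizer (Q : Set G)) : ℤ) = Nat.card N := by
  have hinj : Function.Injective (fun Q : Sylow p ↥N => (Q : Subgroup ↥N).map N.subtype) := by
    intro Q₁ Q₂ h
    exact Sylow.ext (Subgroup.map_injective (Subgroup.subtype_injective N) h)
  have himage : Finset.univ.filter (IsMaxP p N) =
      Finset.univ.image (fun Q : Sylow p ↥N => (Q : Subgroup ↥N).map N.subtype) := by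
    ext V
    simp only [Finset.mem_filter, Finset.mem_univ, true_and, Finset.mem_image]
    constructor
    · rintro ⟨hV, hVN, hmax⟩
      refine ⟨⟨V.subgroupOf N, hV.comap_subtype, ?_⟩, Subgroup.map_subgroupOf_eq_of_le hVN⟩
      intro R hR hle
      have h1 : R.map N.subtype = V := by
        apply hmax _ (hR.map _) (Subgroup.map_subtype_le R)
        rw [← Subgroup.map_subgroupOf_eq_of_le hVN]
        exact Subgroup.map_mono hle
      rw [← h1]
      exact (Subgroup.comap_map_eq_self_of_injective (Subgroup.subtype_injective N) R).symm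
    · rintro ⟨Q, rfl⟩
      refine ⟨Q.isPGroup'.map _, Subgroup.map_subtype_le _, ?_⟩
      intro V' hV' hV'N hle
      have h1 : V'.subgroupOf N = (Q : Subgroup ↥N) := by
        apply Q.is_maximal' hV'.comap_subtype
        intro x hx
        exact Subgroup.mem_comap.mpr (hle (Subgroup.mem_map_of_mem _ hx))
      rw [← h1]
      exact (Subgroup.map_subgroupOf_eq_of_le hV'N).symm
  have hcard : ∀ Q : Sylow p ↥N,
      Nat.card ↥(N ⊓ Subgroup.normalizer ((((Q : Subgroup ↥N).map N.subtype : Subgroup G)) : Set G)) =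
      Nat.card ↥(Subgroup.normalizer ((Q : Subgroup ↥N) : Set ↥N)) := by
    intro Q
    have h1 : (Subgroup.normalizer ((((Q : Subgroup ↥N).map N.subtype : Subgroup G)) : Set G)).subgroupOf N
        = Subgroup.normalizer ((Q : Subgroup ↥N) : Set ↥N) := by
      rw [Subgroup.subgroupOf_normalizer_eq (Subgroup.map_subtype_le _)]
      congr 2
      exact Subgroup.comap_map_eq_self_of_injective (Subgroup.subtype_injective N) _
    rw [← h1, ← Subgroup.card_map_of_injective (Subgroup.subtype_injective N),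
      Subgroup.subgroupOf_map_subtype, inf_comm]
  rw [himage, Finset.sum_image (fun _ _ _ _ h => hinj h)]
  have hterm : ∀ Q : Sylow p ↥N,
      (Nat.card ↥(N ⊓ Subgroup.normalizer ((((Q : Subgroup ↥N).map N.subtype : Subgroup G)) : Set G)) : ℤ)
        * (Nat.card (Sylow p ↥N) : ℤ) = Nat.card ↥N := by
    intro Q
    rw [hcard Q, Sylow.card_eq_index_normalizer Q]
    exact_mod_cast Subgroup.card_mul_index _
  have hpos : (Nat.card (Sylow p ↥N) : ℤ) ≠ 0 := by
    exact_mod_cast Nat.card_pos.ne'
  apply mul_right_cancel₀ hpos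
  rw [Finset.sum_mul, Finset.sum_congr rfl (fun Q _ => hterm Q), Finset.sum_const,
    Finset.card_univ, ← Nat.card_eq_fintype_card]
  simp [mul_comm]

/-- Key vanishing: the weights of a `p`-subgroup `V ≤ M`, summed over `N_M(V)`, give
`|N_M(V)|` when `V` is a maximal `p`-subgroup of `M` and `0` otherwise. -/
theorem keyB (p : ℕ) [Fact p.Prime] : ∀ (n : ℕ) (M V : Subgroup G),
    Nat.card M * (Nat.card G + 1) - Nat.card V = n → IsPGroup p V → V ≤ M →
    ∑ g ∈ elts (M ⊓ Subgroup.normalizer (V : Set G)), eul (PP p M g) V =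
      if IsMaxP p M V then (Nat.card ↥(M ⊓ Subgroup.normalizer (V : Set G)) : ℤ) else 0 := by
  intro n
  induction' n using Nat.strong_induction_on with n ih
  intro M V hn hV hVM
  by_cases hmax : IsMaxP p M V
  · rw [if_pos hmax]
    have h1 : ∀ g ∈ elts (M ⊓ Subgroup.normalizer (V : Set G)), eul (PP p M g) V = 1 := by
      intro g _
      rw [eul_eq, Finset.sum_eq_zero, sub_zero]
      intro V' hV'
      rw [Finset.mem_filter, mem_PP] at hV'
      exact absurd (hmax.2.2 V' hV'.1.1 hV'.1.2.1 hV'.2.le) (ne_of_gt hV'.2)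
    rw [Finset.sum_congr rfl h1, Finset.sum_const, card_elts]
    simp
  · rw [if_neg hmax]
    obtain ⟨N, hNdef⟩ : ∃ N, N = M ⊓ Subgroup.normalizer (V : Set G) := ⟨_, rfl⟩
    rw [← hNdef]
    have hNM : N ≤ M := hNdef ▸ inf_le_left
    have hNn : N ≤ Subgroup.normalizer (V : Set G) := hNdef ▸ inf_le_right
    have hVN : V ≤ N := hNdef ▸ le_inf hVM Subgroup.le_normalizer
    -- `V` is not maximal in `N`
    have hnotmaxN : ¬ IsMaxP p N V := by
      intro hm
      apply hmax
      refine ⟨hV, hVM, fun V' hV' hV'M hle => ?_⟩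
      by_contra hne
      have hlt : V < V' := lt_of_le_of_ne hle (Ne.symm hne)
      have h2 := pgroup_lt_normalizer hV' hlt
      have h3 : V' ⊓ Subgroup.normalizer (V : Set G) ≤ N := by
        rw [hNdef]
        exact le_inf (inf_le_left.trans hV'M) inf_le_right
      have h4 := hm.2.2 _ (hV'.to_le inf_le_left) h3 h2.le
      exact absurd h4 (ne_of_gt h2)
    -- retraction step
    have h1 : ∀ g ∈ elts N, eul (PP p M g) V =
        1 - ∑ V' ∈ (PP p N g).filter (V < ·), eul (PP p N g) V' := by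
      intro g hg
      rw [mem_elts] at hg
      have hcjN : cj(N, g) = N := map_conj_eq_of_mem_normalizer N g (Subgroup.le_normalizer hg)
      rw [eul_eq, ← sum_eul_filter_lt (PP p M g) V, ← sum_eul_filter_lt (PP p N g) V]
      congr 1
      apply chi_retract (fun W => W ⊓ N) _ _ _ rfl
      · intro W hW
        simp only [Finset.mem_filter, mem_PP] at hW ⊢
        exact ⟨⟨hW.1.1, hW.1.2.1.trans hNM, hW.1.2.2⟩, hW.2⟩
      · intro W hW
        simp only [Finset.mem_filter, mem_PP] at hW ⊢
        refine ⟨⟨hW.1.1.to_le inf_le_left, inf_le_right, ?_⟩, ?_⟩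
        · rw [Subgroup.map_inf _ _ _ (MulAut.conj g).injective, hW.1.2.2, hcjN]
        · refine lt_of_lt_of_le (pgroup_lt_normalizer hW.1.1 hW.2) ?_
          rw [hNdef]
          exact le_inf inf_le_left (le_inf (inf_le_left.trans hW.1.2.1) inf_le_right)
      · intro W _; exact inf_le_left
      · intro W hW
        simp only [Finset.mem_filter, mem_PP] at hW
        exact inf_eq_left.mpr hW.1.2.1
      · intro W _ W' _ h; exact inf_le_inf_right N h
    rw [Finset.sum_congr rfl h1, Finset.sum_sub_distrib, Finset.sum_const, card_elts]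
    -- swap the double sum
    have hswap : ∑ g ∈ elts N, ∑ V' ∈ (PP p N g).filter (V < ·), eul (PP p N g) V' =
        ∑ V' ∈ Finset.univ.filter (fun V' : Subgroup G => IsPGroup p V' ∧ V' ≤ N ∧ V < V'),
          ∑ g ∈ elts (N ⊓ Subgroup.normalizer (V' : Set G)), eul (PP p N g) V' := by
      apply Finset.sum_comm'
      intro g V'
      simp only [mem_elts, Finset.mem_filter, mem_PP, Finset.mem_univ, true_and,
        Subgroup.mem_inf, cj_eq_iff_mem_normalizer]
      tauto
    have hIH : ∀ V' ∈ Finset.univ.filter (fun V' : Subgroup G => IsPGroup p V' ∧ V' ≤ N ∧ V < V'),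
        ∑ g ∈ elts (N ⊓ Subgroup.normalizer (V' : Set G)), eul (PP p N g) V' =
        if IsMaxP p N V' then (Nat.card ↥(N ⊓ Subgroup.normalizer (V' : Set G)) : ℤ) else 0 := by
      intro V' hV'
      simp only [Finset.mem_filter, Finset.mem_univ, true_and] at hV'
      apply ih (Nat.card N * (Nat.card G + 1) - Nat.card V') _ N V' rfl hV'.1 hV'.2.1
      rw [← hn]
      have hc1 : Nat.card V ≤ Nat.card G := Subgroup.card_le_card_group V
      have hc2 : Nat.card V < Nat.card V' := card_lt_of_lt hV'.2.2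
      have hc3 : Nat.card V' ≤ Nat.card N := Subgroup.card_le_of_le hV'.2.1
      have hc4 : Nat.card N ≤ Nat.card M := Subgroup.card_le_of_le hNM
      by_cases hNMeq : N = M
      · rw [hNMeq] at hc3 ⊢
        have hc5 : Nat.card M ≤ Nat.card M * (Nat.card G + 1) :=
          Nat.le_mul_of_pos_right _ (Nat.succ_pos _)
        omega
      · have hlt : Nat.card N < Nat.card M := card_lt_of_lt (lt_of_le_of_ne hNM hNMeq)
        have hc5 : (Nat.card N + 1) * (Nat.card G + 1) ≤ Nat.card M * (Nat.card G + 1) :=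
          Nat.mul_le_mul_right _ hlt
        have hc6 : (Nat.card N + 1) * (Nat.card G + 1) =
            Nat.card N * (Nat.card G + 1) + Nat.card G + 1 := by ring
        omega
    have hfilter : (Finset.univ.filter (fun V' : Subgroup G => IsPGroup p V' ∧ V' ≤ N ∧ V < V')).filter
        (IsMaxP p N) = Finset.univ.filter (IsMaxP p N) := by
      ext Q
      simp only [Finset.mem_filter, Finset.mem_univ, true_and]
      constructor
      · exact fun h => h.2
      · intro hQ
        refine ⟨⟨hQ.1, hQ.2.1, lt_of_le_of_ne (le_of_isMaxP hV hVN hNn hQ) ?_⟩, hQ⟩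
        rintro rfl
        exact hnotmaxN hQ
    rw [hswap, Finset.sum_congr rfl hIH, ← Finset.sum_filter, hfilter,
      sum_isMaxP_card_normalizer]
    simp

/-! ### Subnormality of `p`-subgroups -/

theorem subnIn_of_isPGroup {p : ℕ} [Fact p.Prime] : ∀ (n : ℕ) (V H : Subgroup G),
    Nat.card V - Nat.card H = n → IsPGroup p V → H ≤ V → SubnIn V H := by
  intro n
  induction' n using Nat.strong_induction_on with n ih
  intro V H hn hV hHV
  by_cases hEq : H = V
  · rw [hEq]; exact SubnIn.refl V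
  · have hlt : H < V := lt_of_le_of_ne hHV hEq
    have h1 := pgroup_lt_normalizer hV hlt
    have h2 : SubnIn V (V ⊓ Subgroup.normalizer (H : Set G)) := by
      apply ih (Nat.card V - Nat.card ↥(V ⊓ Subgroup.normalizer (H : Set G))) _ V _ rfl hV
        inf_le_left
      have hc1 := card_lt_of_lt h1
      have hc2 := card_lt_of_lt hlt
      omega
    exact h2.of_normal h1.le inf_le_right

theorem le_normalizer_sup' {S A B : Subgroup G} (hA : S ≤ Subgroup.normalizer (A : Set G))
    (hB : S ≤ Subgroup.normalizer (B : Set G)) :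
    S ≤ Subgroup.normalizer ((A ⊔ B : Subgroup G) : Set G) := by
  intro s hs
  apply mem_normalizer_of_map_conj_eq
  rw [Subgroup.map_sup, map_conj_eq_of_mem_normalizer A s (hA hs),
    map_conj_eq_of_mem_normalizer B s (hB hs)]

/-- A subnormal `p`-subgroup of `T` lies in a normal `p`-subgroup of `T`. -/
theorem exists_normal_pgroup_of_subnIn {p : ℕ} [Fact p.Prime] {T N : Subgroup G}
    (h : SubnIn T N) (hN : IsPGroup p N) :
    ∃ V : Subgroup G, IsPGroup p V ∧ N ≤ V ∧ V ≤ T ∧ T ≤ Subgroup.normalizer (V : Set G) := by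
  induction h with
  | refl T => exact ⟨T, hN, le_rfl, le_rfl, Subgroup.le_normalizer⟩
  | step T T₁ N h1 h2 h3 ih =>
    obtain ⟨V₁, hV₁, hNV₁, hV₁T₁, hT₁V₁⟩ := ih hN
    obtain ⟨W, hV₁W, hWmax⟩ := Finite.exists_le_maximal
      (p := fun W : Subgroup G => IsPGroup p W ∧ W ≤ T₁ ∧
        T₁ ≤ Subgroup.normalizer (W : Set G)) ⟨hV₁, hV₁T₁, hT₁V₁⟩
    have hall : ∀ W' : Subgroup G, IsPGroup p W' → W' ≤ T₁ →
        T₁ ≤ Subgroup.normalizer (W' : Set G) → W' ≤ W := by
      intro W' h1' h2' h3'
      have hP : IsPGroup p (W' ⊔ W : Subgroup G) ∧ W' ⊔ W ≤ T₁ ∧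
          T₁ ≤ Subgroup.normalizer ((W' ⊔ W : Subgroup G) : Set G) :=
        ⟨h1'.to_sup_of_normal_right' hWmax.1.1 (h2'.trans hWmax.1.2.2),
          sup_le h2' hWmax.1.2.1, le_normalizer_sup' h3' hWmax.1.2.2⟩
      exact le_sup_left.trans (hWmax.2 hP le_sup_right)
    refine ⟨W, hWmax.1.1, hNV₁.trans hV₁W, hWmax.1.2.1.trans h1, ?_⟩
    apply le_normalizer_of_map_conj_le
    intro s hs
    have hcjT₁ : cj(T₁, s) = T₁ := map_conj_eq_of_mem_normalizer T₁ s (h2 hs)
    apply hall
    · exact hWmax.1.1.map _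
    · exact (cj_mono hWmax.1.2.1 s).trans (le_of_eq hcjT₁)
    · refine le_trans (le_of_eq hcjT₁.symm) ?_
      have h5 := Subgroup.map_equiv_normalizer_eq W (MulAut.conj s)
      rw [← h5]
      exact cj_mono hWmax.1.2.2 s

theorem subnormal_iff (p : ℕ) [Fact p.Prime] (H : Subgroup G) (hH : IsPGroup p H) (g : G) :
    (H.subgroupOf (H ⊔ Subgroup.zpowers g)).IsSubnormal ↔ ∃ V ∈ PP p ⊤ g, H ≤ V := by
  constructor
  · intro h
    have h1 : SubnIn (H ⊔ Subgroup.zpowers g) H := subnIn_of_isSubnormal_subgroupOf le_sup_left h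
    obtain ⟨V, hV, hHV, -, hnorm⟩ := exists_normal_pgroup_of_subnIn h1 hH
    refine ⟨V, mem_PP.mpr ⟨hV, le_top, ?_⟩, hHV⟩
    rw [cj_eq_iff_mem_normalizer]
    have hg : g ∈ H ⊔ Subgroup.zpowers g :=
      (le_sup_right : Subgroup.zpowers g ≤ H ⊔ Subgroup.zpowers g) (Subgroup.mem_zpowers g)
    exact hnorm hg
  · rintro ⟨V, hV, hHV⟩
    rw [mem_PP, cj_eq_iff_mem_normalizer] at hV
    have hK : H ⊔ Subgroup.zpowers g ≤ Subgroup.normalizer (V : Set G) :=
      sup_le (hHV.trans Subgroup.le_normalizer) ((Subgroup.zpowers_le).mpr hV.2.2)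
    have h1 : SubnIn (V ⊓ (H ⊔ Subgroup.zpowers g)) H :=
      subnIn_of_isPGroup _ _ _ rfl (hV.1.to_le inf_le_left) (le_inf hHV le_sup_left)
    have h2 : SubnIn (H ⊔ Subgroup.zpowers g) H :=
      SubnIn.step _ _ _ inf_le_right (le_normalizer_inf_self hK) h1
    exact h2.isSubnormal_subgroupOf

/-! ### The count -/

/-- Casolo's count, in finset form: the number of `g` for which some `g`-invariant
`p`-subgroup contains `H` is the sum of the orders of the normalizers of the maximal
`p`-subgroups containing `H`. -/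
theorem casolo_count (p : ℕ) [Fact p.Prime] (H : Subgroup G) :
    ((Finset.univ.filter (fun g : G => ∃ V ∈ PP p ⊤ g, H ≤ V)).card : ℤ) =
      ∑ Q ∈ Finset.univ.filter (fun Q : Subgroup G => IsMaxP p ⊤ Q ∧ H ≤ Q),
        (Nat.card ↥(Subgroup.normalizer (Q : Set G)) : ℤ) := by
  have hcone : ∀ g : G, (if (∃ V ∈ PP p ⊤ g, H ≤ V) then (1 : ℤ) else 0) =
      ∑ V ∈ (PP p ⊤ g).filter (H ≤ ·), eul (PP p ⊤ g) V := by
    intro g
    by_cases hex : ∃ V ∈ PP p ⊤ g, H ≤ V
    · rw [if_pos hex]
      obtain ⟨V₀, hV₀, hHV₀⟩ := hex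
      obtain ⟨U, hU⟩ : ∃ U, U = ((PP p ⊤ g).filter (H ≤ ·)).inf id := ⟨_, rfl⟩
      have hUle : ∀ V ∈ (PP p ⊤ g).filter (H ≤ ·), U ≤ V := by
        intro V hV
        rw [hU]
        exact Finset.inf_le (f := id) hV
      have hHU : H ≤ U := by
        rw [hU]
        apply Finset.le_inf
        intro V hV
        exact (Finset.mem_filter.mp hV).2
      have hV₀F : V₀ ∈ (PP p ⊤ g).filter (H ≤ ·) := Finset.mem_filter.mpr ⟨hV₀, hHV₀⟩
      have hUP : U ∈ PP p ⊤ g := by
        rw [mem_PP]
        refine ⟨(mem_PP.mp hV₀).1.to_le (hUle V₀ hV₀F), le_top, ?_⟩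
        have hle : cj(U, g) ≤ U := by
          have h := Finset.le_inf (s := (PP p ⊤ g).filter (H ≤ ·)) (f := id) (a := cj(U, g))
            (fun V hV => (cj_mono (hUle V hV) g).trans
              (le_of_eq (mem_PP.mp (Finset.mem_filter.mp hV).1).2.2))
          rw [← hU] at h
          exact h
        exact Subgroup.eq_of_le_of_card_ge hle (le_of_eq (card_cj U g).symm)
      have hfilter : (PP p ⊤ g).filter (H ≤ ·) = (PP p ⊤ g).filter (U ≤ ·) := by
        ext V
        simp only [Finset.mem_filter]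
        constructor
        · intro h; exact ⟨h.1, hUle V (Finset.mem_filter.mpr h)⟩
        · intro h; exact ⟨h.1, hHU.trans h.2⟩
      rw [hfilter, eul_cone _ hUP]
    · rw [if_neg hex]
      symm
      apply Finset.sum_eq_zero
      intro V hV
      exact absurd ⟨V, (Finset.mem_filter.mp hV).1, (Finset.mem_filter.mp hV).2⟩ hex
  have hswap : ∑ g ∈ (Finset.univ : Finset G), ∑ V ∈ (PP p ⊤ g).filter (H ≤ ·),
        eul (PP p ⊤ g) V =
      ∑ V ∈ Finset.univ.filter (fun V : Subgroup G => IsPGroup p V ∧ H ≤ V),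
        ∑ g ∈ elts (⊤ ⊓ Subgroup.normalizer (V : Set G)), eul (PP p ⊤ g) V := by
    apply Finset.sum_comm'
    intro g V
    simp only [mem_elts, Finset.mem_filter, mem_PP, Finset.mem_univ, true_and,
      Subgroup.mem_inf, cj_eq_iff_mem_normalizer, Subgroup.mem_top, le_top]
    tauto
  have hkey : ∀ V ∈ Finset.univ.filter (fun V : Subgroup G => IsPGroup p V ∧ H ≤ V),
      ∑ g ∈ elts (⊤ ⊓ Subgroup.normalizer (V : Set G)), eul (PP p ⊤ g) V =
      if IsMaxP p ⊤ V then (Nat.card ↥((⊤ : Subgroup G) ⊓ Subgroup.normalizer (V : Set G)) : ℤ)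
        else 0 := by
    intro V hV
    simp only [Finset.mem_filter, Finset.mem_univ, true_and] at hV
    exact keyB p _ ⊤ V rfl hV.1 le_top
  rw [Finset.natCast_card_filter, Finset.sum_congr rfl (fun g _ => hcone g), hswap,
    Finset.sum_congr rfl hkey, ← Finset.sum_filter]
  apply Finset.sum_congr
  · ext Q
    simp only [Finset.mem_filter, Finset.mem_univ, true_and]
    constructor
    · rintro ⟨⟨-, h1⟩, h2⟩; exact ⟨h2, h1⟩
    · rintro ⟨h1, h2⟩; exact ⟨⟨h1.1, h2⟩, h1⟩
  · intro Q _
    rw [top_inf_eq]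

/-! ### Sylow bookkeeping -/

theorem card_sylow_ge (p : ℕ) [Fact p.Prime] (H : Subgroup G) :
    Nat.card {Q : Sylow p G // H ≤ (Q : Subgroup G)} =
      (Finset.univ.filter (fun Q : Subgroup G => IsMaxP p ⊤ Q ∧ H ≤ Q)).card := by
  have h := Nat.subtype_card (p := fun Q : Subgroup G => IsMaxP p ⊤ Q ∧ H ≤ Q)
    (Finset.univ.filter (fun Q : Subgroup G => IsMaxP p ⊤ Q ∧ H ≤ Q)) (fun Q => by simp)
  rw [← h]
  refine Nat.card_congr ⟨fun Q => ⟨Q.1, ⟨Q.1.isPGroup', le_top,
      fun V' hV' _ hle => Q.1.is_maximal' hV' hle⟩, Q.2⟩,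
    fun Q => ⟨⟨Q.1, Q.2.1.1, fun {R} hR hle => Q.2.1.2.2 R hR le_top hle⟩, Q.2.2⟩,
    fun Q => ?_, fun Q => ?_⟩
  · rfl
  · rfl

theorem card_normalizer_isMaxP (p : ℕ) [Fact p.Prime] (P : Sylow p G) {Q : Subgroup G}
    (hQ : IsMaxP p ⊤ Q) :
    Nat.card ↥(Subgroup.normalizer (Q : Set G)) =
      Nat.card ↥(Subgroup.normalizer ((P : Subgroup G) : Set G)) := by
  have h1 := Sylow.card_eq_index_normalizer
    (⟨Q, hQ.1, fun {R} hR hle => hQ.2.2 R hR le_top hle⟩ : Sylow p G)
  have h2 : Nat.card (Sylow p G) = (Subgroup.normalizer ((P : Subgroup G) : Set G)).index :=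
    Sylow.card_eq_index_normalizer P
  have h3 := Subgroup.card_mul_index (Subgroup.normalizer (Q : Set G))
  have h4 := Subgroup.card_mul_index (Subgroup.normalizer ((P : Subgroup G) : Set G))
  rw [← h2] at h4
  have h1' : Nat.card (Sylow p G) = (Subgroup.normalizer (Q : Set G)).index := h1
  rw [← h1'] at h3
  have hpos : 0 < Nat.card (Sylow p G) := Nat.card_pos
  exact Nat.eq_of_mul_eq_mul_right hpos (h3.trans h4.symm)

theorem card_fiber_left (H : Subgroup G) (g₀ : G) :
    (Finset.univ.filter (fun x : G => cj(H, x) = cj(H, g₀))).card =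
      Nat.card ↥(Subgroup.normalizer (H : Set G)) := by
  rw [← card_elts]
  symm
  apply Finset.card_bij (fun n _ => g₀ * n)
  · intro n hn
    rw [mem_elts] at hn
    simp only [Finset.mem_filter, Finset.mem_univ, true_and]
    rw [cj_mul, map_conj_eq_of_mem_normalizer H n hn]
  · intro a _ b _ h; exact mul_left_cancel h
  · intro x hx
    simp only [Finset.mem_filter, Finset.mem_univ, true_and] at hx
    refine ⟨g₀⁻¹ * x, ?_, by group⟩
    rw [mem_elts, ← cj_eq_iff_mem_normalizer, cj_mul, hx, cj_inv_cj]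

theorem card_fiber_right (P : Subgroup G) (y : G) :
    (Finset.univ.filter (fun x : G => cj(P, x⁻¹) = cj(P, y))).card =
      Nat.card ↥(Subgroup.normalizer (P : Set G)) := by
  rw [← card_elts]
  symm
  apply Finset.card_bij (fun n _ => n * y⁻¹)
  · intro n hn
    rw [mem_elts] at hn
    simp only [Finset.mem_filter, Finset.mem_univ, true_and]
    rw [mul_inv_rev, inv_inv, cj_mul,
      map_conj_eq_of_mem_normalizer P n⁻¹ (Subgroup.inv_mem _ hn)]
  · intro a _ b _ h; exact mul_right_cancel h
  · intro x hx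
    simp only [Finset.mem_filter, Finset.mem_univ, true_and] at hx
    refine ⟨x * y, ?_, by group⟩
    rw [mem_elts, ← cj_eq_iff_mem_normalizer, cj_mul, ← hx, cj_cj_inv]

theorem sylow_smul_coe {p : ℕ} [Fact p.Prime] (P : Sylow p G) (g : G) :
    ((g • P : Sylow p G) : Subgroup G) = cj((P : Subgroup G), g) := by
  rw [Sylow.coe_subgroup_smul, Subgroup.pointwise_smul_def]
  rfl

/-- Double counting `{x | H^x ≤ P}`. -/
theorem double_count (p : ℕ) [Fact p.Prime] (H : Subgroup G) (P : Sylow p G) :
    (Finset.univ.filter (fun Q : Subgroup G => IsMaxP p ⊤ Q ∧ H ≤ Q)).card *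
        Nat.card ↥(Subgroup.normalizer ((P : Subgroup G) : Set G)) =
      (Finset.univ.filter (fun K : Subgroup G => K ≤ (P : Subgroup G) ∧
        ∃ g : G, K = cj(H, g))).card * Nat.card ↥(Subgroup.normalizer (H : Set G)) := by
  have h1 : (Finset.univ.filter (fun x : G => cj(H, x) ≤ (P : Subgroup G))).card =
      (Finset.univ.filter (fun Q : Subgroup G => IsMaxP p ⊤ Q ∧ H ≤ Q)).card *
        Nat.card ↥(Subgroup.normalizer ((P : Subgroup G) : Set G)) := by
    rw [Finset.card_eq_sum_card_fiberwise (f := fun x : G => cj((P : Subgroup G), x⁻¹))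
      (t := Finset.univ.filter (fun Q : Subgroup G => IsMaxP p ⊤ Q ∧ H ≤ Q))]
    · rw [Finset.sum_const_nat (m := Nat.card ↥(Subgroup.normalizer ((P : Subgroup G) : Set G)))]
      intro Q hQ
      simp only [Finset.mem_filter, Finset.mem_univ, true_and] at hQ
      obtain ⟨y, hy⟩ := MulAction.exists_smul_eq G P
        (⟨Q, hQ.1.1, fun {R} hR hle => hQ.1.2.2 R hR le_top hle⟩ : Sylow p G)
      have hy' : cj((P : Subgroup G), y) = Q := by
        rw [← sylow_smul_coe, hy]
      rw [← card_fiber_right (P : Subgroup G) y]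
      congr 1
      ext x
      simp only [Finset.mem_filter, Finset.mem_univ, true_and]
      constructor
      · rintro ⟨-, h⟩; rw [h, hy']
      · intro h
        rw [hy'] at h
        refine ⟨?_, h⟩
        have h2 := cj_mono hQ.2 x
        rw [← h, cj_cj_inv] at h2
        exact h2
    · intro x hx
      have hx' : cj(H, x) ≤ (P : Subgroup G) := (Finset.mem_filter.mp hx).2
      have hmax : IsMaxP p ⊤ cj((P : Subgroup G), x⁻¹) := by
        rw [← sylow_smul_coe]
        exact ⟨(x⁻¹ • P).isPGroup', le_top, fun V' hV' _ hle => (x⁻¹ • P).is_maximal' hV' hle⟩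
      refine Finset.mem_filter.mpr ⟨Finset.mem_univ _, hmax, ?_⟩
      have h2 := cj_mono hx' x⁻¹
      rwa [cj_inv_cj] at h2
  have h2 : (Finset.univ.filter (fun x : G => cj(H, x) ≤ (P : Subgroup G))).card =
      (Finset.univ.filter (fun K : Subgroup G => K ≤ (P : Subgroup G) ∧
        ∃ g : G, K = cj(H, g))).card * Nat.card ↥(Subgroup.normalizer (H : Set G)) := by
    rw [Finset.card_eq_sum_card_fiberwise (f := fun x : G => cj(H, x))
      (t := Finset.univ.filter (fun K : Subgroup G => K ≤ (P : Subgroup G) ∧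
        ∃ g : G, K = cj(H, g)))]
    · rw [Finset.sum_const_nat (m := Nat.card ↥(Subgroup.normalizer (H : Set G)))]
      intro K hK
      simp only [Finset.mem_filter, Finset.mem_univ, true_and] at hK
      obtain ⟨hKP, g₀, rfl⟩ := hK
      rw [← card_fiber_left H g₀]
      congr 1
      ext x
      simp only [Finset.mem_filter, Finset.mem_univ, true_and]
      constructor
      · rintro ⟨-, h⟩; exact h
      · intro h; exact ⟨h ▸ hKP, h⟩
    · intro x hx
      have hx' : cj(H, x) ≤ (P : Subgroup G) := (Finset.mem_filter.mp hx).2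
      exact Finset.mem_filter.mpr ⟨Finset.mem_univ _, hx', x, rfl⟩
  rw [← h1, h2]

end GroupPart

end Cfsg.Agent.Helper8.Casolo
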