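import Mathlib
import Cfsg.Agent.Helper65.Kulakoff

/-!
# The recursion behind Kulakoff's theorem, for all primes (helper8)

`card_index_eq_modEq'`: a non-cyclic group of order `p ^ n` has `≡ 1 + p (mod p ^ 2)` subgroups of
index `p`.

`rec_modEq`: for `1 ≤ k ≤ n - 2`, the number of subgroups of order `p ^ k` is
`≡ 1 + p * #{M of index p with s_k(M) ≡ 1 + p}` modulo `p ^ 2`, as soon as every `s_k(M)` is
`≡ 1` or `≡ 1 + p`.
-/

set_option autoImplicit false
universe u

namespace Cfsg.Agent.Helper8.Kul2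

open Cfsg.Agent.Helper65.SubCount Cfsg.Agent.Helper65.Kulakoff

variable {P : Type u} [Group P] [Finite P] {p : ℕ} [Fact p.Prime]

omit [Finite P] [Fact p.Prime] in
theorem one_le_of_not_isCyclic (n : ℕ) (hcard : Nat.card P = p ^ n) (hnc : ¬ IsCyclic P) :
    1 ≤ n := by
  rcases Nat.eq_zero_or_pos n with h | h
  · exfalso
    apply hnc
    rw [h, pow_zero] at hcard
    have : Subsingleton P := (Nat.card_eq_one_iff_unique.mp hcard).1
    exact isCyclic_of_subsingleton
  · exact h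

/-- Data of the enumeration principle in `ZMod (p ^ 2)`. -/
theorem enum_data (n : ℕ) (hcard : Nat.card P = p ^ n) (hnc : ¬ IsCyclic P) :
    ((Nat.card {M : Subgroup P // M.index = p} : ℕ) : ZMod (p ^ 2)) =
      1 + (p : ZMod (p ^ 2)) *
        ((Nat.card {D : Subgroup P // D.index = p ^ 2 ∧ frat P p ≤ D} : ℕ) : ZMod (p ^ 2)) ∧
    (p : ZMod (p ^ 2)) *
        ((Nat.card {D : Subgroup P // D.index = p ^ 2 ∧ frat P p ≤ D} : ℕ) : ZMod (p ^ 2)) =
      (p : ZMod (p ^ 2)) * ((1 : ℕ) : ZMod (p ^ 2)) := by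
  have hp : p.Prime := Fact.out
  have hn1 : 1 ≤ n := one_le_of_not_isCyclic n hcard hnc
  have hP : IsPGroup p P := IsPGroup.of_card hcard
  have hbot : (⊥ : Subgroup P) ≠ ⊤ := by
    intro h
    have h1 : Nat.card (⊥ : Subgroup P) = Nat.card (⊤ : Subgroup P) := by rw [h]
    rw [Subgroup.card_bot, Subgroup.card_top, hcard] at h1
    have : 1 < p ^ n := Nat.one_lt_pow (by omega) hp.one_lt
    omega
  have hM := card_index_eq_ge_modEq hP (⊥ : Subgroup P) hbot
  have e1 : Nat.card {M : Subgroup P // M.index = p ∧ ⊥ ≤ M} =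
      Nat.card {M : Subgroup P // M.index = p} :=
    Nat.card_congr (Equiv.subtypeEquivRight (fun M => by simp))
  have e2 : Nat.card {D : Subgroup P // (D.index = p ^ 2 ∧ frat P p ≤ D) ∧ ⊥ ≤ D} =
      Nat.card {D : Subgroup P // D.index = p ^ 2 ∧ frat P p ≤ D} :=
    Nat.card_congr (Equiv.subtypeEquivRight (fun D => by simp))
  rw [e1, e2] at hM
  obtain ⟨M₁, hM₁, -⟩ := exists_index_eq_ge hP (⊥ : Subgroup P) hbot
  have hM₁top : M₁ ≠ ⊤ := by
    intro h
    rw [h, Subgroup.index_top] at hM₁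
    exact hp.one_lt.ne hM₁
  obtain ⟨x, hx⟩ : ∃ x, x ∉ M₁ := by
    by_contra hcon
    push Not at hcon
    exact hM₁top (Subgroup.eq_top_iff' M₁ |>.mpr hcon)
  have hzx : Subgroup.zpowers x ≠ ⊤ := by
    intro h
    exact hnc (isCyclic_iff_exists_zpowers_eq_top.mpr ⟨x, h⟩)
  obtain ⟨M₂, hM₂, hxM₂⟩ := exists_index_eq_ge hP (Subgroup.zpowers x) hzx
  have hne : M₁ ≠ M₂ := by
    intro h
    exact hx (h ▸ hxM₂ (Subgroup.mem_zpowers x))
  have hfr : p ^ 2 ∣ (frat P p).index := by
    rw [← index_inf_of_ne hP hM₁ hM₂ hne]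
    exact Subgroup.index_dvd_of_le (le_inf (frat_le hM₁) (frat_le hM₂))
  have hD := card_index_sq_frat_modEq hP hfr
  refine ⟨?_, cast_mul_eq_of_modEq hD⟩
  have := (ZMod.natCast_eq_natCast_iff _ _ _).mpr hM
  push_cast at this
  exact this

/-- A non-cyclic group of order `p ^ n` has `≡ 1 + p (mod p ^ 2)` subgroups of index `p`. -/
theorem card_index_eq_modEq' (n : ℕ) (hcard : Nat.card P = p ^ n) (hnc : ¬ IsCyclic P) :
    Nat.card {M : Subgroup P // M.index = p} ≡ 1 + p [MOD p ^ 2] := by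
  obtain ⟨h3, hD'⟩ := enum_data n hcard hnc
  rw [← ZMod.natCast_eq_natCast_iff, h3, hD']
  push_cast
  ring

/-- The recursion: if every subgroup `M` of index `p` has `s_k(M) ≡ 1 + p` when `f M` and
`s_k(M) ≡ 1` otherwise, then `s_k(P) ≡ 1 + p * #{M // f M}` modulo `p ^ 2` (`1 ≤ k ≤ n - 2`). -/
theorem rec_modEq (n : ℕ) (hcard : Nat.card P = p ^ n) (hnc : ¬ IsCyclic P) (k : ℕ)
    (hk1 : 1 ≤ k) (hk2 : k + 1 < n) (f : Subgroup P → Prop)
    (hf1 : ∀ M : Subgroup P, M.index = p → f M →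
      Nat.card {H : Subgroup ↥M // Nat.card H = p ^ k} ≡ 1 + p [MOD p ^ 2])
    (hf0 : ∀ M : Subgroup P, M.index = p → ¬ f M →
      Nat.card {H : Subgroup ↥M // Nat.card H = p ^ k} ≡ 1 [MOD p ^ 2]) :
    Nat.card {H : Subgroup P // Nat.card H = p ^ k} ≡
      1 + p * Nat.card {M : Subgroup P // M.index = p ∧ f M} [MOD p ^ 2] := by
  classical
  have hp : p.Prime := Fact.out
  have hP : IsPGroup p P := IsPGroup.of_card hcard
  obtain ⟨h3, -⟩ := enum_data n hcard hnc
  rw [← ZMod.natCast_eq_natCast_iff]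
  have : Fintype {H : Subgroup P // Nat.card H = p ^ k} := Fintype.ofFinite _
  have : Fintype {M : Subgroup P // M.index = p} := Fintype.ofFinite _
  have : Fintype {D : Subgroup P // D.index = p ^ 2 ∧ frat P p ≤ D} := Fintype.ofFinite _
  have hHtop : ∀ H : {H : Subgroup P // Nat.card H = p ^ k}, H.1 ≠ ⊤ := by
    intro H h
    have h1 := H.2
    rw [h, Subgroup.card_top, hcard] at h1
    have := Nat.pow_right_injective hp.two_le h1
    omega
  have hE : ∀ H : {H : Subgroup P // Nat.card H = p ^ k},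
      Nat.card {M : {M : Subgroup P // M.index = p} // H.1 ≤ M.1} ≡
        1 + p * Nat.card {D : {D : Subgroup P // D.index = p ^ 2 ∧ frat P p ≤ D} //
          H.1 ≤ D.1} [MOD p ^ 2] := by
    intro H
    rw [Nat.card_congr (Equiv.subtypeSubtypeEquivSubtypeInter
        (fun M : Subgroup P => M.index = p) (fun M => H.1 ≤ M)),
      Nat.card_congr (Equiv.subtypeSubtypeEquivSubtypeInter
        (fun D : Subgroup P => D.index = p ^ 2 ∧ frat P p ≤ D) (fun D => H.1 ≤ D))]
    exact card_index_eq_ge_modEq hP H.1 (hHtop H)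
  have hsum := sum_modEq Finset.univ _ _ (p ^ 2) (fun H _ => hE H)
  rw [sum_card_swap (fun (H : {H : Subgroup P // Nat.card H = p ^ k})
    (M : {M : Subgroup P // M.index = p}) => H.1 ≤ M.1)] at hsum
  rw [Finset.sum_add_distrib, ← Finset.mul_sum,
    sum_card_swap (fun (H : {H : Subgroup P // Nat.card H = p ^ k})
    (D : {D : Subgroup P // D.index = p ^ 2 ∧ frat P p ≤ D}) => H.1 ≤ D.1)] at hsum
  simp only [Finset.sum_const, Finset.card_univ, smul_eq_mul, mul_one] at hsum
  have hDk : ∀ D : {D : Subgroup P // D.index = p ^ 2 ∧ frat P p ≤ D},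
      Nat.card {H : {H : Subgroup P // Nat.card H = p ^ k} // H.1 ≤ D.1} ≡ 1 [MOD p] := by
    intro D
    rw [Nat.card_congr (Equiv.subtypeSubtypeEquivSubtypeInter
        (fun H : Subgroup P => Nat.card H = p ^ k) (fun H => H ≤ D.1))]
    apply card_subgroups_le_modEq_one D.1 k
    have h1 := Subgroup.card_mul_index D.1
    rw [D.2.1, hcard] at h1
    have h2 : p ^ n = p ^ (n - 2) * p ^ 2 := by rw [← pow_add]; congr 1; omega
    rw [h2] at h1
    rw [Nat.eq_of_mul_eq_mul_right (pow_pos hp.pos 2) h1]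
    exact pow_dvd_pow p (by omega)
  have hsumD := sum_modEq Finset.univ _ _ p (fun D _ => hDk D)
  simp only [Finset.sum_const, Finset.card_univ, smul_eq_mul, mul_one] at hsumD
  have hMk : ∀ M : {M : Subgroup P // M.index = p},
      Nat.card {H : {H : Subgroup P // Nat.card H = p ^ k} // H.1 ≤ M.1} ≡
        1 + p * (if f M.1 then 1 else 0) [MOD p ^ 2] := by
    intro M
    rw [Nat.card_congr (Equiv.subtypeSubtypeEquivSubtypeInter
        (fun H : Subgroup P => Nat.card H = p ^ k) (fun H => H ≤ M.1)), card_subgroups_le]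
    by_cases hc : f M.1
    · rw [if_pos hc, mul_one]
      exact hf1 M.1 M.2 hc
    · rw [if_neg hc, mul_zero, add_zero]
      exact hf0 M.1 M.2 hc
  have hsumM := sum_modEq Finset.univ _ _ (p ^ 2) (fun M _ => hMk M)
  rw [Finset.sum_add_distrib, ← Finset.mul_sum, Finset.sum_boole] at hsumM
  simp only [Finset.sum_const, Finset.card_univ, smul_eq_mul, mul_one, Nat.cast_id] at hsumM
  have hcnt : (Finset.univ.filter (fun M : {M : Subgroup P // M.index = p} => f M.1)).card =
      Nat.card {M : Subgroup P // M.index = p ∧ f M} := by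
    rw [← Fintype.card_subtype, ← Nat.card_eq_fintype_card]
    exact Nat.card_congr (Equiv.subtypeSubtypeEquivSubtypeInter
      (fun M : Subgroup P => M.index = p) (fun M => f M))
  rw [hcnt] at hsumM
  have h1 := (ZMod.natCast_eq_natCast_iff _ _ _).mpr hsum
  have h2 := cast_mul_eq_of_modEq hsumD
  have h4 := (ZMod.natCast_eq_natCast_iff _ _ _).mpr hsumM
  push_cast at h1 h2 h4
  rw [← Nat.card_eq_fintype_card] at h1 h2 h4
  push_cast
  linear_combination (-1 : ZMod (p ^ 2)) * h1 + h4 + h3 - h2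

end Cfsg.Agent.Helper8.Kul2
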