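import Mathlib
import Cfsg.Agent.Helper29.MaxClass2b
import Cfsg.Agent.Helper8.Kul2Rec

/-!
# Groups of order 16 with commutator subgroup of order 2 (helper8)

`odd_card_abelian_max`: such a group has an odd number (one or three) of abelian maximal
subgroups.
-/

set_option autoImplicit false

namespace Cfsg.Agent.Helper8.Kul2

open Cfsg.Agent.Helper65.SubCount Cfsg.Agent.Helper65.Kulakoff
open scoped commutatorElement

theorem odd_card_abelian_max {Y : Type*} [Group Y] [Finite Y] (hY : Nat.card Y = 16)
    (hc : Nat.card (commutator Y) = 2) :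
    Odd (Nat.card {M : Subgroup Y // M.index = 2 ∧ ∀ g ∈ M, ∀ h ∈ M, g * h = h * g}) := by
  have : Fact (Nat.Prime 2) := ⟨Nat.prime_two⟩
  have hPG : IsPGroup 2 Y := IsPGroup.of_card (n := 4) (by rw [hY]; norm_num)
  obtain ⟨z', hz', hzu⟩ := (Nat.card_eq_two_iff' (1 : commutator Y)).mp hc
  obtain ⟨z, hzdef⟩ : ∃ z : Y, z = z'.1 := ⟨_, rfl⟩
  have hz1 : z ≠ 1 := fun h => hz' (Subtype.ext (hzdef ▸ h))
  have hzmem : z ∈ commutator Y := hzdef ▸ z'.2
  have hcz : ∀ w ∈ commutator Y, w = 1 ∨ w = z := by
    intro w hw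
    by_cases h : w = 1
    · left; exact h
    · right
      have h1 := hzu ⟨w, hw⟩ (fun h' => h (congrArg Subtype.val h'))
      rw [hzdef]
      exact congrArg Subtype.val h1
  have hzc : ∀ g : Y, g * z = z * g := by
    intro g
    have h1 : g * z * g⁻¹ ∈ commutator Y :=
      (inferInstance : (commutator Y).Normal).conj_mem z hzmem g
    rcases hcz _ h1 with h | h
    · exfalso; apply hz1
      have h2 : z = g⁻¹ * (g * z * g⁻¹) * g := by group
      rw [h2, h]; group
    · calc g * z = g * z * g⁻¹ * g := by group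
        _ = z * g := by rw [h]
  have hzz : z * z = 1 := by
    have h1 : z * z ∈ commutator Y := (commutator Y).mul_mem hzmem hzmem
    rcases hcz _ h1 with h | h
    · exact h
    · exfalso; apply hz1; exact mul_eq_right.mp h
  have hdich : ∀ g h : Y, g * h = h * g ∨ g * h = z * (h * g) := by
    intro g h
    have h1 : ⁅g, h⁆ ∈ commutator Y := by
      rw [commutator_def]
      exact Subgroup.commutator_mem_commutator (Subgroup.mem_top _) (Subgroup.mem_top _)
    have h2 : g * h = ⁅g, h⁆ * (h * g) := by rw [commutatorElement_def]; group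
    rcases hcz _ h1 with h3 | h3
    · left; rw [h2, h3, one_mul]
    · right; rw [h2, h3]
  obtain ⟨g₀, h₀, hgh⟩ : ∃ g₀ h₀ : Y, g₀ * h₀ ≠ h₀ * g₀ := by
    by_contra hcon
    push Not at hcon
    apply hz1
    have h1 : commutator Y ≤ ⊥ := by
      rw [commutator_def, Subgroup.commutator_le]
      intro g _ h _
      rw [Subgroup.mem_bot, commutatorElement_def, hcon g h]; group
    exact (Subgroup.mem_bot.mp (h1 hzmem))
  have hgh' : g₀ * h₀ = z * (h₀ * g₀) := (hdich g₀ h₀).resolve_left hgh
  obtain ⟨C, hCdef⟩ : ∃ C : Subgroup Y, C = Subgroup.centralizer ({g₀} : Set Y) := ⟨_, rfl⟩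
  have hCmem : ∀ b : Y, b ∈ C ↔ b * g₀ = g₀ * b := fun b => by
    rw [hCdef]; exact Subgroup.mem_centralizer_singleton_iff
  have hCi : C.index = 2 := by
    rw [Subgroup.index_eq_two_iff]
    refine ⟨h₀, fun b => ?_⟩
    rw [hCmem, hCmem]
    rcases hdich g₀ b with h | h
    · right
      refine ⟨h.symm, ?_⟩
      intro h'
      apply hz1
      have h5 : g₀ * (b * h₀) = z * (b * h₀ * g₀) := by
        calc g₀ * (b * h₀) = (g₀ * b) * h₀ := by group
          _ = b * (g₀ * h₀) := by rw [h]; group
          _ = b * (z * (h₀ * g₀)) := by rw [hgh']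
          _ = z * (b * h₀ * g₀) := by rw [← mul_assoc, hzc b]; group
      rw [← h'] at h5
      exact mul_eq_right.mp h5.symm
    · left
      refine ⟨?_, ?_⟩
      · symm
        calc g₀ * (b * h₀) = (g₀ * b) * h₀ := by group
          _ = z * (b * g₀) * h₀ := by rw [h]
          _ = z * (b * (g₀ * h₀)) := by group
          _ = z * (b * (z * (h₀ * g₀))) := by rw [hgh']
          _ = (z * z) * (b * h₀ * g₀) := by rw [← mul_assoc b z, hzc b]; group
          _ = b * h₀ * g₀ := by rw [hzz, one_mul]
      · intro h'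
        apply hz1
        rw [← h'] at h
        exact mul_eq_right.mp h.symm
  have hCcard : Nat.card C = 8 := by
    have h1 := C.card_mul_index
    rw [hCi, hY] at h1; omega
  have hg₀C : g₀ ∈ C := (hCmem g₀).mpr rfl
  have hzC : z ∈ C := (hCmem z).mpr (hzc g₀).symm
  have hCab : ∀ u ∈ C, ∀ v ∈ C, u * v = v * u := by
    have hzZ : (⟨z, hzC⟩ : C) ∈ Subgroup.center C := by
      rw [Subgroup.mem_center_iff]; intro w; exact Subtype.ext (hzc w.1)
    have hgZ : (⟨g₀, hg₀C⟩ : C) ∈ Subgroup.center C := by
      rw [Subgroup.mem_center_iff]; intro w; exact Subtype.ext ((hCmem w.1).mp w.2)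
    have hcard_center : Nat.card (Subgroup.center C) ∣ 8 :=
      hCcard ▸ Subgroup.card_subgroup_dvd_card _
    have hne2 : Nat.card (Subgroup.center C) ≠ 2 := by
      intro h
      obtain ⟨w, hw, hwu⟩ := (Nat.card_eq_two_iff' (1 : Subgroup.center C)).mp h
      have e1 := hwu ⟨⟨z, hzC⟩, hzZ⟩
        (fun h' => hz1 (congrArg (fun t : Subgroup.center C => (t.1.1 : Y)) h'))
      have e2 := hwu ⟨⟨g₀, hg₀C⟩, hgZ⟩ (fun h' => hgh (by
        have h6 : g₀ = 1 := congrArg (fun t : Subgroup.center C => (t.1.1 : Y)) h'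
        rw [h6]; group))
      have e3 : z = g₀ := congrArg (fun t : Subgroup.center C => (t.1.1 : Y)) (e1.trans e2.symm)
      apply hgh
      rw [← e3]; exact (hzc h₀).symm
    have hne1 : Nat.card (Subgroup.center C) ≠ 1 := by
      intro h
      have h6 := (Nat.card_eq_one_iff_unique.mp h).1
      apply hz1
      have h7 := Subsingleton.elim (⟨⟨z, hzC⟩, hzZ⟩ : Subgroup.center C) 1
      exact congrArg (fun t : Subgroup.center C => (t.1.1 : Y)) h7
    have hq : Nat.card (↥C ⧸ Subgroup.center ↥C) ≤ 2 := by
      have h1 := (Subgroup.center ↥C).card_mul_index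
      rw [hCcard] at h1
      have h2 : Nat.card (↥C ⧸ Subgroup.center ↥C) = (Subgroup.center ↥C).index := rfl
      rw [h2]
      have h3 : Nat.card (Subgroup.center ↥C) ∈ Nat.divisors 8 := by
        rw [Nat.mem_divisors]; exact ⟨hcard_center, by norm_num⟩
      have h4 : Nat.divisors 8 = {1, 2, 4, 8} := by decide
      rw [h4] at h3
      simp only [Finset.mem_insert, Finset.mem_singleton] at h3
      rcases h3 with h3 | h3 | h3 | h3
      · exact absurd h3 hne1
      · exact absurd h3 hne2
      · rw [h3] at h1; omega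
      · rw [h3] at h1; omega
    have hcycq : IsCyclic (↥C ⧸ Subgroup.center ↥C) := by
      have hpos : 0 < Nat.card (↥C ⧸ Subgroup.center ↥C) := Nat.card_pos
      rcases Nat.lt_or_ge (Nat.card (↥C ⧸ Subgroup.center ↥C)) 2 with h | h
      · have : Subsingleton (↥C ⧸ Subgroup.center ↥C) :=
          (Nat.card_eq_one_iff_unique.mp (by omega)).1
        exact isCyclic_of_subsingleton
      · exact isCyclic_of_prime_card (p := 2) (by omega)
    have hcomm : ∀ u v : ↥C, u * v = v * u :=
      ((QuotientGroup.mk' (Subgroup.center ↥C)).isMulCommutative_of_isCyclic_of_ker_le_center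
        (by rw [QuotientGroup.ker_mk'])).is_comm.comm
    intro u hu v hv
    exact congrArg Subtype.val (hcomm ⟨u, hu⟩ ⟨v, hv⟩)
  by_cases huniq : ∀ B : Subgroup Y, B.index = 2 → (∀ g ∈ B, ∀ h ∈ B, g * h = h * g) → B = C
  · have h1 : Nat.card {M : Subgroup Y // M.index = 2 ∧ ∀ g ∈ M, ∀ h ∈ M, g * h = h * g} = 1 := by
      rw [Nat.card_eq_one_iff_unique]
      exact ⟨⟨fun M₁ M₂ => Subtype.ext ((huniq M₁.1 M₁.2.1 M₁.2.2).trans
        (huniq M₂.1 M₂.2.1 M₂.2.2).symm)⟩, ⟨⟨C, hCi, hCab⟩⟩⟩
    rw [h1]; exact odd_one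
  · push Not at huniq
    obtain ⟨B, hBi, hBab, hBC⟩ := huniq
    obtain ⟨D, hD⟩ : ∃ D : Subgroup Y, D = C ⊓ B := ⟨_, rfl⟩
    have hDi : D.index = 2 ^ 2 := hD ▸ index_inf_of_ne hPG hCi hBi (Ne.symm hBC)
    have hDfrat : frat Y 2 ≤ D := hD ▸ le_inf (frat_le hCi) (frat_le hBi)
    have hDC : D ≤ C := hD ▸ inf_le_left
    have hDB : D ≤ B := hD ▸ inf_le_right
    have hDcard : Nat.card D = 4 := by
      have h1 := D.card_mul_index; rw [hDi, hY] at h1; omega
    obtain ⟨b, hbB, hbC⟩ : ∃ b ∈ B, b ∉ C := by
      by_contra hcon; push Not at hcon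
      exact hBC (eq_of_le_of_index_eq hcon (hBi.trans hCi.symm))
    have hDcent : ∀ d ∈ D, ∀ y : Y, d * y = y * d := by
      intro d hd y
      have h1 : Subgroup.centralizer ({d} : Set Y) = ⊤ := by
        apply Cfsg.Agent.Helper29.eq_top_of_index_prime Nat.prime_two hCi (b := b) _ _ hbC
        · intro c hc
          rw [Subgroup.mem_centralizer_singleton_iff]
          exact hCab c hc d (hDC hd)
        · rw [Subgroup.mem_centralizer_singleton_iff]
          exact hBab b hbB d (hDB hd)
      have h2 : y ∈ Subgroup.centralizer ({d} : Set Y) := h1 ▸ Subgroup.mem_top y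
      exact (Subgroup.mem_centralizer_singleton_iff.mp h2).symm
    have hequiv : Nat.card {M : Subgroup Y // M.index = 2 ∧ ∀ g ∈ M, ∀ h ∈ M, g * h = h * g} =
        Nat.card {M : Subgroup Y // M.index = 2 ∧ D ≤ M} := by
      apply Nat.card_congr
      apply Equiv.subtypeEquivRight
      intro M
      constructor
      · rintro ⟨hMi, hMab⟩
        refine ⟨hMi, ?_⟩
        by_contra hDM
        obtain ⟨d, hdD, hdM⟩ := SetLike.not_le_iff_exists.mp hDM
        have hMcent : ∀ u ∈ M, ∀ y : Y, u * y = y * u := by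
          intro u hu y
          have h1 : Subgroup.centralizer ({u} : Set Y) = ⊤ := by
            apply Cfsg.Agent.Helper29.eq_top_of_index_prime Nat.prime_two hMi (b := d) _ _ hdM
            · intro c hc
              rw [Subgroup.mem_centralizer_singleton_iff]
              exact hMab c hc u hu
            · rw [Subgroup.mem_centralizer_singleton_iff]
              exact hDcent d hdD u
          have h2 : y ∈ Subgroup.centralizer ({u} : Set Y) := h1 ▸ Subgroup.mem_top y
          exact (Subgroup.mem_centralizer_singleton_iff.mp h2).symm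
        apply hgh
        by_cases hg : g₀ ∈ M
        · exact hMcent g₀ hg h₀
        · have h1 : Subgroup.centralizer ({g₀} : Set Y) = ⊤ := by
            apply Cfsg.Agent.Helper29.eq_top_of_index_prime Nat.prime_two hMi (b := g₀) _ _ hg
            · intro c hc
              rw [Subgroup.mem_centralizer_singleton_iff]
              exact hMcent c hc g₀
            · rw [Subgroup.mem_centralizer_singleton_iff]
          have h2 : h₀ ∈ Subgroup.centralizer ({g₀} : Set Y) := h1 ▸ Subgroup.mem_top h₀
          exact (Subgroup.mem_centralizer_singleton_iff.mp h2).symm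
      · rintro ⟨hMi, hDM⟩
        refine ⟨hMi, ?_⟩
        intro u hu v hv
        by_cases huD : u ∈ D
        · exact hDcent u huD v
        · have hMcard : Nat.card M = 8 := by
            have h1 := M.card_mul_index; rw [hMi, hY] at h1; omega
          have hlt : D < Subgroup.centralizer ({u} : Set Y) ⊓ M := by
            apply lt_of_le_of_ne
            · refine le_inf ?_ hDM
              intro d hd
              rw [Subgroup.mem_centralizer_singleton_iff]
              exact hDcent d hd u
            · intro h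
              apply huD
              rw [h]
              exact Subgroup.mem_inf.mpr ⟨Subgroup.mem_centralizer_singleton_iff.mpr rfl, hu⟩
          have h1 := Cfsg.Agent.Helper29.two_mul_card_le_of_lt hlt
          have h2 : Subgroup.centralizer ({u} : Set Y) ⊓ M = M := by
            apply Subgroup.eq_of_le_of_card_ge inf_le_right
            rw [hMcard]; omega
          have h3 : v ∈ Subgroup.centralizer ({u} : Set Y) ⊓ M := by rw [h2]; exact hv
          exact (Subgroup.mem_centralizer_singleton_iff.mp (Subgroup.mem_inf.mp h3).1).symm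
    rw [hequiv, card_index_eq_ge_of_frat_le hPG D hDfrat hDi]
    exact ⟨1, by norm_num⟩

end Cfsg.Agent.Helper8.Kul2
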