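import Mathlib
import Cfsg.Agent.Helper29.MaxClass2b
import Cfsg.Agent.Helper8.Kul2Rec

/-!
# 2-groups: commutator index, cyclic maximal subgroups (helper8)

* `class_of_index_commutator_le`: a non-cyclic group of order `2 ^ e`, `e ≥ 3`, with
  `|X : X'| ≤ 4` has class `e - 1`.
* `card_commutator_dvd_of_good`: otherwise `|X'|` divides `2 ^ (e - 3)`.
* `even_card_cyclic_of_good`: a non-cyclic group of order `2 ^ n`, not of maximal class, has an
  even number of cyclic maximal subgroups.
-/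

set_option autoImplicit false

namespace Cfsg.Agent.Helper8.Kul2

open Cfsg.Agent.Helper65.SubCount Cfsg.Agent.Helper65.Kulakoff
open scoped commutatorElement

theorem isCyclic_of_isCyclic_quotient_commutator {X : Type*} [Group X] [Group.IsNilpotent X]
    (h : IsCyclic (X ⧸ commutator X)) : IsCyclic X := by
  have h1 := Cfsg.Agent.Helper29.lcs_two_eq_of_isCyclic h
  have h2 := Cfsg.Agent.Helper29.lcs_strict' 1 h1
  rw [Subgroup.top_lowerCentralSeries_one] at h2
  have e : X ⧸ commutator X ≃* X :=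
    (QuotientGroup.quotientMulEquivOfEq h2).trans QuotientGroup.quotientBot
  exact e.isCyclic.mp h

theorem class_of_index_commutator_le {X : Type*} [Group X] [Finite X] (e : ℕ) (he : 3 ≤ e)
    (hX : Nat.card X = 2 ^ e) (hnc : ¬ IsCyclic X) (hle : (commutator X).index ≤ 4) :
    Group.nilpotencyClass X = e - 1 := by
  have : Fact (Nat.Prime 2) := ⟨Nat.prime_two⟩
  have hPG : IsPGroup 2 X := IsPGroup.of_card hX
  have hnil : Group.IsNilpotent X := hPG.isNilpotent
  have hnotcyc : ¬ IsCyclic (X ⧸ commutator X) := fun h =>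
    hnc (isCyclic_of_isCyclic_quotient_commutator h)
  have hidx := (commutator X).card_mul_index
  rw [hX] at hidx
  have hcardq : Nat.card (X ⧸ commutator X) = (commutator X).index := rfl
  have hidx4 : (commutator X).index = 4 := by
    obtain ⟨k, hk, hk2⟩ := (Nat.dvd_prime_pow Nat.prime_two).mp (Dvd.intro_left _ hidx)
    rw [hk2] at hle
    have hk3 : k ≤ 2 := by
      by_contra h
      have : 2 ^ 3 ≤ 2 ^ k := Nat.pow_le_pow_right (by norm_num) (by omega)
      omega
    interval_cases k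
    · exfalso
      apply hnotcyc
      have : Subsingleton (X ⧸ commutator X) :=
        (Nat.card_eq_one_iff_unique.mp (by rw [hcardq, hk2]; rfl)).1
      exact isCyclic_of_subsingleton
    · exfalso
      apply hnotcyc
      exact isCyclic_of_prime_card (p := 2) (by rw [hcardq, hk2]; rfl)
    · rw [hk2]; rfl
  have hsq : ∀ g : X, g ^ 2 ∈ commutator X := by
    by_contra hcon
    push Not at hcon
    obtain ⟨g, hg⟩ := hcon
    apply hnotcyc
    have h2 : orderOf (g : X ⧸ commutator X) ∣ 4 := by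
      rw [← hidx4, ← hcardq]; exact orderOf_dvd_natCard _
    have h3 : (g : X ⧸ commutator X) ^ 2 ≠ 1 := by
      rw [← QuotientGroup.mk_pow]
      intro h
      exact hg ((QuotientGroup.eq_one_iff _).mp h)
    have h4 : orderOf (g : X ⧸ commutator X) = 4 := by
      have h5 : orderOf (g : X ⧸ commutator X) ∈ Nat.divisors 4 := by
        rw [Nat.mem_divisors]; exact ⟨h2, by norm_num⟩
      have h6 : Nat.divisors 4 = {1, 2, 4} := by decide
      rw [h6] at h5
      simp only [Finset.mem_insert, Finset.mem_singleton] at h5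
      rcases h5 with h5 | h5 | h5
      · exfalso; apply h3; rw [orderOf_eq_one_iff.mp h5, one_pow]
      · exfalso; apply h3; rw [← h5, pow_orderOf_eq_one]
      · exact h5
    exact isCyclic_of_orderOf_eq_card (g : X ⧸ commutator X) (by rw [h4, hcardq, hidx4])
  obtain ⟨m, rfl⟩ : ∃ m, e = m + 3 := ⟨e - 3, by omega⟩
  have := Cfsg.Agent.Helper29.nilpotencyClass_of_taussky m hX hidx4 hsq
  omega

theorem card_commutator_dvd_of_good {X : Type*} [Group X] [Finite X] (e : ℕ) (he : 3 ≤ e)
    (hX : Nat.card X = 2 ^ e) (hnc : ¬ IsCyclic X) (hcl : Group.nilpotencyClass X ≠ e - 1) :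
    Nat.card (commutator X) ∣ 2 ^ (e - 3) := by
  have hidx := (commutator X).card_mul_index
  rw [hX] at hidx
  obtain ⟨k, hk, hk2⟩ := (Nat.dvd_prime_pow Nat.prime_two).mp (Dvd.intro_left _ hidx)
  have hk3 : 3 ≤ k := by
    by_contra h
    apply hcl
    apply class_of_index_commutator_le e he hX hnc
    rw [hk2]
    calc 2 ^ k ≤ 2 ^ 2 := Nat.pow_le_pow_right (by norm_num) (by omega)
      _ = 4 := by norm_num
  rw [hk2] at hidx
  have h1 : 2 ^ e = 2 ^ (e - k) * 2 ^ k := by rw [← pow_add]; congr 1; omega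
  rw [h1] at hidx
  have h2 := Nat.eq_of_mul_eq_mul_right (by positivity) hidx
  rw [h2]
  exact pow_dvd_pow 2 (by omega)

/-- Elements of order `p ^ (n - 1)` against cyclic subgroups of index `p`. -/
theorem card_orderOf_eq_totient_mul {P : Type*} [Group P] [Finite P] {p : ℕ} [Fact p.Prime]
    (n : ℕ) (hn : 1 ≤ n) (hcard : Nat.card P = p ^ n) :
    Nat.card {x : P // orderOf x = p ^ (n - 1)} =
      Nat.totient (p ^ (n - 1)) * Nat.card {M : Subgroup P // M.index = p ∧ IsCyclic ↥M} := by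
  have hidx : ∀ M : Subgroup P, M.index = p ↔ Nat.card M = p ^ (n - 1) :=
    index_eq_prime_iff_card hcard hn
  have hmap : ∀ x : {x : P // orderOf x = p ^ (n - 1)},
      (Subgroup.zpowers x.1).index = p ∧ IsCyclic ↥(Subgroup.zpowers x.1) := by
    intro x
    exact ⟨(hidx _).mpr (by rw [Nat.card_zpowers]; exact x.2), inferInstance⟩
  have hfib : ∀ M : {M : Subgroup P // M.index = p ∧ IsCyclic ↥M},
      Nat.card {x : {x : P // orderOf x = p ^ (n - 1)} //
        (⟨Subgroup.zpowers x.1, hmap x⟩ : {M : Subgroup P // M.index = p ∧ IsCyclic ↥M}) = M} =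
        Nat.totient (p ^ (n - 1)) := by
    rintro ⟨M, hMi, hMc⟩
    have := hMc
    have hMcard : Nat.card M = p ^ (n - 1) := (hidx M).mp hMi
    have h1 : Nat.card {y : ↥M // orderOf y = p ^ (n - 1)} = Nat.totient (p ^ (n - 1)) := by
      classical
      have : Fintype ↥M := Fintype.ofFinite _
      rw [Nat.card_eq_fintype_card, Fintype.card_subtype]
      exact IsCyclic.card_orderOf_eq_totient (by rw [← Nat.card_eq_fintype_card, hMcard])
    rw [← h1]
    apply Nat.card_congr
    exact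
      { toFun := fun x => ⟨⟨x.1.1, by
            have h : Subgroup.zpowers x.1.1 = M := congrArg Subtype.val x.2
            exact h.le (Subgroup.mem_zpowers x.1.1)⟩, by
            rw [Subgroup.orderOf_mk]; exact x.1.2⟩
        invFun := fun y => ⟨⟨y.1.1, by rw [Subgroup.orderOf_coe]; exact y.2⟩, Subtype.ext (by
            show Subgroup.zpowers y.1.1 = M
            apply Subgroup.eq_of_le_of_card_ge
            · rw [Subgroup.zpowers_le]; exact y.1.2
            · rw [hMcard, Nat.card_zpowers, Subgroup.orderOf_coe, y.2])⟩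
        left_inv := fun x => rfl
        right_inv := fun y => rfl }
  exact card_eq_mul_of_fibers (fun x : {x : P // orderOf x = p ^ (n - 1)} =>
    (⟨Subgroup.zpowers x.1, hmap x⟩ : {M : Subgroup P // M.index = p ∧ IsCyclic ↥M})) _ hfib

theorem card_add_card_not {α : Type*} [Finite α] (B : α → Prop) :
    Nat.card {x // B x} + Nat.card {x // ¬ B x} = Nat.card α := by
  classical
  rw [← Nat.card_sum]
  exact Nat.card_congr (Equiv.sumCompl B)

/-- A generator of a cyclic subgroup of index `2`. -/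
theorem exists_gen_of_cyclic_index_two {X : Type*} [Group X] [Finite X] (n : ℕ) (hn : 1 ≤ n)
    (hX : Nat.card X = 2 ^ n) (M : Subgroup X) (hMi : M.index = 2) (hMc : IsCyclic ↥M) :
    ∃ a : X, orderOf a = 2 ^ (n - 1) ∧ Subgroup.zpowers a = M := by
  have : Fact (Nat.Prime 2) := ⟨Nat.prime_two⟩
  have hMcard : Nat.card M = 2 ^ (n - 1) := (index_eq_prime_iff_card hX hn M).mp hMi
  obtain ⟨a', ha'⟩ := hMc.exists_generator
  have h1 : orderOf (a' : X) = 2 ^ (n - 1) := by
    rw [Subgroup.orderOf_coe, orderOf_eq_card_of_forall_mem_zpowers ha', hMcard]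
  refine ⟨a', h1, ?_⟩
  apply Subgroup.eq_of_le_of_card_ge
  · rw [Subgroup.zpowers_le]; exact a'.2
  · rw [hMcard, Nat.card_zpowers, h1]

/-- **P1**: a non-cyclic group of order `2 ^ n`, `n ≥ 3`, not of maximal class, has an even
number of cyclic maximal subgroups. -/
theorem even_card_cyclic_of_good {X : Type*} [Group X] [Finite X] (n : ℕ) (hn : 3 ≤ n)
    (hX : Nat.card X = 2 ^ n) (hnc : ¬ IsCyclic X) (hcl : Group.nilpotencyClass X ≠ n - 1) :
    Even (Nat.card {M : Subgroup X // M.index = 2 ∧ IsCyclic ↥M}) := by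
  have : Fact (Nat.Prime 2) := ⟨Nat.prime_two⟩
  have hPG : IsPGroup 2 X := IsPGroup.of_card hX
  by_cases hex : ∃ M : Subgroup X, M.index = 2 ∧ IsCyclic ↥M
  swap
  · have : IsEmpty {M : Subgroup X // M.index = 2 ∧ IsCyclic ↥M} := ⟨fun M => hex ⟨M.1, M.2⟩⟩
    rw [Nat.card_of_isEmpty]
    exact Even.zero
  obtain ⟨M, hMi, hMc⟩ := hex
  obtain ⟨a, ha, hM⟩ := exists_gen_of_cyclic_index_two n (by omega) hX M hMi hMc
  have hcd := card_commutator_dvd_of_good n hn hX hnc hcl
  have hcyc := card_orderOf_eq_totient_mul (p := 2) n (by omega) hX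
  obtain ⟨m, rfl⟩ : ∃ m, n = m + 3 := ⟨n - 3, by omega⟩
  rw [show m + 3 - 1 = m + 2 by omega] at ha hcyc
  rw [show m + 3 - 3 = m by omega] at hcd
  have hSQ : ∀ g : X, ∃ i : ℕ, g ^ 2 = a ^ (2 * i) := by
    intro g
    have h1 : g ^ 2 ∈ Subgroup.zpowers a := hM ▸ Subgroup.sq_mem_of_index_two hMi g
    obtain ⟨j, hj⟩ := (Submonoid.mem_powers_iff _ _).mp (mem_powers_iff_mem_zpowers.mpr h1)
    rcases Nat.even_or_odd j with ⟨i, hi⟩ | hodd
    · exact ⟨i, by rw [← hj, hi]; congr 1; ring⟩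
    · exfalso
      have h2 : orderOf (g ^ 2) = 2 ^ (m + 2) := by
        rw [← hj, Nat.Coprime.orderOf_pow, ha]
        rw [ha]; exact Nat.Coprime.pow_left _ (Nat.coprime_two_left.mpr hodd)
      have h3 : ¬ g ^ 2 ^ (m + 2) = 1 := by
        intro h
        have h4 : (g ^ 2) ^ 2 ^ (m + 1) = 1 := by rw [← pow_mul, ← pow_succ']; exact h
        have h5 := orderOf_dvd_of_pow_eq_one h4
        rw [h2] at h5
        have h6 := Nat.le_of_dvd (by positivity) h5
        have h7 : 2 ^ (m + 1) < 2 ^ (m + 2) := Nat.pow_lt_pow_right (by norm_num) (by omega)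
        omega
      have h4 : g ^ 2 ^ (m + 2 + 1) = 1 := by
        have h := pow_card_eq_one' (G := X) (x := g)
        rw [hX] at h
        exact h
      have h5 := orderOf_eq_prime_pow h3 h4
      exact hnc (isCyclic_of_orderOf_eq_card g (by rw [h5, hX]))
  have hcomm_le : commutator X ≤ Subgroup.zpowers a := by
    rw [hM]; exact (commutator_le_frat hPG).trans (frat_le hMi)
  have hCOMM : ∀ g : X, ∃ j : ℕ, g⁻¹ * a * g * a⁻¹ = a ^ (4 * j) := by
    intro g
    have h0 : g⁻¹ * a * g * a⁻¹ ∈ commutator X := by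
      have h : g⁻¹ * a * g * a⁻¹ = ⁅g⁻¹, a⁆ := by rw [commutatorElement_def, inv_inv]
      rw [h, commutator_def]
      exact Subgroup.commutator_mem_commutator (Subgroup.mem_top _) (Subgroup.mem_top _)
    obtain ⟨j, hj⟩ := (Submonoid.mem_powers_iff _ _).mp
      (mem_powers_iff_mem_zpowers.mpr (hcomm_le h0))
    have h1 : (a ^ j) ^ 2 ^ m = 1 := by
      rw [hj]
      have h2 : orderOf (⟨_, h0⟩ : commutator X) ∣ 2 ^ m := (orderOf_dvd_natCard _).trans hcd
      have h3 := orderOf_dvd_iff_pow_eq_one.mp h2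
      exact congrArg Subtype.val h3
    rw [← pow_mul] at h1
    have h2 := orderOf_dvd_of_pow_eq_one h1
    rw [ha] at h2
    have h3 : 4 ∣ j := by
      have h4 : 2 ^ (m + 2) = 4 * 2 ^ m := by ring
      rw [h4] at h2
      exact Nat.dvd_of_mul_dvd_mul_right (by positivity) h2
    obtain ⟨j', rfl⟩ := h3
    exact ⟨j', hj.symm⟩
  have hz2 : a ^ 2 ^ (m + 1) * a ^ 2 ^ (m + 1) = 1 := by
    rw [← pow_add, ← two_mul, ← pow_succ', ← ha]; exact pow_orderOf_eq_one a
  have hz1 : a ^ 2 ^ (m + 1) ≠ 1 := by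
    intro h
    have h3 := orderOf_dvd_of_pow_eq_one h
    rw [ha] at h3
    have h4 := Nat.le_of_dvd (by positivity) h3
    have h5 : 2 ^ (m + 1) < 2 ^ (m + 2) := Nat.pow_lt_pow_right (by norm_num) (by omega)
    omega
  have hpow : ∀ (g : X) (i : ℕ), g ^ 2 = a ^ (2 * i) →
      g ^ 2 ^ (m + 1) = (a ^ 2 ^ (m + 1)) ^ i := by
    intro g i hi
    calc g ^ 2 ^ (m + 1) = (g ^ 2) ^ 2 ^ m := by rw [← pow_mul, ← pow_succ']
      _ = (a ^ 2 ^ (m + 1)) ^ i := by rw [hi, ← pow_mul, ← pow_mul]; congr 1; ring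
  have hzsq : (a ^ 2 ^ (m + 1)) ^ 2 = 1 := by rw [pow_two]; exact hz2
  have hφ1 : ∀ g : X, g ^ 2 ^ (m + 1) = 1 ∨ g ^ 2 ^ (m + 1) = a ^ 2 ^ (m + 1) := by
    intro g
    obtain ⟨i, hi⟩ := hSQ g
    rw [hpow g i hi]
    rcases Nat.even_or_odd' i with ⟨t, rfl | rfl⟩
    · left; rw [pow_mul, hzsq, one_pow]
    · right; rw [pow_succ, pow_mul, hzsq, one_pow, one_mul]
  have hφa : ∀ g : X, (g * a) ^ 2 ^ (m + 1) = g ^ 2 ^ (m + 1) * a ^ 2 ^ (m + 1) := by
    intro g
    obtain ⟨i, hi⟩ := hSQ g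
    obtain ⟨j, hj⟩ := hCOMM g
    have h1 : (g * a) ^ 2 = a ^ (2 * (i + 2 * j + 1)) := by
      have h : (g * a) ^ 2 = g ^ 2 * (g⁻¹ * a * g * a⁻¹) * a ^ 2 := by
        simp only [pow_two]; group
      rw [h, hi, hj, ← pow_add, ← pow_add]; congr 1; ring
    rw [hpow _ _ h1, hpow _ _ hi, pow_succ, pow_add, pow_mul, hzsq, one_pow, mul_one]
  have hequiv : Nat.card {g : X // g ^ 2 ^ (m + 1) = 1} =
      Nat.card {g : X // ¬ g ^ 2 ^ (m + 1) = 1} := by
    apply Nat.card_congr
    exact
      { toFun := fun g => ⟨g.1 * a, by rw [hφa, g.2, one_mul]; exact hz1⟩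
        invFun := fun g => ⟨g.1 * a⁻¹, by
          have h := hφa (g.1 * a⁻¹)
          rw [inv_mul_cancel_right] at h
          rcases hφ1 g.1 with h1 | h1
          · exact absurd h1 g.2
          · rw [h1] at h
            exact mul_eq_right.mp h.symm⟩
        left_inv := fun g => Subtype.ext (mul_inv_cancel_right _ _)
        right_inv := fun g => Subtype.ext (inv_mul_cancel_right _ _) }
  have hsplit := card_add_card_not (fun g : X => g ^ 2 ^ (m + 1) = 1)
  rw [hX] at hsplit
  have hE : Nat.card {x : X // orderOf x = 2 ^ (m + 2)} =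
      Nat.card {g : X // ¬ g ^ 2 ^ (m + 1) = 1} := by
    apply Nat.card_congr
    apply Equiv.subtypeEquivRight
    intro g
    constructor
    · intro h h1
      have h3 := orderOf_dvd_of_pow_eq_one h1
      rw [h] at h3
      have h4 := Nat.le_of_dvd (by positivity) h3
      have h5 : 2 ^ (m + 1) < 2 ^ (m + 2) := Nat.pow_lt_pow_right (by norm_num) (by omega)
      omega
    · intro h
      apply orderOf_eq_prime_pow h
      rw [pow_succ, pow_mul]
      rcases hφ1 g with h1 | h1
      · rw [h1, one_pow]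
      · rw [h1, hzsq]
  rw [hE, Nat.totient_prime_pow Nat.prime_two (by omega : 0 < m + 2)] at hcyc
  have h8 : 2 ^ (m + 3) = 2 * 2 ^ (m + 2) := by ring
  have h9 : 2 ^ (m + 2) = 2 * 2 ^ (m + 1) := by ring
  have h10 : 0 < 2 ^ (m + 1) := by positivity
  rw [show m + 2 - 1 = m + 1 by omega] at hcyc
  have h11 : Nat.card {M : Subgroup X // M.index = 2 ∧ IsCyclic ↥M} = 2 := by
    have h12 : 2 ^ (m + 1) * Nat.card {M : Subgroup X // M.index = 2 ∧ IsCyclic ↥M} =
        2 ^ (m + 1) * 2 := by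
      have : Nat.card {g : X // ¬ g ^ 2 ^ (m + 1) = 1} = 2 ^ (m + 2) := by omega
      rw [this] at hcyc
      simp only [Nat.add_one_sub_one, mul_one] at hcyc
      omega
    exact Nat.eq_of_mul_eq_mul_left h10 h12
  rw [h11]
  exact even_two

end Cfsg.Agent.Helper8.Kul2
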