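import Mathlib
import Cfsg.Agent.Helper29.MaxClass2b
import Cfsg.Agent.Helper8.Kul2Struct
import Cfsg.Agent.Helper8.Kul2Ord16

/-!
# Maximal subgroups of maximal class in a 2-group not of maximal class (helper8)

`even_card_maxclass_of_good`: a non-cyclic group of order `2 ^ n`, `n ≥ 4`, of class `≠ n - 1`
has an even number of maximal subgroups of class `n - 2`.
-/

set_option autoImplicit false

namespace Cfsg.Agent.Helper8.Kul2

open Cfsg.Agent.Helper65.SubCount Cfsg.Agent.Helper65.Kulakoff Cfsg.Agent.Helper29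
open scoped commutatorElement

theorem comm_of_isCyclic {M : Type*} [Group M] (h : IsCyclic M) (a b : M) : a * b = b * a := by
  let _ := IsCyclic.commGroup (α := M)
  exact mul_comm a b

theorem commutator_mem_iff_comm {X : Type*} [Group X] (K : Subgroup X) [K.Normal] (g h : X) :
    ⁅g, h⁆ ∈ K ↔ (QuotientGroup.mk' K g) * (QuotientGroup.mk' K h) =
      (QuotientGroup.mk' K h) * (QuotientGroup.mk' K g) := by
  rw [← commutatorElement_eq_one_iff_mul_comm, ← map_commutatorElement]
  exact (QuotientGroup.eq_one_iff _).symm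

/-- Order `2 ^ (m + 3)`, non-cyclic, `2 ^ (m + 1) ∣ |M'|`: class `m + 2`. -/
theorem class_of_dvd_card_commutator {M : Type*} [Group M] [Finite M] (m : ℕ)
    (hM : Nat.card M = 2 ^ (m + 3)) (hnc : ¬ IsCyclic M)
    (h8 : 2 ^ (m + 1) ∣ Nat.card (commutator M)) : Group.nilpotencyClass M = m + 2 := by
  have h9 := (commutator M).card_mul_index
  rw [hM] at h9
  have hle : (commutator M).index ≤ 4 := by
    have h10 := Nat.le_of_dvd Nat.card_pos h8
    have h11 : 2 ^ (m + 3) = 2 ^ (m + 1) * 4 := by ring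
    have h12 : 0 < 2 ^ (m + 1) := by positivity
    by_contra hgt
    push Not at hgt
    have h13 : 2 ^ (m + 1) * 5 ≤ Nat.card (commutator M) * (commutator M).index :=
      Nat.mul_le_mul h10 hgt
    rw [h9, h11] at h13
    omega
  have := class_of_index_commutator_le (m + 3) (by omega) hM hnc hle
  omega

/-- **P3**. -/
theorem even_card_maxclass_of_good {X : Type*} [Group X] [Finite X] (n : ℕ) (hn : 4 ≤ n)
    (hX : Nat.card X = 2 ^ n) (hnc : ¬ IsCyclic X) (hcl : Group.nilpotencyClass X ≠ n - 1) :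
    Even (Nat.card {M : Subgroup X // M.index = 2 ∧ Group.nilpotencyClass ↥M = n - 2}) := by
  have : Fact (Nat.Prime 2) := ⟨Nat.prime_two⟩
  have hPG : IsPGroup 2 X := IsPGroup.of_card hX
  by_cases hex : ∃ M : Subgroup X, M.index = 2 ∧ Group.nilpotencyClass ↥M = n - 2
  swap
  · have : IsEmpty {M : Subgroup X // M.index = 2 ∧ Group.nilpotencyClass ↥M = n - 2} :=
      ⟨fun M => hex ⟨M.1, M.2⟩⟩
    rw [Nat.card_of_isEmpty]
    exact Even.zero
  obtain ⟨M₀, hM₀i, hM₀c⟩ := hex
  have hM₀card : Nat.card M₀ = 2 ^ (n - 1) := (index_eq_prime_iff_card hX (by omega) M₀).mp hM₀i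
  have hcd := card_commutator_dvd_of_good n (by omega) hX hnc hcl
  have hmax4 : Nat.card {M : Subgroup X // M.index = 2} % 4 = 3 :=
    card_index_eq_modEq' (p := 2) n hX hnc
  have hidxcard : ∀ M : Subgroup X, M.index = 2 → Nat.card M = 2 ^ (n - 1) := fun M hMi =>
    (index_eq_prime_iff_card hX (by omega) M).mp hMi
  obtain ⟨m, rfl⟩ : ∃ m, n = m + 4 := ⟨n - 4, by omega⟩
  have e1 : m + 4 - 1 = m + 3 := by omega
  have e2 : m + 4 - 3 = m + 1 := by omega
  have e3 : m + 4 - 2 = m + 2 := by omega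
  rw [e1] at hM₀card hidxcard
  rw [e2] at hcd
  rw [e3] at hM₀c ⊢
  -- the commutator subgroup is cyclic
  obtain ⟨hidx0, hsq0⟩ := maxclass_commutator (m + 3) (by omega) hM₀card (by rw [hM₀c]; omega)
  obtain ⟨a₀, -, -, ha₀, -, -, -, -, -⟩ := taussky_gens m hM₀card hidx0 hsq0
  obtain ⟨c, hcdef⟩ : ∃ c : X, c = ((a₀ ^ 2 : ↥M₀) : X) := ⟨_, rfl⟩
  have hcord : orderOf c = 2 ^ (m + 1) := by
    rw [hcdef, Subgroup.orderOf_coe,
      orderOf_pow_of_dvd (by norm_num) (by rw [ha₀]; exact ⟨2 ^ (m + 1), by ring⟩), ha₀]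
    rw [pow_succ, Nat.mul_div_cancel _ (by norm_num)]
  have hcmem : c ∈ commutator X := by
    have h1 : (a₀ ^ 2 : ↥M₀) ∈ commutator ↥M₀ := hsq0 a₀
    have h2 : c ∈ Subgroup.map M₀.subtype (commutator ↥M₀) := ⟨a₀ ^ 2, h1, hcdef.symm⟩
    rw [Subgroup.map_subtype_commutator] at h2
    rw [commutator_def]
    exact Subgroup.commutator_mono le_top le_top h2
  have hXc : commutator X = Subgroup.zpowers c := by
    symm
    apply Subgroup.eq_of_le_of_card_ge
    · rw [Subgroup.zpowers_le]; exact hcmem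
    · rw [Nat.card_zpowers, hcord]; exact Nat.le_of_dvd (by positivity) hcd
  have hXccard : Nat.card (commutator X) = 2 ^ (m + 1) := by
    rw [hXc, Nat.card_zpowers, hcord]
  obtain ⟨K, hKdef⟩ : ∃ K : Subgroup X, K = Subgroup.zpowers (c ^ 2) := ⟨_, rfl⟩
  have hKcard : Nat.card K = 2 ^ m := by
    rw [hKdef, Nat.card_zpowers,
      orderOf_pow_of_dvd (by norm_num) (by rw [hcord]; exact ⟨2 ^ m, by ring⟩), hcord, pow_succ,
      Nat.mul_div_cancel _ (by norm_num)]
  have hKle : K ≤ commutator X := by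
    rw [hKdef, hXc, Subgroup.zpowers_le]
    exact Subgroup.pow_mem _ (Subgroup.mem_zpowers c) 2
  have hKn : K.Normal := by
    constructor
    intro k hk g
    rw [hKdef] at hk ⊢
    have h1 : g * c * g⁻¹ ∈ Subgroup.zpowers c := by
      rw [← hXc]; exact (inferInstance : (commutator X).Normal).conj_mem c hcmem g
    obtain ⟨i, rfl⟩ := (Submonoid.mem_powers_iff _ _).mp (mem_powers_iff_mem_zpowers.mpr hk)
    obtain ⟨j, hj⟩ := (Submonoid.mem_powers_iff _ _).mp (mem_powers_iff_mem_zpowers.mpr h1)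
    have h3 : (c ^ j) ^ 2 = (c ^ 2) ^ j := by rw [← pow_mul, ← pow_mul, mul_comm]
    have h2 : g * (c ^ 2) ^ i * g⁻¹ = ((c ^ 2) ^ j) ^ i := by
      rw [← conj_pow, ← conj_pow, ← hj, h3]
    rw [h2]
    exact Subgroup.pow_mem _ (Subgroup.pow_mem _ (Subgroup.mem_zpowers _) j) i
  have hKidx : K.index = 16 := by
    have h1 := K.card_mul_index
    rw [hKcard, hX] at h1
    have h2 : 2 ^ (m + 4) = 2 ^ m * 16 := by ring
    rw [h2] at h1
    exact Nat.eq_of_mul_eq_mul_left (by positivity) h1
  have hYcard : Nat.card (X ⧸ K) = 16 := by rw [← Subgroup.index_eq_card]; exact hKidx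
  have hYc : Nat.card (commutator (X ⧸ K)) = 2 := by
    have h1 : commutator (X ⧸ K) = Subgroup.map (QuotientGroup.mk' K) (commutator X) := by
      rw [commutator_def, commutator_def, Subgroup.map_commutator,
        Subgroup.map_top_of_surjective _ (QuotientGroup.mk'_surjective K)]
    have h2 : (commutator (X ⧸ K)).index = (commutator X).index := by
      rw [h1]
      exact Subgroup.index_map_eq _ (QuotientGroup.mk'_surjective K)
        (by rw [QuotientGroup.ker_mk']; exact hKle)
    have h3 : (commutator X).index = 8 := by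
      have h := (commutator X).card_mul_index
      rw [hXccard, hX] at h
      have h5 : 2 ^ (m + 4) = 2 ^ (m + 1) * 8 := by ring
      rw [h5] at h
      exact Nat.eq_of_mul_eq_mul_left (by positivity) h
    have h4 := (commutator (X ⧸ K)).card_mul_index
    rw [h2, h3, hYcard] at h4; omega
  have hodd := odd_card_abelian_max hYcard hYc
  -- the maximal subgroups of maximal class
  have hchar : ∀ M : Subgroup X, M.index = 2 →
      (Group.nilpotencyClass ↥M = m + 2 ↔ ¬ ∀ g ∈ M, ∀ h ∈ M, ⁅g, h⁆ ∈ K) := by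
    intro M hMi
    have hMcard : Nat.card M = 2 ^ (m + 3) := hidxcard M hMi
    constructor
    · intro hMc hall
      obtain ⟨hidxM, -⟩ := maxclass_commutator (m + 3) (by omega) hMcard (by rw [hMc]; omega)
      have h1 := (commutator ↥M).card_mul_index
      rw [hidxM, hMcard] at h1
      have h2 : Nat.card (commutator ↥M) = 2 ^ (m + 1) := by
        have h5 : 2 ^ (m + 3) = 2 ^ (m + 1) * 4 := by ring
        omega
      have h3 : Subgroup.map M.subtype (commutator ↥M) ≤ K := by
        rw [Subgroup.map_subtype_commutator, Subgroup.commutator_le]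
        exact hall
      have h4 := Subgroup.card_le_of_le h3
      rw [Subgroup.card_map_of_injective (Subgroup.subtype_injective M), h2, hKcard] at h4
      have h5 : 2 ^ m < 2 ^ (m + 1) := Nat.pow_lt_pow_right (by norm_num) (by omega)
      omega
    · intro hnot
      push Not at hnot
      obtain ⟨g, hg, h, hh, hgh⟩ := hnot
      have hw : ⁅g, h⁆ ∈ Subgroup.zpowers c := by
        rw [← hXc, commutator_def]
        exact Subgroup.commutator_mem_commutator (Subgroup.mem_top _) (Subgroup.mem_top _)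
      obtain ⟨i, hi⟩ := (Submonoid.mem_powers_iff _ _).mp (mem_powers_iff_mem_zpowers.mpr hw)
      have hiodd : Odd i := by
        by_contra hev
        rw [Nat.not_odd_iff_even] at hev
        obtain ⟨t, ht⟩ := hev
        apply hgh
        rw [← hi, ht, ← two_mul, pow_mul, hKdef]
        exact Subgroup.pow_mem _ (Subgroup.mem_zpowers _) t
      have hword : orderOf ⁅g, h⁆ = 2 ^ (m + 1) := by
        rw [← hi, Nat.Coprime.orderOf_pow, hcord]
        rw [hcord]; exact Nat.Coprime.pow_left _ (Nat.coprime_two_left.mpr hiodd)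
      have hMnc : ¬ IsCyclic ↥M := by
        intro hcyc
        apply hgh
        have hcomm : (⟨g, hg⟩ : ↥M) * ⟨h, hh⟩ = ⟨h, hh⟩ * ⟨g, hg⟩ := comm_of_isCyclic hcyc _ _
        have hcomm' : g * h = h * g := congrArg Subtype.val hcomm
        rw [commutatorElement_eq_one_iff_mul_comm.mpr hcomm']
        exact K.one_mem
      have h6 : (⁅(⟨g, hg⟩ : ↥M), (⟨h, hh⟩ : ↥M)⁆ : ↥M) ∈ commutator ↥M := by
        rw [commutator_def]
        exact Subgroup.commutator_mem_commutator (Subgroup.mem_top _) (Subgroup.mem_top _)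
      have h7 : orderOf (⁅(⟨g, hg⟩ : ↥M), (⟨h, hh⟩ : ↥M)⁆ : ↥M) = 2 ^ (m + 1) := by
        rw [← Subgroup.orderOf_coe, ← hword]
        rfl
      have h8 : 2 ^ (m + 1) ∣ Nat.card (commutator ↥M) := by
        rw [← h7]
        have h9 := orderOf_dvd_natCard (⟨_, h6⟩ : commutator ↥M)
        rwa [Subgroup.orderOf_mk] at h9
      exact class_of_dvd_card_commutator m hMcard hMnc h8
  have hKM : ∀ M : Subgroup X, M.index = 2 → K ≤ M := fun M hMi =>
    hKle.trans ((commutator_le_frat hPG).trans (frat_le hMi))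
  have hcount : Nat.card {M : Subgroup X // M.index = 2 ∧ ∀ g ∈ M, ∀ h ∈ M, ⁅g, h⁆ ∈ K} =
      Nat.card {N : Subgroup (X ⧸ K) // N.index = 2 ∧ ∀ g ∈ N, ∀ h ∈ N, g * h = h * g} := by
    symm
    apply Nat.card_congr
    exact
      { toFun := fun N => ⟨Subgroup.comap (QuotientGroup.mk' K) N.1, by
            rw [Subgroup.index_comap_of_surjective _ (QuotientGroup.mk'_surjective K)]
            exact N.2.1, by
            intro g hg h hh
            rw [commutator_mem_iff_comm]
            exact N.2.2 _ (Subgroup.mem_comap.mp hg) _ (Subgroup.mem_comap.mp hh)⟩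
        invFun := fun M => ⟨Subgroup.map (QuotientGroup.mk' K) M.1, by
            have h := Subgroup.index_comap_of_surjective (Subgroup.map (QuotientGroup.mk' K) M.1)
              (QuotientGroup.mk'_surjective K)
            rw [← h, Subgroup.comap_map_eq, QuotientGroup.ker_mk', sup_eq_left.mpr (hKM M.1 M.2.1)]
            exact M.2.1, by
            rintro _ ⟨g, hg, rfl⟩ _ ⟨h, hh, rfl⟩
            exact (commutator_mem_iff_comm K g h).mp (M.2.2 g hg h hh)⟩
        left_inv := fun N => Subtype.ext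
          (Subgroup.map_comap_eq_self_of_surjective (QuotientGroup.mk'_surjective K) N.1)
        right_inv := fun M => Subtype.ext (by
          show Subgroup.comap (QuotientGroup.mk' K) (Subgroup.map (QuotientGroup.mk' K) M.1) = M.1
          rw [Subgroup.comap_map_eq, QuotientGroup.ker_mk', sup_eq_left.mpr (hKM M.1 M.2.1)]) }
  have hsplit := card_subtype_split (fun M : Subgroup X => M.index = 2)
    (fun M => ∀ g ∈ M, ∀ h ∈ M, ⁅g, h⁆ ∈ K)
  have h1 : Nat.card {M : Subgroup X // M.index = 2 ∧ Group.nilpotencyClass ↥M = m + 2} =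
      Nat.card {M : Subgroup X // M.index = 2 ∧ ¬ ∀ g ∈ M, ∀ h ∈ M, ⁅g, h⁆ ∈ K} :=
    Nat.card_congr (Equiv.subtypeEquivRight (fun M => and_congr_right (hchar M)))
  rw [h1]
  rw [hcount] at hsplit
  rw [Nat.odd_iff] at hodd
  rw [Nat.even_iff]
  omega

end Cfsg.Agent.Helper8.Kul2
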