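import Mathlib
import Cfsg.Agent.Helper29.MaxClass2b
import Cfsg.Agent.Helper8.Kul2Struct

/-!
# 2-groups of maximal class: their maximal subgroups (helper8)

* `odd_card_cyclic_of_maxclass`: a group of order `2 ^ n`, `n ≥ 3`, of class `n - 1` has an odd
  number of cyclic maximal subgroups.
* `class_of_noncyclic_max_of_maxclass`: for `n ≥ 4` its non-cyclic maximal subgroups have class
  `n - 2`.
* `even_card_maxclass_of_maxclass`: hence an even number of maximal subgroups of class `n - 2`.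
-/

set_option autoImplicit false

namespace Cfsg.Agent.Helper8.Kul2

open Cfsg.Agent.Helper65.SubCount Cfsg.Agent.Helper65.Kulakoff Cfsg.Agent.Helper29
open scoped commutatorElement

theorem class_le_one_of_isCyclic {X : Type*} [Group X] (h : IsCyclic X) :
    Group.nilpotencyClass X ≤ 1 :=
  @CommGroup.nilpotencyClass_le_one X IsCyclic.commGroup

/-- Outside a cyclic subgroup `⟨a⟩` of index 2 with `x a x⁻¹ = a ^ s`: the shape of elements. -/
theorem exists_eq_pow_mul_of_not_mem {X : Type*} [Group X] [Finite X] {a x : X}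
    (hA : (Subgroup.zpowers a).index = 2) (hx : x ∉ Subgroup.zpowers a) (y : X)
    (hy : y ∉ Subgroup.zpowers a) : ∃ i : ℕ, y = a ^ i * x := by
  have h1 : y * x⁻¹ ∈ Subgroup.zpowers a := by
    rw [Subgroup.mul_mem_iff_of_index_two hA]
    constructor
    · intro h; exact absurd h hy
    · intro h; exact absurd ((Subgroup.inv_mem_iff _).mp h) hx
  obtain ⟨i, hi⟩ := (Submonoid.mem_powers_iff _ _).mp (mem_powers_iff_mem_zpowers.mpr h1)
  exact ⟨i, by rw [hi]; group⟩

theorem index_zpowers_eq_two {X : Type*} [Group X] [Finite X] (e : ℕ)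
    (hX : Nat.card X = 2 ^ (e + 1)) (a : X) (ha : orderOf a = 2 ^ e) :
    (Subgroup.zpowers a).index = 2 := by
  have h1 := (Subgroup.zpowers a).card_mul_index
  rw [Nat.card_zpowers, ha, hX, pow_succ] at h1
  exact Nat.eq_of_mul_eq_mul_left (by positivity) h1

/-- **P2**: a group of order `2 ^ n`, `n ≥ 3`, of class `n - 1` has an odd number of cyclic
maximal subgroups. -/
theorem odd_card_cyclic_of_maxclass {X : Type*} [Group X] [Finite X] (n : ℕ) (hn : 3 ≤ n)
    (hX : Nat.card X = 2 ^ n) (hc : Group.nilpotencyClass X = n - 1) :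
    Odd (Nat.card {M : Subgroup X // M.index = 2 ∧ IsCyclic ↥M}) := by
  have : Fact (Nat.Prime 2) := ⟨Nat.prime_two⟩
  have hnc : ¬ IsCyclic X := by
    intro h
    have := class_le_one_of_isCyclic h
    omega
  obtain ⟨hidx, hsq⟩ := maxclass_commutator n hn hX hc
  obtain ⟨m, rfl⟩ : ∃ m, n = m + 3 := ⟨n - 3, by omega⟩
  obtain ⟨a, x, r, ha, hx, hr, hxa, hdvd, hxx⟩ := taussky_gens m hX hidx hsq
  have hA : (Subgroup.zpowers a).index = 2 := index_zpowers_eq_two (m + 2) hX a ha
  have hz2 : (a ^ 2 ^ (m + 1)) ^ 2 = 1 := by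
    rw [← pow_mul, ← pow_succ, ← ha]; exact pow_orderOf_eq_one a
  have hz1 : a ^ 2 ^ (m + 1) ≠ 1 := by
    intro h
    have h3 := orderOf_dvd_of_pow_eq_one h
    rw [ha] at h3
    have h4 := Nat.le_of_dvd (by positivity) h3
    have h5 : 2 ^ (m + 1) < 2 ^ (m + 2) := Nat.pow_lt_pow_right (by norm_num) (by omega)
    omega
  -- squares of the elements outside `⟨a⟩`
  have hsqy : ∀ y : X, y ∉ Subgroup.zpowers a →
      ∃ t : ℕ, y ^ 2 = (a ^ 2 ^ (m + 1)) ^ t * (x * x) ∧ (m = 0 → Even t) := by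
    intro y hy
    obtain ⟨i, rfl⟩ := exists_eq_pow_mul_of_not_mem hA hx y hy
    obtain ⟨d, hd⟩ := hdvd
    refine ⟨d * i, ?_, ?_⟩
    · have h1 := conj_pow_of_conj hxa i
      have h2 : (a ^ i * x) ^ 2 = a ^ i * (x * a ^ i * x⁻¹) * (x * x) := by
        simp only [pow_two]; group
      rw [h2, h1, ← pow_add, ← pow_mul]
      congr 2
      have h3 : i + (2 * r + 1) * i = 2 * (r + 1) * i := by ring
      rw [h3, hd, pow_succ]
      ring
    · intro hm
      rw [hm, pow_zero, one_mul] at hd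
      have h1 : Even d := by
        rw [← hd]; exact hr.add_one
      exact h1.mul_right i
  have hzpow : ∀ t : ℕ, (a ^ 2 ^ (m + 1)) ^ t = 1 ∨ (a ^ 2 ^ (m + 1)) ^ t = a ^ 2 ^ (m + 1) := by
    intro t
    rcases Nat.even_or_odd' t with ⟨s, rfl | rfl⟩
    · left; rw [pow_mul, hz2, one_pow]
    · right; rw [pow_succ, pow_mul, hz2, one_pow, one_mul]
  have hy4 : ∀ y : X, y ∉ Subgroup.zpowers a → y ^ 2 = 1 ∨ y ^ 2 = a ^ 2 ^ (m + 1) := by
    intro y hy
    obtain ⟨t, ht, -⟩ := hsqy y hy
    rw [ht]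
    rcases hzpow t with h1 | h1 <;> rcases hxx with h2 | h2
    · left; rw [h1, h2, one_mul]
    · right; rw [h1, h2, one_mul]
    · right; rw [h1, h2, mul_one]
    · left; rw [h1, h2, ← pow_two, hz2]
  -- the dichotomy
  have hdich : (∀ y : X, y ∉ Subgroup.zpowers a → orderOf y ≠ 2 ^ (m + 2)) ∨
      (m = 0 ∧ ∀ y : X, y ∉ Subgroup.zpowers a → orderOf y = 4) := by
    have hy4' : ∀ y : X, y ∉ Subgroup.zpowers a → y ^ 4 = 1 := by
      intro y hy
      have h1 : y ^ 4 = (y ^ 2) ^ 2 := by rw [← pow_mul]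
      rw [h1]
      rcases hy4 y hy with h | h
      · rw [h, one_pow]
      · rw [h, hz2]
    rcases Nat.eq_zero_or_pos m with hm | hm
    · rcases hxx with h2 | h2
      · left
        intro y hy hord
        obtain ⟨t, ht, hte⟩ := hsqy y hy
        obtain ⟨s, hs⟩ := hte hm
        have h3 : y ^ 2 = 1 := by
          rw [ht, h2, mul_one, hs, ← two_mul, pow_mul, hz2, one_pow]
        have h4 := orderOf_dvd_of_pow_eq_one h3
        rw [hord, hm] at h4
        have := Nat.le_of_dvd (by norm_num) h4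
        norm_num at this
      · right
        refine ⟨hm, ?_⟩
        intro y hy
        obtain ⟨t, ht, hte⟩ := hsqy y hy
        obtain ⟨s, hs⟩ := hte hm
        have h3 : y ^ 2 = a ^ 2 ^ (m + 1) := by
          rw [ht, h2, hs, ← two_mul, pow_mul, hz2, one_pow, one_mul]
        have h5 : orderOf y = 2 ^ (1 + 1) := by
          apply orderOf_eq_prime_pow
          · rw [pow_one, h3]; exact hz1
          · have h6 : y ^ 2 ^ (1 + 1) = y ^ 4 := by norm_num
            rw [h6]; exact hy4' y hy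
        rw [h5]; norm_num
    · left
      intro y hy hord
      have h4 := orderOf_dvd_of_pow_eq_one (hy4' y hy)
      rw [hord] at h4
      have h5 := Nat.le_of_dvd (by norm_num) h4
      have h6 : 2 ^ 3 ≤ 2 ^ (m + 2) := Nat.pow_le_pow_right (by norm_num) (by omega)
      omega
  rcases hdich with hI | ⟨hm, hII⟩
  · -- the only cyclic maximal subgroup is `⟨a⟩`
    have h1 : Nat.card {M : Subgroup X // M.index = 2 ∧ IsCyclic ↥M} = 1 := by
      rw [Nat.card_eq_one_iff_unique]
      constructor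
      · have key : ∀ M : {M : Subgroup X // M.index = 2 ∧ IsCyclic ↥M},
            M.1 = Subgroup.zpowers a := by
          rintro ⟨M, hMi, hMc⟩
          obtain ⟨b, hb, hbM⟩ := exists_gen_of_cyclic_index_two (m + 3) (by omega) hX M hMi hMc
          rw [show m + 3 - 1 = m + 2 by omega] at hb
          have hba : b ∈ Subgroup.zpowers a := by
            by_contra h
            exact hI b h hb
          show M = Subgroup.zpowers a
          rw [← hbM]
          apply Subgroup.eq_of_le_of_card_ge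
          · rw [Subgroup.zpowers_le]; exact hba
          · rw [Nat.card_zpowers, Nat.card_zpowers, ha, hb]
        exact ⟨fun M₁ M₂ => Subtype.ext ((key M₁).trans (key M₂).symm)⟩
      · exact ⟨⟨Subgroup.zpowers a, hA, inferInstance⟩⟩
    rw [h1]
    exact odd_one
  · -- every maximal subgroup is cyclic
    have h1 : Nat.card {M : Subgroup X // M.index = 2 ∧ IsCyclic ↥M} =
        Nat.card {M : Subgroup X // M.index = 2} := by
      apply Nat.card_congr
      apply Equiv.subtypeEquivRight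
      intro M
      constructor
      · exact fun h => h.1
      · intro hMi
        refine ⟨hMi, ?_⟩
        have hMcard : Nat.card M = 2 ^ (m + 3 - 1) :=
          (index_eq_prime_iff_card hX (by omega) M).mp hMi
        rw [hm] at hMcard
        by_cases hMa : M ≤ Subgroup.zpowers a
        · have h2 : M = Subgroup.zpowers a := by
            apply Subgroup.eq_of_le_of_card_ge hMa
            rw [Nat.card_zpowers, ha, hMcard, hm]
          rw [h2]; infer_instance
        · obtain ⟨y, hyM, hya⟩ := SetLike.not_le_iff_exists.mp hMa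
          have h3 := hII y hya
          apply isCyclic_of_orderOf_eq_card (⟨y, hyM⟩ : ↥M)
          rw [Subgroup.orderOf_mk, h3, hMcard]; norm_num
    rw [h1]
    have h2 := card_index_eq_modEq' (p := 2) (m + 3) hX hnc
    have h3 : Nat.card {M : Subgroup X // M.index = 2} % 2 = 1 := by
      have h4 : Nat.card {M : Subgroup X // M.index = 2} % 4 = 3 := h2
      omega
    exact Nat.odd_iff.mpr h3

/-- **P4**: in a group of order `2 ^ n`, `n ≥ 4`, of class `n - 1`, the non-cyclic maximal
subgroups have class `n - 2`. -/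
theorem class_of_noncyclic_max_of_maxclass {X : Type*} [Group X] [Finite X] (n : ℕ) (hn : 4 ≤ n)
    (hX : Nat.card X = 2 ^ n) (hc : Group.nilpotencyClass X = n - 1) (M : Subgroup X)
    (hMi : M.index = 2) (hMnc : ¬ IsCyclic ↥M) : Group.nilpotencyClass ↥M = n - 2 := by
  have : Fact (Nat.Prime 2) := ⟨Nat.prime_two⟩
  obtain ⟨hidx, hsq⟩ := maxclass_commutator n (by omega) hX hc
  have hMcard : Nat.card M = 2 ^ (n - 1) := (index_eq_prime_iff_card hX (by omega) M).mp hMi
  obtain ⟨m, rfl⟩ : ∃ m, n = m + 1 + 3 := ⟨n - 4, by omega⟩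
  obtain ⟨a, x, r, ha, hx, hr, hxa, -, -⟩ := taussky_gens (m + 1) hX hidx hsq
  rw [show m + 1 + 3 - 1 = m + 3 by omega] at hMcard
  have hA : (Subgroup.zpowers a).index = 2 := index_zpowers_eq_two (m + 1 + 2) hX a ha
  have ha2M : a ^ 2 ∈ M := Subgroup.sq_mem_of_index_two hMi a
  obtain ⟨y, hyM, hya⟩ : ∃ y ∈ M, y ∉ Subgroup.zpowers a := by
    by_contra hcon
    push Not at hcon
    apply hMnc
    have h2 : M = Subgroup.zpowers a := by
      apply Subgroup.eq_of_le_of_card_ge hcon
      rw [Nat.card_zpowers, ha, hMcard]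
    rw [h2]; infer_instance
  obtain ⟨i, rfl⟩ := exists_eq_pow_mul_of_not_mem hA hx y hya
  -- the commutator of `y` and `a ^ 2`
  have h1 : a ^ i * x * a * (a ^ i * x)⁻¹ = a ^ (2 * r + 1) := by
    have h2 : a ^ i * x * a * (a ^ i * x)⁻¹ = a ^ i * (x * a * x⁻¹) * (a ^ i)⁻¹ := by group
    rw [h2, hxa]
    have h3 : Commute (a ^ i) (a ^ (2 * r + 1)) := (Commute.refl a).pow_pow _ _
    rw [h3.eq, mul_inv_cancel_right]
  have h2 : ⁅a ^ i * x, a ^ 2⁆ = (a ^ 4) ^ r := by
    rw [commutatorElement_def, ← conj_pow, h1, ← pow_mul, ← pow_mul]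
    have h3 : (2 * r + 1) * 2 = 4 * r + 2 := by ring
    rw [h3, pow_add, mul_inv_cancel_right]
  have h4 : orderOf (a ^ 4) = 2 ^ (m + 1) := by
    rw [orderOf_pow_of_dvd (by norm_num) (by rw [ha]; exact ⟨2 ^ (m + 1), by ring⟩), ha]
    have h5 : 2 ^ (m + 1 + 2) = 2 ^ (m + 1) * 4 := by ring
    rw [h5, Nat.mul_div_cancel _ (by norm_num)]
  have h5 : orderOf ((a ^ 4) ^ r) = 2 ^ (m + 1) := by
    rw [Nat.Coprime.orderOf_pow, h4]
    rw [h4]; exact Nat.Coprime.pow_left _ (Nat.coprime_two_left.mpr hr)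
  have h6 : (⁅(⟨a ^ i * x, hyM⟩ : ↥M), (⟨a ^ 2, ha2M⟩ : ↥M)⁆ : ↥M) ∈ commutator ↥M := by
    rw [commutator_def]
    exact Subgroup.commutator_mem_commutator (Subgroup.mem_top _) (Subgroup.mem_top _)
  have h7 : orderOf (⁅(⟨a ^ i * x, hyM⟩ : ↥M), (⟨a ^ 2, ha2M⟩ : ↥M)⁆ : ↥M) = 2 ^ (m + 1) := by
    rw [← Subgroup.orderOf_coe, ← h5, ← h2]
    rfl
  have h8 : 2 ^ (m + 1) ∣ Nat.card (commutator ↥M) := by
    rw [← h7]
    have := orderOf_dvd_natCard (⟨_, h6⟩ : commutator ↥M)
    rwa [Subgroup.orderOf_mk] at this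
  have h9 := (commutator ↥M).card_mul_index
  rw [hMcard] at h9
  have hle : (commutator ↥M).index ≤ 4 := by
    have h10 := Nat.le_of_dvd Nat.card_pos h8
    have h11 : 2 ^ (m + 3) = 2 ^ (m + 1) * 4 := by ring
    have h12 : 0 < 2 ^ (m + 1) := by positivity
    by_contra hgt
    push Not at hgt
    have h13 : 2 ^ (m + 1) * 5 ≤ Nat.card (commutator ↥M) * (commutator ↥M).index :=
      Nat.mul_le_mul h10 hgt
    rw [h9, h11] at h13
    omega
  have := class_of_index_commutator_le (m + 3) (by omega) hMcard hMnc hle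
  omega

/-- In a group of order `2 ^ n`, `n ≥ 4`, of class `n - 1`, the number of maximal subgroups of
class `n - 2` is even. -/
theorem even_card_maxclass_of_maxclass {X : Type*} [Group X] [Finite X] (n : ℕ) (hn : 4 ≤ n)
    (hX : Nat.card X = 2 ^ n) (hc : Group.nilpotencyClass X = n - 1) :
    Even (Nat.card {M : Subgroup X // M.index = 2 ∧ Group.nilpotencyClass ↥M = n - 2}) := by
  have : Fact (Nat.Prime 2) := ⟨Nat.prime_two⟩
  have hnc : ¬ IsCyclic X := by
    intro h
    have := class_le_one_of_isCyclic h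
    omega
  have h1 : Nat.card {M : Subgroup X // M.index = 2 ∧ Group.nilpotencyClass ↥M = n - 2} =
      Nat.card {M : Subgroup X // M.index = 2 ∧ ¬ IsCyclic ↥M} := by
    apply Nat.card_congr
    apply Equiv.subtypeEquivRight
    intro M
    constructor
    · rintro ⟨hMi, hcl⟩
      refine ⟨hMi, fun h => ?_⟩
      have := class_le_one_of_isCyclic h
      omega
    · rintro ⟨hMi, hMnc⟩
      exact ⟨hMi, class_of_noncyclic_max_of_maxclass n hn hX hc M hMi hMnc⟩
  rw [h1]
  have h2 := card_subtype_split (fun M : Subgroup X => M.index = 2) (fun M => IsCyclic ↥M)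
  have h3 := odd_card_cyclic_of_maxclass n (by omega) hX hc
  have h4 : Nat.card {M : Subgroup X // M.index = 2} % 4 = 3 :=
    card_index_eq_modEq' (p := 2) n hX hnc
  rw [Nat.odd_iff] at h3
  rw [Nat.even_iff]
  omega

end Cfsg.Agent.Helper8.Kul2
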