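import Mathlib
import Cfsg.Agent.Helper8.Kul2Good
import Cfsg.Agent.Helper8.Kul2Max

/-!
# Counting subgroups of a non-cyclic 2-group modulo 4 (helper8)

`two_main`: in a non-cyclic group of order `2 ^ n`, the number of subgroups of order `2 ^ k`,
`1 ≤ k < n`, is `≡ 3 (mod 4)` if the group is not of maximal class or `k = n - 1`, and
`≡ 1 (mod 4)` otherwise.
-/

set_option autoImplicit false
universe u

namespace Cfsg.Agent.Helper8.Kul2

open Cfsg.Agent.Helper65.SubCount Cfsg.Agent.Helper65.Kulakoff

theorem two_main : ∀ (n : ℕ) (X : Type u) [Group X] [Finite X], Nat.card X = 2 ^ n →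
    ¬ IsCyclic X → ∀ k : ℕ, 1 ≤ k → k < n →
    ((Group.nilpotencyClass X ≠ n - 1 ∨ k = n - 1) →
      Nat.card {H : Subgroup X // Nat.card H = 2 ^ k} ≡ 1 + 2 [MOD 2 ^ 2]) ∧
    (Group.nilpotencyClass X = n - 1 → k ≠ n - 1 →
      Nat.card {H : Subgroup X // Nat.card H = 2 ^ k} ≡ 1 [MOD 2 ^ 2]) := by
  have : Fact (Nat.Prime 2) := ⟨Nat.prime_two⟩
  intro n
  induction n using Nat.strong_induction_on with
  | _ n ih =>
  intro X _ _ hX hnc k hk1 hkn
  rcases Nat.lt_or_ge (k + 1) n with hk2 | hk2
  swap
  · have hkn' : k = n - 1 := by omega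
    have hidx : ∀ M : Subgroup X, M.index = 2 ↔ Nat.card M = 2 ^ (n - 1) :=
      index_eq_prime_iff_card hX (by omega)
    have e3 : Nat.card {H : Subgroup X // Nat.card H = 2 ^ k} =
        Nat.card {M : Subgroup X // M.index = 2} :=
      Nat.card_congr (Equiv.subtypeEquivRight (fun M => by rw [hkn']; exact (hidx M).symm))
    refine ⟨fun _ => ?_, fun _ h => absurd hkn' h⟩
    rw [e3]
    exact card_index_eq_modEq' n hX hnc
  · have hidxcard : ∀ M : Subgroup X, M.index = 2 → Nat.card M = 2 ^ (n - 1) := fun M hMi =>
      (index_eq_prime_iff_card hX (by omega) M).mp hMi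
    have hrec := rec_modEq (p := 2) n hX hnc k hk1 hk2
      (fun M => ¬ IsCyclic ↥M ∧ (Group.nilpotencyClass ↥M ≠ n - 2 ∨ k = n - 2))
      (by
        intro M hMi hf
        have h := (ih (n - 1) (by omega) ↥M (hidxcard M hMi) hf.1 k hk1 (by omega)).1
        apply h
        rcases hf.2 with h | h
        · left; rw [show n - 1 - 1 = n - 2 by omega]; exact h
        · right; omega)
      (by
        intro M hMi hf
        by_cases hcyc : IsCyclic ↥M
        · have h := Cfsg.Agent.Helper66.card_subgroups_of_isCyclic (C := ↥M) 2 k Nat.prime_two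
            (by rw [hidxcard M hMi]; exact pow_dvd_pow 2 (by omega))
          rw [h]
        · have hf' : Group.nilpotencyClass ↥M = n - 2 ∧ k ≠ n - 2 := by
            by_contra hcon
            apply hf
            refine ⟨hcyc, ?_⟩
            by_contra h2
            push Not at h2
            exact hcon ⟨h2.1, h2.2⟩
          have h := (ih (n - 1) (by omega) ↥M (hidxcard M hMi) hcyc k hk1 (by omega)).2
          apply h
          · rw [show n - 1 - 1 = n - 2 by omega]; exact hf'.1
          · omega)
    have hmax4 : Nat.card {M : Subgroup X // M.index = 2} % 4 = 3 :=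
      card_index_eq_modEq' (p := 2) n hX hnc
    have hsplit := card_subtype_split (fun M : Subgroup X => M.index = 2)
      (fun M => ¬ IsCyclic ↥M ∧ (Group.nilpotencyClass ↥M ≠ n - 2 ∨ k = n - 2))
    have hB : Nat.card {M : Subgroup X // M.index = 2 ∧
        ¬ (¬ IsCyclic ↥M ∧ (Group.nilpotencyClass ↥M ≠ n - 2 ∨ k = n - 2))} % 2 =
        (if Group.nilpotencyClass X = n - 1 then 1 else 0) := by
      by_cases hk3 : k = n - 2
      · have e : Nat.card {M : Subgroup X // M.index = 2 ∧
            ¬ (¬ IsCyclic ↥M ∧ (Group.nilpotencyClass ↥M ≠ n - 2 ∨ k = n - 2))} =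
            Nat.card {M : Subgroup X // M.index = 2 ∧ IsCyclic ↥M} :=
          Nat.card_congr (Equiv.subtypeEquivRight (fun M => and_congr_right (fun _ => by
            constructor
            · intro h; by_contra hc; exact h ⟨hc, Or.inr hk3⟩
            · intro h h'; exact h'.1 h)))
        rw [e]
        by_cases hc : Group.nilpotencyClass X = n - 1
        · rw [if_pos hc]; exact Nat.odd_iff.mp (odd_card_cyclic_of_maxclass n (by omega) hX hc)
        · rw [if_neg hc]; exact Nat.even_iff.mp (even_card_cyclic_of_good n (by omega) hX hnc hc)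
      · have hn4 : 4 ≤ n := by omega
        have e : Nat.card {M : Subgroup X // M.index = 2 ∧
            ¬ (¬ IsCyclic ↥M ∧ (Group.nilpotencyClass ↥M ≠ n - 2 ∨ k = n - 2))} =
            Nat.card {M : Subgroup X // M.index = 2 ∧ IsCyclic ↥M} +
              Nat.card {M : Subgroup X // M.index = 2 ∧ Group.nilpotencyClass ↥M = n - 2} := by
          have h1 := card_subtype_split (fun M : Subgroup X => M.index = 2 ∧
            ¬ (¬ IsCyclic ↥M ∧ (Group.nilpotencyClass ↥M ≠ n - 2 ∨ k = n - 2)))
            (fun M => IsCyclic ↥M)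
          rw [h1]
          congr 1
          · apply Nat.card_congr
            apply Equiv.subtypeEquivRight
            intro M
            constructor
            · rintro ⟨⟨hMi, -⟩, hc⟩; exact ⟨hMi, hc⟩
            · rintro ⟨hMi, hc⟩; exact ⟨⟨hMi, fun h' => h'.1 hc⟩, hc⟩
          · apply Nat.card_congr
            apply Equiv.subtypeEquivRight
            intro M
            constructor
            · rintro ⟨⟨hMi, hnot⟩, hc⟩
              refine ⟨hMi, ?_⟩
              by_contra hcl
              exact hnot ⟨hc, Or.inl hcl⟩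
            · rintro ⟨hMi, hcl⟩
              have hc : ¬ IsCyclic ↥M := by
                intro h
                have := class_le_one_of_isCyclic h
                omega
              refine ⟨⟨hMi, fun h' => ?_⟩, hc⟩
              rcases h'.2 with h2 | h2
              · exact h2 hcl
              · exact hk3 h2
        rw [e]
        by_cases hc : Group.nilpotencyClass X = n - 1
        · rw [if_pos hc]
          have h1 := Nat.odd_iff.mp (odd_card_cyclic_of_maxclass n (by omega) hX hc)
          have h2 := Nat.even_iff.mp (even_card_maxclass_of_maxclass n hn4 hX hc)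
          omega
        · rw [if_neg hc]
          have h1 := Nat.even_iff.mp (even_card_cyclic_of_good n (by omega) hX hnc hc)
          have h2 := Nat.even_iff.mp (even_card_maxclass_of_good n hn4 hX hnc hc)
          omega
    have hrec' : Nat.card {H : Subgroup X // Nat.card H = 2 ^ k} % 4 =
        (1 + 2 * Nat.card {M : Subgroup X // M.index = 2 ∧
          (¬ IsCyclic ↥M ∧ (Group.nilpotencyClass ↥M ≠ n - 2 ∨ k = n - 2))}) % 4 := hrec
    constructor
    · intro h
      have hc : Group.nilpotencyClass X ≠ n - 1 := by
        rcases h with h | h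
        · exact h
        · omega
      rw [if_neg hc] at hB
      show Nat.card {H : Subgroup X // Nat.card H = 2 ^ k} % 4 = 3
      omega
    · intro hc _
      rw [if_pos hc] at hB
      show Nat.card {H : Subgroup X // Nat.card H = 2 ^ k} % 4 = 1
      omega

end Cfsg.Agent.Helper8.Kul2
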