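import Mathlib
import Cfsg.Agent.Helper9.OrdTools
import Cfsg.Agent.Helper9.OrdTools2
import Cfsg.Agent.Helper8.SylFix
import Cfsg.Agent.Helper8.Ord459A
import Cfsg.Agent.S0985

/-!
# Order 4320: a subgroup of order 3 centralizes fewer than seven Sylow 3-subgroups
(helper8, piece AB3 of CALL S0977)
-/

set_option autoImplicit false
set_option linter.style.haveILetI false
set_option maxHeartbeats 1000000

namespace Cfsg.Agent.Helper8

open Subgroup Cfsg.Agent.Helper9.OrdTools

variable {G : Type*} [Group G] [Finite G]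

/-- arithmetic of the centralizer of `T`. -/
theorem o4320_ab3_arith1 (k idx n3 : ℕ) (h1 : k * (27 * idx) = 4320) (h2 : 9 ≤ k)
    (h3 : n3 ∣ idx) (h4 : n3 % 3 = 1) (h5 : 7 ≤ n3) : (k = 16 ∧ idx = 10) ∨ k = 10 := by
  obtain ⟨j, rfl⟩ := h3
  have hki : k * (n3 * j) = 160 := by
    have : 27 * (k * (n3 * j)) = 4320 := by rw [← h1]; ring
    omega
  have hle : n3 * j ≤ 17 := by
    by_contra h
    have h := Nat.lt_of_not_le h
    have : 9 * 18 ≤ k * (n3 * j) := Nat.mul_le_mul h2 h
    omega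
  have hj0 : 0 < j := by
    rcases Nat.eq_zero_or_pos j with h | h
    · subst h; simp at hki
    · exact h
  have hn3 : n3 ≤ 17 := le_trans (Nat.le_mul_of_pos_right n3 hj0) hle
  have hj2 : j ≤ 2 := by
    by_contra h
    have h := Nat.lt_of_not_le h
    have : 7 * 3 ≤ n3 * j := Nat.mul_le_mul h5 h
    omega
  interval_cases n3 <;> interval_cases j <;> omega

/-- arithmetic of the normalizer of a Sylow 5-subgroup in a group of order 270. -/
theorem o4320_ab3_arith2 (m5 n5 : ℕ) (h1 : 270 = m5 * n5) (h2 : n5 % 5 = 1) : 9 ∣ m5 := by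
  have hn : n5 ≤ 270 := by
    rcases Nat.eq_zero_or_pos m5 with h | h
    · subst h; simp at h1
    · calc n5 ≤ m5 * n5 := Nat.le_mul_of_pos_left n5 h
        _ = 270 := h1.symm
  obtain ⟨a, rfl⟩ : ∃ a, n5 = 5 * a + 1 := ⟨n5 / 5, by omega⟩
  have ha : a ≤ 53 := by omega
  interval_cases a <;> omega

theorem o4320_cent_seven [IsSimpleGroup G] (hG : Nat.card G = 4320)
    (hidx : ∀ H : Subgroup G, H ≠ ⊤ → 9 ≤ H.index)
    (h10 : ∀ M : Subgroup G, M.index ≠ 10)
    (hC9 : ∀ P : Sylow 5 G,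
      ¬ 9 ∣ Nat.card ↥(Subgroup.centralizer ((P : Subgroup G) : Set G)))
    (T : Subgroup G) (hT : Nat.card ↥T = 3)
    (h7 : 7 ≤ Nat.card {S : Sylow 3 G // (S : Subgroup G) ≤ Subgroup.centralizer (T : Set G)}) :
    False := by
  classical
  haveI : Fact (Nat.Prime 3) := ⟨by norm_num⟩
  haveI : Fact (Nat.Prime 5) := ⟨by norm_num⟩
  set X : Subgroup G := Subgroup.centralizer (T : Set G) with hX
  -- `X` is a proper subgroup
  have hXtop : X ≠ ⊤ := by
    intro htop
    have hTn : T.Normal := by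
      refine ⟨fun n hn g => ?_⟩
      have hg : g ∈ X := htop ▸ Subgroup.mem_top g
      have hc : n * g = g * n := (Subgroup.mem_centralizer_iff.mp hg) n hn
      rw [← hc, mul_inv_cancel_right]
      exact hn
    rcases hTn.eq_bot_or_eq_top with h | h
    · rw [h, Subgroup.card_bot] at hT
      omega
    · rw [h, Subgroup.card_top, hG] at hT
      omega
  have hk9 : 9 ≤ X.index := hidx X hXtop
  have hkX : X.index * Nat.card X = 4320 := by
    rw [← hG]
    exact X.index_mul_card
  -- a Sylow 3-subgroup inside `X`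
  have hpos : 0 < Nat.card {S : Sylow 3 G // (S : Subgroup G) ≤ X} := by omega
  obtain ⟨⟨S0, hS0⟩⟩ := (Nat.card_pos_iff.mp hpos).1
  have hS0card : Nat.card (S0 : Subgroup G) = 3 ^ 3 :=
    sylow_card (p := 3) 3 160 (by rw [hG]; norm_num) (by norm_num) S0
  -- the number of Sylow 3-subgroups of `X`
  have hinj : Function.Injective
      (fun S : {S : Sylow 3 G // (S : Subgroup G) ≤ X} => S.1.subtype S.2) :=
    fun a b h => Subtype.ext (Sylow.subtype_injective h)
  have hn7 : 7 ≤ Nat.card (Sylow 3 X) := le_trans h7 (Nat.card_le_card_of_injective _ hinj)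
  have hn3mod : Nat.card (Sylow 3 X) % 3 = 1 := by
    have h1 := card_sylow_modEq_one 3 X
    rw [Nat.ModEq] at h1
    omega
  have hn3dvd : Nat.card (Sylow 3 X) ∣ ((S0.subtype hS0 : Sylow 3 X) : Subgroup X).index :=
    Sylow.card_dvd_index (S0.subtype hS0)
  have hcardsub : Nat.card ((S0.subtype hS0 : Sylow 3 X) : Subgroup X) = 27 := by
    have e : Nat.card ((S0 : Subgroup G).subgroupOf X) = Nat.card (S0 : Subgroup G) :=
      Nat.card_congr (Subgroup.subgroupOfEquivOfLe hS0).toEquiv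
    rw [Sylow.coe_subtype, e, hS0card]
    norm_num
  have hXidx : Nat.card X = 27 * ((S0.subtype hS0 : Sylow 3 X) : Subgroup X).index := by
    rw [← hcardsub]
    exact (Subgroup.card_mul_index _).symm
  have hcase := o4320_ab3_arith1 X.index _ _ (by rw [← hXidx]; exact hkX) hk9 hn3dvd hn3mod hn7
  rcases hcase with ⟨hk16, hi10⟩ | hk10
  swap
  · exact h10 X hk10
  have hX270 : Nat.card X = 270 := by rw [hXidx, hi10]
  -- a Sylow 5-subgroup inside `X`
  have hS5 : ∀ P : Sylow 5 G, Nat.card (P : Subgroup G) = 5 := fun P => by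
    have := sylow_card (p := 5) 1 864 (by rw [hG]; norm_num) (by norm_num) P
    simpa using this
  obtain ⟨x, hx⟩ := exists_prime_orderOf_dvd_card' (G := X) 5 (by rw [hX270]; norm_num)
  have hxo : orderOf (x : G) = 5 := by rw [Subgroup.orderOf_coe, hx]
  have hzle : zpowers (x : G) ≤ X := Subgroup.zpowers_le.mpr x.2
  obtain ⟨P, hP⟩ := sylow_of_card hS5 (zpowers (x : G)) (by rw [Nat.card_zpowers, hxo])
  have hPX : (P : Subgroup G) ≤ X := hP ▸ hzle
  obtain ⟨n5, hn5, hn5X⟩ := Ord459.sylow_count_subgroup P X hPX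
  rw [hX270] at hn5X
  have h9 : 9 ∣ Nat.card (X ⊓ normalizer ((P : Subgroup G) : Set G) : Subgroup G) :=
    o4320_ab3_arith2 _ n5 hn5X hn5
  have h9N : 9 ∣ Nat.card (normalizer ((P : Subgroup G) : Set G)) :=
    h9.trans (Subgroup.card_dvd_of_le inf_le_right)
  obtain ⟨e, he4, he1, hNC, -⟩ := normalizer_centralizer_prime P (hS5 P) (by rw [hG]; norm_num)
  rw [hNC] at h9N
  have he : e = 2 ∨ e = 4 := by
    have hle : e ≤ 4 := Nat.le_of_dvd (by norm_num) he4
    interval_cases e
    · left; rfl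
    · norm_num at he4
    · right; rfl
  have hcop : Nat.Coprime 9 e := by
    rcases he with rfl | rfl <;> norm_num
  exact hC9 P (hcop.dvd_of_dvd_mul_left h9N)

end Cfsg.Agent.Helper8
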