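import Cfsg.Agent.Helper9.BRDefs
import Cfsg.Agent.Helper9.BrauerP
import Cfsg.Agent.Helper9.OrdTools2
import Cfsg.Agent.Helper8.Ord459B
import Cfsg.Agent.Helper75.BRT3
import Cfsg.Agent.Helper78.Counting
import Cfsg.Agent.Helper81.SectionChar
import Cfsg.Agent.Helper80.CharOrtho
import Cfsg.Agent.S0960

/-!
# Order 5040, piece DEG of CALL S0978 (helper8): the character degrees when `C(P) = P`
-/

set_option autoImplicit false
set_option linter.style.haveILetI false
set_option maxHeartbeats 1000000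
open Cfsg
open scoped ComplexConjugate

universe u

namespace Cfsg.Agent.Helper8

open Subgroup Cfsg.Agent.Helper9.OrdTools

theorem o5040_deg_arith : ∀ d ≤ 70, 2 ≤ d → d ∣ 5040 → (d % 7 = 0 ∨ d % 7 = 1 ∨ d % 7 = 6) →
    d ∈ ({6, 7, 8, 14, 15, 20, 21, 28, 35, 36, 42, 48, 56, 63, 70} : Finset ℕ) := by
  decide +kernel

/-- PIECE DEG. -/
theorem o5040_degrees {G : Type u} [Group G] [Finite G] [IsSimpleGroup G]
    (hG : Nat.card G = 5040) (P : Sylow 7 G)
    (hN : Nat.card (Subgroup.normalizer ((P : Subgroup G) : Set G)) = 42)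
    (hC : Nat.card (Subgroup.centralizer ((P : Subgroup G) : Set G)) = 7)
    (χ : Cfsg.IrrCharacter G) (hχ : χ ≠ Helper81.trivIrr G) :
    Cfsg.charDegree (χ : G → ℂ) ∈
      ({6, 7, 8, 14, 15, 20, 21, 28, 35, 36, 42, 48, 56, 63, 70} : Finset ℕ) := by
  classical
  haveI : Fintype G := Fintype.ofFinite G
  haveI : Fact (Nat.Prime 7) := ⟨by norm_num⟩
  have hP : Nat.card (P : Subgroup G) = 7 := by
    have := sylow_card (p := 7) 1 720 (hG.trans (by norm_num)) (by norm_num) P
    simpa using this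
  have hna : ∃ a b : G, a * b ≠ b * a :=
    Ord459.exists_not_comm' P (by rw [hP]; norm_num) (by rw [hP, hG]; norm_num)
  obtain ⟨M, hM⟩ := Helper78.exists_isPModular 7 (by norm_num)
  have hq : (Subgroup.centralizer ((P : Subgroup G) : Set G)).relIndex
      (Subgroup.normalizer ((P : Subgroup G) : Set G)) = 6 :=
    Helper9.BrauerP.relIndex_of_card (P : Subgroup G) (by rw [hN, hC])
  have h2 := Helper9.BrauerP.two_le_charDegree hna χ hχ
  have hdvd := Helper79.irr_charDegree_dvd_card χ
  rw [hG] at hdvd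
  -- the bound from the sum of squares
  have hle : Cfsg.charDegree (χ : G → ℂ) ≤ 70 := by
    haveI : Fintype (Cfsg.IrrCharacter G) := Fintype.ofFinite _
    have hsq := Helper80.irr_finsum_charDegree_sq (G := G)
    rw [finsum_eq_sum_of_fintype, hG] at hsq
    have h1 : Cfsg.charDegree (χ : G → ℂ) ^ 2 ≤ 5040 := by
      rw [← hsq]
      exact Finset.single_le_sum (f := fun ψ : Cfsg.IrrCharacter G =>
        Cfsg.charDegree (ψ : G → ℂ) ^ 2) (fun _ _ => Nat.zero_le _) (Finset.mem_univ χ)
    by_contra hcon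
    have h71 : 71 ≤ Cfsg.charDegree (χ : G → ℂ) := by omega
    have : 71 ^ 2 ≤ Cfsg.charDegree (χ : G → ℂ) ^ 2 := Nat.pow_le_pow_left h71 2
    omega
  -- the residue modulo `7`
  have hmod : Cfsg.charDegree (χ : G → ℂ) % 7 = 0 ∨ Cfsg.charDegree (χ : G → ℂ) % 7 = 1 ∨
      Cfsg.charDegree (χ : G → ℂ) % 7 = 6 := by
    by_cases hB : χ ∈ Cfsg.principalBlock M G
    · have h := (Cfsg.Agent.S0960.result 7 M hM (by norm_num) P hP 6 hq).2 χ hB
      simp only [Int.ModEq] at h
      omega
    · left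
      haveI : Fintype (P : Subgroup G) := Fintype.ofFinite _
      obtain ⟨n, hn⟩ := Helper81.exists_linMult χ (P : Subgroup G).subtype
        (1 : (P : Subgroup G) →* ℂˣ)
      have hsum : ∑ x : (P : Subgroup G), (χ : G → ℂ) ((P : Subgroup G).subtype x)
          * conj (((1 : (P : Subgroup G) →* ℂˣ) x : ℂˣ) : ℂ) = (χ : G → ℂ) 1 := by
        rw [← Finset.add_sum_erase Finset.univ _ (Finset.mem_univ (1 : (P : Subgroup G)))]
        rw [Finset.sum_eq_zero]
        · simp
        · intro x hx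
          have hx1 : x ≠ 1 := Finset.ne_of_mem_erase hx
          have h0 := Helper75.br_vanish hM P hP hC χ hB (x : G) x.2
            (fun h => hx1 (Subtype.ext h))
          simp [h0]
      rw [hsum, Helper81.irr_one_eq_charDegree, ← Nat.card_eq_fintype_card, hP] at hn
      have h7 : Cfsg.charDegree (χ : G → ℂ) = 7 * n := by exact_mod_cast hn
      omega
  exact o5040_deg_arith _ hle h2 hdvd hmod

end Cfsg.Agent.Helper8
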