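import Cfsg.Agent.Helper81.SectionChar
import Cfsg.Agent.Helper80.CharIrr

/-!
# Order 5040, piece INT3 of CALL S0978 (helper8): the value at an element of order three
centralizing an element of order five
-/

set_option autoImplicit false
set_option linter.style.haveILetI false
set_option maxHeartbeats 1000000
open Cfsg
open scoped ComplexConjugate

universe u

namespace Cfsg.Agent.Helper8

/-- the twisted sum of a character over a cyclic subgroup, as a sum over exponents. -/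
theorem o5040_cyclic_sum_twist {G : Type u} [Group G] [Finite G] (χ : Cfsg.IrrCharacter G)
    (g : G) (ζ : ℂ) (hζ : ζ ^ orderOf g = 1) :
    ∃ n : ℕ, ∑ i ∈ Finset.range (orderOf g), (χ : G → ℂ) (g ^ i) * ζ ^ i
      = (orderOf g : ℂ) * (n : ℂ) := by
  classical
  haveI : Fintype (Subgroup.zpowers g) := Fintype.ofFinite _
  have hfin : IsOfFinOrder g := isOfFinOrder_of_finite g
  have hN : 0 < orderOf g := orderOf_pos g
  have hζ0 : ζ ≠ 0 := by
    rintro rfl
    rw [zero_pow hN.ne'] at hζ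
    exact zero_ne_one hζ
  have hnorm : ‖ζ‖ = 1 := Complex.norm_eq_one_of_pow_eq_one hζ hN.ne'
  have hconj : conj ζ⁻¹ = ζ := by
    have h1 : ζ * conj ζ = 1 := by
      rw [Complex.mul_conj, Complex.normSq_eq_norm_sq, hnorm]
      norm_num
    rw [map_inv₀]
    exact inv_eq_of_mul_eq_one_right (by rw [mul_comm]; exact h1)
  let u : ℂˣ := (Units.mk0 ζ hζ0)⁻¹
  have hucoe : (u : ℂ) = ζ⁻¹ := by simp [u]
  have hu : u ^ orderOf g = 1 := by
    apply Units.ext
    rw [Units.val_pow_eq_pow_val, hucoe, inv_pow, hζ]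
    simp
  let γ : Subgroup.zpowers g := ⟨g, Subgroup.mem_zpowers g⟩
  have hγ : ∀ x : Subgroup.zpowers g, x ∈ Subgroup.zpowers γ := by
    intro x
    obtain ⟨k, hk⟩ := Subgroup.mem_zpowers_iff.mp x.2
    exact Subgroup.mem_zpowers_iff.mpr ⟨k, Subtype.ext (by simpa [γ] using hk)⟩
  have hoγ : orderOf γ = orderOf g := Subgroup.orderOf_mk g _
  have hdvd : orderOf u ∣ orderOf γ := by
    rw [hoγ]
    exact orderOf_dvd_of_pow_eq_one hu
  obtain ⟨n, hn⟩ := Helper81.exists_linMult χ (Subgroup.zpowers g).subtype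
    (monoidHomOfForallMemZpowers hγ hdvd)
  refine ⟨n, ?_⟩
  have h1 : ∑ q : Subgroup.zpowers g, (χ : G → ℂ) ((Subgroup.zpowers g).subtype q)
      * conj (((monoidHomOfForallMemZpowers hγ hdvd) q : ℂˣ) : ℂ)
      = ∑ i ∈ Finset.range (orderOf g), (χ : G → ℂ) (g ^ i) * ζ ^ i := by
    rw [← Fin.sum_univ_eq_sum_range (fun i => (χ : G → ℂ) (g ^ i) * ζ ^ i) (orderOf g)]
    rw [← Equiv.sum_comp (finEquivZPowers hfin)]
    apply Finset.sum_congr rfl
    intro i _
    have he : finEquivZPowers hfin i = γ ^ (i : ℕ) :=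
      Subtype.ext (by simp [finEquivZPowers_apply, γ])
    rw [he]
    simp only [map_pow]
    rw [monoidHomOfForallMemZpowers_apply_gen hγ hdvd, Units.val_pow_eq_pow_val,
      hucoe, map_pow, hconj]
    simp [γ]
  rw [← h1, hn, ← Nat.card_eq_fintype_card, Nat.card_zpowers]

/-- PIECE INT3: the value at an element of order three centralizing an element of order five. -/
theorem o5040_int3 {G : Type u} [Group G] [Finite G] (χ : Cfsg.IrrCharacter G) (y c : G)
    (hyc : y * c = c * y) (hy : orderOf y = 5) (hc : orderOf c = 3)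
    (h1 : (χ : G → ℂ) 1 = 6)
    (h : ∀ a b : ℕ, ¬ 5 ∣ a → (χ : G → ℂ) (y ^ a * c ^ b) = 1) :
    (χ : G → ℂ) c = 6 ∨ ∃ w : ℂ, w ^ 2 + w + 1 = 0 ∧ (χ : G → ℂ) c = 1 + 5 * w := by
  classical
  have hcomm : Commute y c := hyc
  have hord : orderOf (y * c) = 15 := by
    rw [hcomm.orderOf_mul_eq_mul_orderOf_of_coprime (by rw [hy, hc]; norm_num), hy, hc]
  -- a primitive cube root of unity
  obtain ⟨r, hr⟩ := IsAlgClosed.exists_pow_nat_eq (-3 : ℂ) (by norm_num : 0 < 2)
  have hrre : r.re = 0 := by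
    have h2 : r * r = -3 := by rw [← pow_two]; exact hr
    have hre := congrArg Complex.re h2
    have him := congrArg Complex.im h2
    simp only [Complex.mul_re, Complex.mul_im, Complex.neg_re, Complex.neg_im] at hre him
    norm_num at hre him
    have h3 : r.re * r.im = 0 := by linarith
    rcases mul_eq_zero.mp h3 with h0 | h0
    · exact h0
    · rw [h0] at hre
      nlinarith [mul_self_nonneg r.re]
  set w : ℂ := (-1 + r) / 2 with hwdef
  have hw : w ^ 2 + w + 1 = 0 := by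
    rw [hwdef]
    linear_combination (1 / 4 : ℂ) * hr
  have hw3 : w ^ 3 = 1 := by linear_combination (w - 1) * hw
  have hw2 : w ^ 2 = -1 - w := by linear_combination hw
  have hy5 : y ^ 5 = 1 := by rw [← hy]; exact pow_orderOf_eq_one y
  have hc3 : c ^ 3 = 1 := by rw [← hc]; exact pow_orderOf_eq_one c
  have hF : ∀ i : ℕ, (χ : G → ℂ) ((y * c) ^ i) = (χ : G → ℂ) (y ^ i * c ^ i) := fun i => by
    rw [hcomm.mul_pow]
  -- the three twisted sums
  have key : ∀ ζ : ℂ, ζ ^ 3 = 1 → ∃ n : ℕ,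
      6 + (χ : G → ℂ) (c ^ 2) * ζ ^ 2 + (χ : G → ℂ) c * ζ
        + (4 * (1 + ζ + ζ ^ 2)) = 15 * (n : ℂ) := by
    intro ζ hζ3
    obtain ⟨n, hn⟩ := o5040_cyclic_sum_twist χ (y * c) ζ (by
      rw [hord, show 15 = 3 * 5 from rfl, pow_mul, hζ3, one_pow])
    refine ⟨n, ?_⟩
    rw [hord] at hn
    have hterm : ∀ i ∈ Finset.range 15, (χ : G → ℂ) ((y * c) ^ i) * ζ ^ i
        = if i = 0 then 6 else if i = 5 then (χ : G → ℂ) (c ^ 2) * ζ ^ 2
          else if i = 10 then (χ : G → ℂ) c * ζ else ζ ^ (i % 3) := by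
      intro i hi
      rw [Finset.mem_range] at hi
      rw [hF]
      have hζi : ζ ^ i = ζ ^ (i % 3) := by
        conv_lhs => rw [← Nat.div_add_mod i 3, pow_add, pow_mul, hζ3, one_pow, one_mul]
      have hci : c ^ i = c ^ (i % 3) := by
        conv_lhs => rw [← Nat.div_add_mod i 3, pow_add, pow_mul, hc3, one_pow, one_mul]
      have hyi : y ^ i = y ^ (i % 5) := by
        conv_lhs => rw [← Nat.div_add_mod i 5, pow_add, pow_mul, hy5, one_pow, one_mul]
      by_cases h5 : 5 ∣ i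
      · have hi3 : i = 0 ∨ i = 5 ∨ i = 10 := by omega
        rcases hi3 with rfl | rfl | rfl
        · simp [h1]
        · rw [hyi, hci, hζi]
          norm_num
        · rw [hyi, hci, hζi]
          norm_num
      · have hne : i ≠ 0 ∧ i ≠ 5 ∧ i ≠ 10 := by omega
        rw [h i i h5, one_mul, hζi]
        simp [hne.1, hne.2.1, hne.2.2]
    rw [Finset.sum_congr rfl hterm] at hn
    simp only [Finset.sum_range_succ, Finset.sum_range_zero] at hn
    norm_num at hn
    linear_combination hn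
  obtain ⟨n0, hn0⟩ := key 1 (by norm_num)
  obtain ⟨n1, hn1⟩ := key w hw3
  obtain ⟨n2, hn2⟩ := key (w ^ 2) (by rw [← pow_mul, show 2 * 3 = 3 * 2 from rfl, pow_mul, hw3, one_pow])
  have hw4 : (w ^ 2) ^ 2 = w := by
    rw [← pow_mul, show 2 * 2 = 3 + 1 from rfl, pow_add, hw3, one_mul, pow_one]
  rw [hw4] at hn2
  have hsum1 : 1 + w + w ^ 2 = 0 := by linear_combination hw
  have hsum2 : 1 + w ^ 2 + w = 0 := by linear_combination hw
  rw [hsum1, mul_zero, add_zero] at hn1
  rw [hsum2, mul_zero, add_zero] at hn2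
  -- `n0 + n1 + n2 = 2`
  have hnsum : (n0 : ℂ) + n1 + n2 = 2 := by
    have : 15 * ((n0 : ℂ) + n1 + n2) = 30 := by
      linear_combination -(hn0 + hn1 + hn2) + ((χ : G → ℂ) (c ^ 2) + (χ : G → ℂ) c) * hw
    linear_combination (1 / 15 : ℂ) * this
  have hnsum' : n0 + n1 + n2 = 2 := by exact_mod_cast hnsum
  -- the value
  have hs : (χ : G → ℂ) c = 5 * ((n0 : ℂ) + n2 * w + n1 * w ^ 2) - 4 := by
    have e : 3 * (χ : G → ℂ) c = 15 * ((n0 : ℂ) + n2 * w + n1 * w ^ 2) - 12 := by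
      linear_combination hn0 + w ^ 2 * hn1 + w * hn2
        - (2 * (χ : G → ℂ) c * (w - 1) + 6 + (χ : G → ℂ) (c ^ 2) * (w ^ 2 - w + 1)) * hw
    linear_combination (1 / 3 : ℂ) * e
  -- the bound
  have hnorm := Helper80.isCharacter_norm_le (Helper80.isCharacter_of_irr χ.2) c
  have hdeg : Cfsg.charDegree (χ : G → ℂ) = 6 := by
    have h6 := Helper81.irr_one_eq_charDegree χ
    rw [h1] at h6
    exact_mod_cast h6.symm
  rw [hdeg] at hnorm
  have h2s : 2 * (χ : G → ℂ) c
      = ((10 * (n0 : ℝ) - 5 * n1 - 5 * n2 - 8 : ℝ) : ℂ) + ((5 * ((n2 : ℝ) - n1) : ℝ) : ℂ) * r := by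
    rw [hs, hw2, hwdef]
    push_cast
    ring
  have hre2 : 2 * ((χ : G → ℂ) c).re = 10 * (n0 : ℝ) - 5 * n1 - 5 * n2 - 8 := by
    have h3 := congrArg Complex.re h2s
    rw [Complex.add_re, Complex.ofReal_re, Complex.re_ofReal_mul, hrre, mul_zero, add_zero] at h3
    rw [← h3]
    simp [Complex.mul_re]
  have habs := Complex.abs_re_le_norm ((χ : G → ℂ) c)
  have hlow : -6 ≤ ((χ : G → ℂ) c).re := by
    have := (abs_le.mp (habs.trans hnorm)).1
    simpa using this
  have hn0pos : 1 ≤ n0 := by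
    by_contra hcon
    have h0 : n0 = 0 := by omega
    have h12 : (n1 : ℝ) + n2 = 2 := by
      have : n1 + n2 = 2 := by omega
      exact_mod_cast this
    rw [h0] at hre2
    push_cast at hre2
    linarith
  have hcases : (n0 = 2 ∧ n1 = 0 ∧ n2 = 0) ∨ (n0 = 1 ∧ n1 = 1 ∧ n2 = 0) ∨
      (n0 = 1 ∧ n1 = 0 ∧ n2 = 1) := by omega
  rcases hcases with ⟨rfl, rfl, rfl⟩ | ⟨rfl, rfl, rfl⟩ | ⟨rfl, rfl, rfl⟩
  · left
    rw [hs]
    push_cast
    ring
  · right
    refine ⟨w ^ 2, ?_, ?_⟩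
    · rw [hw4]
      linear_combination hw
    · rw [hs]
      push_cast
      ring
  · right
    refine ⟨w, hw, ?_⟩
    rw [hs]
    push_cast
    ring

end Cfsg.Agent.Helper8
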