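import Cfsg.Agent.Helper9.BRDefs
import Cfsg.Agent.Helper9.BrauerP
import Cfsg.Agent.Helper9.OrdTools2
import Cfsg.Agent.Helper8.SylFix
import Cfsg.Agent.Helper8.SylSub
import Cfsg.Agent.Helper8.Ord459B
import Cfsg.Agent.Helper75.BRNF
import Cfsg.Agent.Helper75.BRT1
import Cfsg.Agent.Helper75.BRT3
import Cfsg.Agent.Helper78.Counting
import Cfsg.Agent.Helper81.SectionChar
import Cfsg.Agent.Helper80.CharOrtho
import Cfsg.Agent.Helper8.O5040REP
import Cfsg.Agent.Helper8.O5040Tools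
import Cfsg.Agent.Helper8.O5040DEG
import Cfsg.Agent.Helper8.O5040INT2
import Cfsg.Agent.Helper8.O5040INT3
import Cfsg.Agent.Helper19.O5040INV
import Cfsg.Agent.Helper28.O5040LOC5
import Cfsg.Agent.Helper42.O5040BL5

/-!
# No simple group of order 5040, the case `C(P) = P`, `|N(P)| = 42` (`P` a Sylow 7-subgroup)

Assembly of the pieces of CALL S0978 (helper8, with helper4, helper19, helper28, helper42,
helper81, helper93).
-/

set_option autoImplicit false
set_option linter.style.haveILetI false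
set_option maxHeartbeats 1000000

universe u

namespace Cfsg.Agent.Helper8

open Subgroup Cfsg.Agent.Helper9.OrdTools Cfsg.Agent.Helper19 Cfsg.Agent.Helper28 Cfsg.Agent.Helper42

namespace Ord5040

theorem arith_sylow : ∀ n, n ∣ 720 → n % 7 = 1 →
    n = 1 ∨ n = 8 ∨ n = 15 ∨ n = 36 ∨ n = 120 := by
  intro n hn
  have hle : n ≤ 720 := Nat.le_of_dvd (by norm_num) hn
  revert hn
  have key : ∀ n ≤ 720, n ∣ 720 → n % 7 = 1 →
      n = 1 ∨ n = 8 ∨ n = 15 ∨ n = 36 ∨ n = 120 := by
    decide +kernel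
  exact key n hle

/-- the case `C(P) = P`, `|N(P)| = 42`. -/
theorem case_c {G : Type u} [Group G] [Finite G] [IsSimpleGroup G]
    (hG : Nat.card G = 5040)
    (hN7 : ∀ P : Sylow 7 G, Nat.card (normalizer ((P : Subgroup G) : Set G)) = 42)
    (hC7 : ∀ P : Sylow 7 G, Nat.card (centralizer ((P : Subgroup G) : Set G)) = 7) : False := by
  classical
  haveI : Fintype G := Fintype.ofFinite G
  haveI : Fact (Nat.Prime 5) := ⟨by norm_num⟩
  haveI : Fact (Nat.Prime 7) := ⟨by norm_num⟩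
  obtain ⟨P⟩ : Nonempty (Sylow 7 G) := inferInstance
  obtain ⟨Q⟩ : Nonempty (Sylow 5 G) := inferInstance
  have hQ : Nat.card (Q : Subgroup G) = 5 := by
    have := sylow_card (p := 5) 1 1008 (hG.trans (by norm_num)) (by norm_num) Q
    simpa using this
  have hna : ∃ a b : G, a * b ≠ b * a :=
    Ord459.exists_not_comm' Q (by rw [hQ]; norm_num) (by rw [hQ, hG]; norm_num)
  have hD : ∀ χ : Cfsg.IrrCharacter G, χ ≠ Helper81.trivIrr G →
      Cfsg.charDegree (χ : G → ℂ) ∈
        ({6, 7, 8, 14, 15, 20, 21, 28, 35, 36, 42, 48, 56, 63, 70} : Finset ℕ) :=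
    fun χ hχ => o5040_degrees hG P (hN7 P) (hC7 P) χ hχ
  obtain ⟨hq, c, hcQ, hc⟩ := o5040_five_local hG hC7 Q
  obtain ⟨M, hM⟩ := Helper78.exists_isPModular 5 (by norm_num)
  obtain ⟨T⟩ := Helper75.br_tab_exists 5 M hM (by norm_num) Q hQ _ rfl
    (by rcases hq with h | h <;> omega)
  obtain ⟨β, hβ6, hβ⟩ := o5040_five_block hM Q hQ _ hq T hD
  -- a generator of `Q`
  obtain ⟨y, hyQ, hy1⟩ : ∃ y : G, y ∈ (Q : Subgroup G) ∧ y ≠ 1 := by
    by_contra hcon
    push Not at hcon
    have hbot : (Q : Subgroup G) = ⊥ := (Subgroup.eq_bot_iff_forall _).mpr hcon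
    rw [hbot, Subgroup.card_bot] at hQ
    omega
  have hyo : orderOf y = 5 := by
    have h1 : orderOf y ∣ 5 := by
      have h2 := orderOf_dvd_natCard (⟨y, hyQ⟩ : (Q : Subgroup G))
      rwa [Subgroup.orderOf_mk, hQ] at h2
    rcases (Nat.dvd_prime (by norm_num : Nat.Prime 5)).mp h1 with h | h
    · exact absurd (orderOf_eq_one_iff.mp h) hy1
    · exact h
  have hyc : y * c = c * y := (Subgroup.mem_centralizer_iff.mp hcQ) y hyQ
  have hβ1 : (β : G → ℂ) 1 = 6 := by
    rw [Helper81.irr_one_eq_charDegree, hβ6]; norm_num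
  have hβne : β ≠ Helper81.trivIrr G := by
    intro h
    rw [h, Helper81.trivIrr_apply] at hβ1
    norm_num at hβ1
  have hc5 : ∀ b : ℕ, ¬ 5 ∣ orderOf (c ^ b) := by
    intro b h5
    have h1 : orderOf (c ^ b) ∣ orderOf c := orderOf_pow_dvd b
    have h2 := h5.trans h1
    rcases hc with h | h <;> rw [h] at h2 <;> omega
  have hval : ∀ a b : ℕ, ¬ 5 ∣ a → (β : G → ℂ) (y ^ a * c ^ b) = 1 := by
    intro a b ha
    refine hβ (y ^ a) (Subgroup.pow_mem _ hyQ a) ?_ (c ^ b) (Subgroup.pow_mem _ hcQ b) (hc5 b)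
    intro h
    apply ha
    rw [← hyo]
    exact orderOf_dvd_of_pow_eq_one h
  have hnorm := Helper80.isCharacter_norm_le (Helper79.irr_isCharacter β) c
  rw [hβ6] at hnorm
  rcases hc with hc2 | hc3
  · obtain ⟨n, hn⟩ := o5040_int2 β 5 (by norm_num) (by norm_num) y c hyc hyo hc2 1 hval
    rw [hβ1] at hn
    have hβc : (β : G → ℂ) c = ((10 * (n : ℤ) - 14 : ℤ) : ℂ) := by
      push_cast
      linear_combination hn
    rw [hβc] at hnorm
    have hn' : |(10 * (n : ℤ) - 14 : ℤ)| ≤ 6 := by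
      have h1 : ‖(((10 * (n : ℤ) - 14 : ℤ) : ℝ) : ℂ)‖ ≤ 6 := by
        have : (((10 * (n : ℤ) - 14 : ℤ) : ℝ) : ℂ) = ((10 * (n : ℤ) - 14 : ℤ) : ℂ) := by
          push_cast; ring
        rw [this]
        exact_mod_cast hnorm
      rw [Complex.norm_real, Real.norm_eq_abs] at h1
      exact_mod_cast h1
    rw [abs_le] at hn'
    have hn12 : n = 1 ∨ n = 2 := by omega
    have hcc : c * c = 1 := by
      rw [← pow_two, ← hc2]; exact pow_orderOf_eq_one c
    rcases hn12 with rfl | rfl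
    · have h5 : Even 5 := o5040_invol_mod4 hna β c hcc 5 (by
        rw [hβc, hβ1]; push_cast; ring)
      exact absurd h5 (by decide)
    · have h1 : c = 1 := o5040_ker β hβne c (by rw [hβc, hβ1]; push_cast; ring)
      rw [h1, orderOf_one] at hc2
      omega
  · have hccc : c * c * c = 1 := by
      have h3 := pow_orderOf_eq_one c
      rw [hc3, pow_succ, pow_two] at h3
      exact h3
    rcases o5040_int3 β y c hyc hyo hc3 hβ1 hval with h6 | ⟨w, hw, hβc⟩
    · have h1 : c = 1 := o5040_ker β hβne c (by rw [h6, hβ1])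
      rw [h1, orderOf_one] at hc3
      omega
    · exact o5040_ord3 hna β c hccc w hw hβ1 hβc

end Ord5040

end Cfsg.Agent.Helper8
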