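import Mathlib
import Cfsg.Agent.Helper8.Ord4032A

set_option autoImplicit false
set_option linter.style.haveILetI false
set_option maxHeartbeats 1000000

/-!
# Order 5760, group-theoretic glue (helper8)

* `Ord5760.arith_sylow`: the possible numbers of Sylow `5`-subgroups.
* `Ord5760.n5_ne_6`, `Ord5760.n5_ne_16`: two of them are impossible.
* `Ord5760.dihedral_data`: if the normalizer of a Sylow `5`-subgroup has order `10`, it is
  dihedral: a generator `x`, self-centralizing, inverted by some `t`.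
-/

namespace Cfsg.Agent.Helper8

namespace Ord5760

open Subgroup Cfsg.Agent.Helper9.OrdTools Cfsg.Agent.Helper8.SylFix

variable {G : Type*} [Group G] [Finite G]

omit [Finite G] in
theorem arith_sylow : ∀ n, n ∣ 1152 → n % 5 = 1 →
    n = 1 ∨ n = 6 ∨ n = 16 ∨ n = 36 ∨ n = 96 ∨ n = 576 := by
  intro n hn
  have hle : n ≤ 1152 := Nat.le_of_dvd (by norm_num) hn
  revert hn
  have key : ∀ n ≤ 1152, n ∣ 1152 → n % 5 = 1 →
      n = 1 ∨ n = 6 ∨ n = 16 ∨ n = 36 ∨ n = 96 ∨ n = 576 := by
    decide +kernel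
  exact key n hle

/-- a proper subgroup of a simple group of order `5760` has index at least `8`. -/
theorem index_ge_8 [IsSimpleGroup G] (hG : Nat.card G = 5760) (H : Subgroup G) (hH : H ≠ ⊤) :
    8 ≤ H.index := by
  have h := card_dvd_factorial_index H hH
  rw [hG] at h
  by_contra hcon
  push Not at hcon
  have h7 : (H.index).factorial ∣ Nat.factorial 7 := Nat.factorial_dvd_factorial (by omega)
  have h5040 : Nat.factorial 7 = 5040 := by decide
  rw [h5040] at h7
  have := h.trans h7
  omega

theorem n5_ne_6 [IsSimpleGroup G] (hG : Nat.card G = 5760) : Nat.card (Sylow 5 G) ≠ 6 := by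
  intro h6
  haveI : Fact (Nat.Prime 5) := ⟨by norm_num⟩
  obtain ⟨P⟩ : Nonempty (Sylow 5 G) := inferInstance
  have hP : Nat.card (P : Subgroup G) = 5 := by
    have := sylow_card 1 1152 (hG.trans (by norm_num)) (by norm_num) P
    simpa using this
  obtain ⟨-, -, -, hN⟩ := sylow_num P (by rw [hP]; norm_num) (by rw [hP, hG]; norm_num)
  rw [h6, hG] at hN
  have hidx : (Subgroup.normalizer ((P : Subgroup G) : Set G)).index = 6 := by
    have := (Subgroup.normalizer ((P : Subgroup G) : Set G)).card_mul_index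
    rw [hG] at this
    have h960 : Nat.card (Subgroup.normalizer ((P : Subgroup G) : Set G)) = 960 := by omega
    rw [h960] at this
    omega
  have hne : Subgroup.normalizer ((P : Subgroup G) : Set G) ≠ ⊤ := by
    intro h
    rw [h, Subgroup.index_top] at hidx
    omega
  have := index_ge_8 hG _ hne
  omega

theorem n5_ne_16 [IsSimpleGroup G] (hG : Nat.card G = 5760) : Nat.card (Sylow 5 G) ≠ 16 := by
  intro h16
  haveI : Fact (Nat.Prime 5) := ⟨by norm_num⟩
  haveI : Fact (Nat.Prime 3) := ⟨by norm_num⟩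
  obtain ⟨P⟩ : Nonempty (Sylow 5 G) := inferInstance
  have hP : Nat.card (P : Subgroup G) = 5 := by
    have := sylow_card 1 1152 (hG.trans (by norm_num)) (by norm_num) P
    simpa using this
  obtain ⟨-, -, -, hN⟩ := sylow_num P (by rw [hP]; norm_num) (by rw [hP, hG]; norm_num)
  obtain ⟨e, he, he1, hNe, -⟩ := normalizer_centralizer_prime P hP (by rw [hG]; norm_num)
  rw [h16, hG] at hN
  have h9 : 3 ^ 2 ∣ Nat.card (Subgroup.centralizer ((P : Subgroup G) : Set G)) := by
    have he4 : e ≤ 4 := Nat.le_of_dvd (by norm_num) he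
    have h360 : e * Nat.card (Subgroup.centralizer ((P : Subgroup G) : Set G)) = 360 := by omega
    interval_cases e <;> omega
  obtain ⟨R', hR'⟩ := Sylow.exists_subgroup_card_pow_prime 3 h9
  have hRcard : Nat.card (R'.map (Subgroup.subtype _)) = 9 := by
    rw [Subgroup.card_map_of_injective (Subgroup.subtype_injective _), hR']
    norm_num
  have hRC : ∀ r ∈ R'.map (Subgroup.subtype _), ∀ x ∈ (P : Subgroup G), x * r = r * x := by
    intro r hr x hx
    obtain ⟨r', -, rfl⟩ := Subgroup.mem_map.mp hr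
    exact (Subgroup.mem_centralizer_iff.mp r'.2 x hx)
  have hfix : ∀ r ∈ R'.map (Subgroup.subtype _), r ≠ 1 →
      Nat.card (MulAction.fixedBy (Sylow 5 G) r) = 1 := by
    intro r hr hr1
    have h1 := card_fixedBy_modEq_one P r (hRC r hr)
    obtain ⟨k, hk⟩ : ∃ k, orderOf r = 3 ^ k := by
      have hd : orderOf r ∣ 3 ^ 2 := by
        have := Subgroup.orderOf_dvd_natCard _ hr
        rw [hRcard] at this
        exact this
      obtain ⟨k, -, hk⟩ := (Nat.dvd_prime_pow (by norm_num)).mp hd
      exact ⟨k, hk⟩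
    have h2 := card_fixedBy_modEq (p := 5) r hk
    have h3 := card_fixedBy_lt (p := 5) (by rw [h16]; norm_num) r hr1
    rw [h16] at h2 h3
    unfold Nat.ModEq at h1 h2
    omega
  have := card_dvd_of_fix_one (X := Sylow 5 G) (R'.map (Subgroup.subtype _)) hfix
  rw [h16, hRcard] at this
  omega

theorem dihedral_data [IsSimpleGroup G] (hG : Nat.card G = 5760)
    (P : Sylow 5 G) (hN : Nat.card (Subgroup.normalizer ((P : Subgroup G) : Set G)) = 10) :
    ∃ x t : G, orderOf x = 5 ∧ Subgroup.zpowers x = (P : Subgroup G) ∧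
      (∀ g : G, g * x = x * g → g ∈ Subgroup.zpowers x) ∧
      (∀ g : G, g * x * g⁻¹ ∈ Subgroup.zpowers x → g * x * g⁻¹ = x ∨ g * x * g⁻¹ = x⁻¹) ∧
      t * x * t⁻¹ = x⁻¹ := by
  haveI : Fact (Nat.Prime 5) := ⟨by norm_num⟩
  have hcardS : ∀ Q : Sylow 5 G, Nat.card (Q : Subgroup G) = 5 := by
    intro Q
    have := sylow_card 1 1152 (hG.trans (by norm_num)) (by norm_num) Q
    simpa using this
  have hP := hcardS P
  obtain ⟨e, he, he1, hNe, ⟨c, hc⟩⟩ := normalizer_centralizer_prime P hP (by rw [hG]; norm_num)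
  have hC : Nat.card (Subgroup.centralizer ((P : Subgroup G) : Set G)) = 5 := by
    rw [hN, hc] at hNe
    have hec : e * c = 2 := by nlinarith
    have he6 : e ≤ 4 := Nat.le_of_dvd (by norm_num) he
    have hc1 : c = 1 := by
      interval_cases e <;> omega
    rw [hc, hc1]
  have hPC : (P : Subgroup G) = Subgroup.centralizer ((P : Subgroup G) : Set G) :=
    Subgroup.eq_of_le_of_card_ge (le_centralizer_of_prime P hP) (by rw [hC, hP])
  obtain ⟨x, hxP, hx1⟩ : ∃ x ∈ (P : Subgroup G), x ≠ 1 := by
    by_contra hcon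
    push Not at hcon
    have : (P : Subgroup G) = ⊥ := (Subgroup.eq_bot_iff_forall _).mpr hcon
    rw [this, Subgroup.card_bot] at hP
    omega
  have hz := zpowers_eq_sylow P hP hxP hx1
  have ho : orderOf x = 5 := by rw [← Nat.card_zpowers, hz, hP]
  have hcent : ∀ g : G, g * x = x * g → g ∈ Subgroup.zpowers x := by
    intro g hg
    rw [hz, hPC, ← centralizer_singleton_eq hz, Subgroup.mem_centralizer_iff]
    intro w hw
    rw [Set.mem_singleton_iff.mp hw]
    exact hg.symm
  have hmemN : ∀ g : G, g * x * g⁻¹ ∈ (P : Subgroup G) →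
      g ∈ Subgroup.normalizer ((P : Subgroup G) : Set G) := by
    intro g hg
    apply Sylow.smul_eq_iff_mem_normalizer.mp
    have hne : g * x * g⁻¹ ≠ 1 := by
      intro h
      apply hx1
      have h2 : x = g⁻¹ * (g * x * g⁻¹) * g := by group
      rw [h2, h]; group
    have h1 := zpowers_eq_sylow P hP hg hne
    have hg' : g * x * g⁻¹ ∈ ((g • P : Sylow 5 G) : Subgroup G) := by
      rw [Sylow.coe_subgroup_smul, Subgroup.mem_pointwise_smul_iff_inv_smul_mem]
      have e : (MulAut.conj g)⁻¹ • (g * x * g⁻¹) = x := by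
        rw [MulAut.smul_def, ← map_inv, MulAut.conj_apply]
        group
      rw [e]
      exact hxP
    have h2 := zpowers_eq_sylow (g • P) (hcardS _) hg' hne
    exact Sylow.ext (h2.symm.trans h1)
  have hnorm : ∀ g : G, g * x * g⁻¹ ∈ Subgroup.zpowers x →
      g * x * g⁻¹ = x ∨ g * x * g⁻¹ = x⁻¹ := by
    intro g hg
    have hgN := hmemN g (hz ▸ hg)
    obtain ⟨k, hk⟩ := Subgroup.mem_zpowers_iff.mp hg
    obtain ⟨j, hj7, hj⟩ : ∃ j : ℕ, j < 5 ∧ x ^ j = g * x * g⁻¹ := by
      refine ⟨(k % 5).toNat, ?_, ?_⟩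
      · omega
      · rw [← zpow_natCast, Int.toNat_of_nonneg (by omega), ← hk]
        have := zpow_mod_orderOf x k
        rw [ho] at this
        exact this
    -- `g ^ 10 = 1`
    have hg10 : g ^ 10 = 1 := by
      have h1 : (⟨g, hgN⟩ : Subgroup.normalizer ((P : Subgroup G) : Set G)) ^ 10 = 1 := by
        rw [← hN]; exact pow_card_eq_one'
      have h2 := congrArg Subtype.val h1
      simpa using h2
    have hiter : ∀ n : ℕ, g ^ n * x * (g ^ n)⁻¹ = x ^ (j ^ n) := by
      intro n
      induction n with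
      | zero => simp
      | succ n ih =>
        have e1 : g ^ (n + 1) * x * (g ^ (n + 1))⁻¹ = g * (g ^ n * x * (g ^ n)⁻¹) * g⁻¹ := by
          rw [pow_succ']; group
        rw [e1, ih, ← conj_pow, ← hj, ← pow_mul, pow_succ']
    have h10 := hiter 10
    rw [hg10] at h10
    simp only [one_mul, inv_one, mul_one] at h10
    have hjj : x ^ (j ^ 10) = x ^ 1 := by rw [← h10, pow_one]
    rw [pow_eq_pow_iff_modEq, ho] at hjj
    have hj14 : j = 1 ∨ j = 4 := by
      interval_cases j <;> simp [Nat.ModEq] at hjj ⊢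
    rcases hj14 with rfl | rfl
    · left; rw [← hj, pow_one]
    · right
      rw [← hj]
      apply eq_inv_of_mul_eq_one_left
      rw [← pow_succ]
      have h5 := pow_orderOf_eq_one x
      rw [ho] at h5
      exact h5
  -- an element of `N(P)` outside `P`
  obtain ⟨t, htN, htP⟩ : ∃ t ∈ Subgroup.normalizer ((P : Subgroup G) : Set G),
      t ∉ (P : Subgroup G) := by
    by_contra hcon
    push Not at hcon
    have hle : Subgroup.normalizer ((P : Subgroup G) : Set G) ≤ (P : Subgroup G) := hcon
    have := Subgroup.card_le_of_le hle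
    rw [hN, hP] at this
    omega
  refine ⟨x, t, ho, hz, hcent, hnorm, ?_⟩
  have htx : t * x * t⁻¹ ∈ Subgroup.zpowers x := by
    rw [hz]; exact (Subgroup.mem_normalizer_iff.mp htN x).mp hxP
  rcases hnorm t htx with h | h
  · exfalso
    apply htP
    rw [← hz]
    apply hcent
    calc t * x = (t * x * t⁻¹) * t := by group
      _ = x * t := by rw [h]
  · exact h

end Ord5760

end Cfsg.Agent.Helper8
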