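import Mathlib
import Cfsg.Prelude.Def_Characters
import Cfsg.Prelude.Def_Blocks
import Cfsg.Agent.Helper8.Ord4032Char
import Cfsg.Agent.Helper82.InvCount
import Cfsg.Agent.Helper82.ThreeCent
import Cfsg.Agent.Helper81.Ord5760C1
import Cfsg.Agent.Helper81.Ord5760C2
import Cfsg.Agent.Helper79.Ord5760C3
import Cfsg.Agent.Helper66.Ord5760C4

set_option autoImplicit false
set_option linter.style.haveILetI false
set_option maxHeartbeats 1000000

/-!
# Order 5760, the character-theoretic step (helper8)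

`Ord5760.char_contra`: a simple group of order `5760` has no self-centralizing element `x` of
order `5` inverted by some `t` (dihedral Sylow `5`-normalizer).  The two generalized characters
induced from `⟨x⟩` give irreducible characters `χ₁, θ₀, θ₁` of degrees `(4, 3, 3)` or `(9, 8, 8)`;
counting the pairs of conjugates of a `2`-central involution `z` with product `x` forces `z` into
the kernel of `θ₀`.
Uses the pieces `bsw5_gram`, `bsw_pattern2` (helper81), `bsw5_values`, `bsw5_eta_sum` (helper79),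
`class_pair_count` (helper66).
-/

universe u

open Cfsg

namespace Cfsg.Agent.Helper8

namespace Ord5760

open Cfsg.Agent.Helper8.Ord4032 Cfsg.Agent.Helper81 Cfsg.Agent.Helper79 Cfsg.Agent.Helper66
open scoped ComplexConjugate

/-- a nontrivial linear character of a cyclic group of order `5`. -/
theorem exists_lam {G : Type u} [Group G] [Finite G] (x : G) (hx : orderOf x = 5) :
    ∃ lam : ↥(Subgroup.zpowers x) →* ℂˣ, lam ≠ 1 := by
  have hcomm : commutator ↥(Subgroup.zpowers x) = ⊥ := by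
    rw [commutator_eq_bot_iff_center_eq_top, eq_top_iff]
    intro a _
    rw [Subgroup.mem_center_iff]
    intro b
    obtain ⟨m, hm⟩ := Subgroup.mem_zpowers_iff.mp a.2
    obtain ⟨n, hn⟩ := Subgroup.mem_zpowers_iff.mp b.2
    apply Subtype.ext
    rw [Subgroup.coe_mul, Subgroup.coe_mul, ← hm, ← hn, ← zpow_add, ← zpow_add, add_comm]
  have h1 : Nat.card (↥(Subgroup.zpowers x) →* ℂˣ) = 5 := by
    rw [Cfsg.Agent.Helper80.card_hom, hcomm, Subgroup.index_bot, Nat.card_zpowers, hx]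
  by_contra hcon
  push Not at hcon
  haveI : Subsingleton (↥(Subgroup.zpowers x) →* ℂˣ) := ⟨fun a b => by rw [hcon a, hcon b]⟩
  rw [Nat.card_of_subsingleton (1 : ↥(Subgroup.zpowers x) →* ℂˣ)] at h1
  omega

theorem lam_pow_ne_one {G : Type u} [Group G] (x : G) (hx : orderOf x = 5)
    (lam : ↥(Subgroup.zpowers x) →* ℂˣ) (hlam : lam ≠ 1) (i : ℕ) (hi : 1 ≤ i) (hi4 : i ≤ 4) :
    lam ^ i ≠ 1 := by
  have h5 : lam ^ 5 = 1 := by
    ext h
    have hh : h ^ 5 = 1 := by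
      have : Nat.card ↥(Subgroup.zpowers x) = 5 := by rw [Nat.card_zpowers, hx]
      rw [← this]; exact pow_card_eq_one'
    rw [MonoidHom.pow_apply, ← map_pow, hh, map_one, MonoidHom.one_apply]
  have ho : orderOf lam = 5 := by
    have hd : orderOf lam ∣ 5 := by
      apply orderOf_dvd_of_pow_eq_one
      exact h5
    rcases (Nat.dvd_prime (by norm_num : Nat.Prime 5)).mp hd with h | h
    · exact absurd (orderOf_eq_one_iff.mp h) hlam
    · exact h
  intro h
  have hd : orderOf lam ∣ i := by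
    apply orderOf_dvd_of_pow_eq_one
    exact h
  rw [ho] at hd
  have := Nat.le_of_dvd (by omega) hd
  omega

theorem arith_deg_pos : ∀ q, (5 * q + 1) ∣ 5760 → (5 * q + 2) ∣ 5760 → q = 0 := by
  intro q hf
  have hle : q ≤ 1151 := by
    have := Nat.le_of_dvd (by norm_num) hf
    omega
  revert hf
  have key : ∀ q ≤ 1151, (5 * q + 1) ∣ 5760 → (5 * q + 2) ∣ 5760 → q = 0 := by
    decide +kernel
  exact key q hle

theorem arith_deg_neg : ∀ q, (5 * q + 4) ∣ 5760 → (5 * q + 3) ∣ 5760 → q = 0 ∨ q = 1 := by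
  intro q hf
  have hle : q ≤ 1151 := by
    have := Nat.le_of_dvd (by norm_num) hf
    omega
  revert hf
  have key : ∀ q ≤ 1151, (5 * q + 4) ∣ 5760 → (5 * q + 3) ∣ 5760 → q = 0 ∨ q = 1 := by
    decide +kernel
  exact key q hle

theorem arith_k : ∀ k c : ℕ, k * (128 * c) = 5760 →
    k = 1 ∨ k = 3 ∨ k = 5 ∨ k = 9 ∨ k = 15 ∨ k = 45 := by
  intro k c h
  have hkc : k * c = 45 := by nlinarith
  have hk : k ∣ 45 := Dvd.intro _ hkc
  have hle : k ≤ 45 := Nat.le_of_dvd (by norm_num) hk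
  interval_cases k <;> omega


theorem char_contra {G : Type u} [Group G] [Finite G] [IsSimpleGroup G]
    (hcard : Nat.card G = 5760) (hlin : ∀ (f : G →* ℂˣ) (g : G), f g = 1)
    (x t : G) (hx : orderOf x = 5)
    (hcent : ∀ g : G, g * x = x * g → g ∈ Subgroup.zpowers x)
    (hnorm : ∀ g : G, g * x * g⁻¹ ∈ Subgroup.zpowers x → g * x * g⁻¹ = x ∨ g * x * g⁻¹ = x⁻¹)
    (ht : t * x * t⁻¹ = x⁻¹)
    (z : G) (hz : orderOf z = 2)
    (hCz : 128 ∣ Nat.card (Subgroup.centralizer ({z} : Set G))) : False := by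
  classical
  haveI : Fintype G := Fintype.ofFinite G
  haveI : Fintype (IrrCharacter G) := Fintype.ofFinite _
  haveI : Fintype ↥(Subgroup.zpowers x) := Fintype.ofFinite _
  obtain ⟨lam, hlam⟩ := exists_lam x hx
  have hpow : ∀ i, 1 ≤ i → i ≤ 4 → lam ^ i ≠ 1 := lam_pow_ne_one x hx lam hlam
  -- the pattern of the two generalized characters
  obtain ⟨χ₁, θ, ε, hε, hθinj, hχ₁1, hθ1, hθχ, hα⟩ := bsw_pattern2
    (fun k : Fin 2 =>
      indFun (Subgroup.zpowers x) (fun h => 1 - (((lam ^ (k.val + 1)) h : ℂˣ) : ℂ)))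
    (fun k => Cfsg.Agent.Helper3.indFun_isClassFunction _ _)
    (fun k χ => alpha_int _ (lam ^ (k.val + 1)) χ)
    (fun k => Cfsg.Agent.Helper3.indFun_apply_one_of_zero _ _ (by simp))
    (fun k => alpha_triv _ (lam ^ (k.val + 1))
      (hpow _ (by omega) (by have := k.isLt; omega)))
    (fun k l => by
      have hk := k.isLt
      have hl := l.isLt
      rw [bsw5_gram x t hx hcent hnorm ht lam hlam (k.val + 1) (l.val + 1) (by omega) (by omega)
        (by omega) (by omega)]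
      congr 1
      by_cases hkl : k = l
      · subst hkl; simp
      · rw [if_neg hkl, if_neg]
        intro h
        apply hkl
        ext
        omega)
  have hα1 : indFun (Subgroup.zpowers x) (fun h => 1 - (((lam ^ 1) h : ℂˣ) : ℂ))
      = fun g => 1 + (ε : ℂ) * ((χ₁ : G → ℂ) g - ((θ 0 : IrrCharacter G) : G → ℂ) g) := hα 0
  have hα2 : indFun (Subgroup.zpowers x) (fun h => 1 - (((lam ^ 2) h : ℂˣ) : ℂ))
      = fun g => 1 + (ε : ℂ) * ((χ₁ : G → ℂ) g - ((θ 1 : IrrCharacter G) : G → ℂ) g) := hα 1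
  have h3 : (fun _ : G => (1 : ℂ)) = ((Cfsg.Agent.Helper79.trivIrr G : IrrCharacter G) : G → ℂ) :=
    rfl
  have hθtriv : ∀ k, θ k ≠ Cfsg.Agent.Helper79.trivIrr G := by
    intro k h
    apply hθ1 k
    rw [h]
    rfl
  have hχtriv : χ₁ ≠ Cfsg.Agent.Helper79.trivIrr G := by
    intro h
    apply hχ₁1
    rw [h]
    rfl
  have hθ01 : θ 0 ≠ θ 1 := fun h => by
    have := hθinj h
    exact absurd this (by decide)
  -- inner products with the irreducible characters
  have hin1 : ∀ η : IrrCharacter G,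
      classInner (indFun (Subgroup.zpowers x) (fun h => 1 - (((lam ^ 1) h : ℂˣ) : ℂ))) (η : G → ℂ)
        = (((if Cfsg.Agent.Helper79.trivIrr G = η then 1 else 0)
          + ε * ((if χ₁ = η then 1 else 0) - (if θ 0 = η then 1 else 0)) : ℤ) : ℂ) := by
    intro η
    rw [hα1, classInner_pattern (fun _ => (1 : ℂ)) (χ₁ : G → ℂ)
      ((θ 0 : IrrCharacter G) : G → ℂ) (η : G → ℂ) (ε : ℂ), h3,
      Cfsg.Agent.Helper3.classInner_irr, Cfsg.Agent.Helper3.classInner_irr,
      Cfsg.Agent.Helper3.classInner_irr]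
    push_cast
    rfl
  have hin2 : ∀ η : IrrCharacter G,
      classInner (indFun (Subgroup.zpowers x) (fun h => 1 - (((lam ^ 2) h : ℂˣ) : ℂ))) (η : G → ℂ)
        = (((if Cfsg.Agent.Helper79.trivIrr G = η then 1 else 0)
          + ε * ((if χ₁ = η then 1 else 0) - (if θ 1 = η then 1 else 0)) : ℤ) : ℂ) := by
    intro η
    rw [hα2, classInner_pattern (fun _ => (1 : ℂ)) (χ₁ : G → ℂ)
      ((θ 1 : IrrCharacter G) : G → ℂ) (η : G → ℂ) (ε : ℂ), h3,
      Cfsg.Agent.Helper3.classInner_irr, Cfsg.Agent.Helper3.classInner_irr,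
      Cfsg.Agent.Helper3.classInner_irr]
    push_cast
    rfl
  have hvals := fun η : IrrCharacter G => bsw5_values x t hx ht lam hlam (η : G → ℂ)
    (Cfsg.Agent.Helper79.irr_isCharacter η) _ _ (hin1 η) (hin2 η)
  have hx1 : x ≠ 1 := by
    intro h
    rw [h, orderOf_one] at hx
    omega
  obtain ⟨y₀, hy₀def⟩ : ∃ y₀ : ↥(Subgroup.zpowers x), y₀ = ⟨x, Subgroup.mem_zpowers x⟩ := ⟨_, rfl⟩
  have hy₀x : (y₀ : G) = x := by rw [hy₀def]
  have hy₀ : y₀ ≠ 1 := by
    intro h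
    apply hx1
    rw [← hy₀x, h]
    rfl
  have heta := bsw5_eta_sum x hx lam hlam y₀ hy₀
  obtain ⟨A, hA⟩ : ∃ A : ℂ, A = (((lam ^ 1) y₀ : ℂˣ) : ℂ) + (((lam ^ 4) y₀ : ℂˣ) : ℂ) := ⟨_, rfl⟩
  obtain ⟨B, hB⟩ : ∃ B : ℂ, B = (((lam ^ 2) y₀ : ℂˣ) : ℂ) + (((lam ^ 3) y₀ : ℂˣ) : ℂ) := ⟨_, rfl⟩
  rw [← hA, ← hB] at heta
  have hxval : ∀ η : IrrCharacter G, (η : G → ℂ) x
      = -(((if Cfsg.Agent.Helper79.trivIrr G = η then 1 else 0)
          + ε * ((if χ₁ = η then 1 else 0) - (if θ 0 = η then 1 else 0)) : ℤ) : ℂ) * A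
        - (((if Cfsg.Agent.Helper79.trivIrr G = η then 1 else 0)
          + ε * ((if χ₁ = η then 1 else 0) - (if θ 1 = η then 1 else 0)) : ℤ) : ℂ) * B := by
    intro η
    have h := (hvals η).2 y₀ hy₀
    rw [← hA, ← hB, hy₀x] at h
    exact h
  have hχx : (χ₁ : G → ℂ) x = (ε : ℂ) := by
    have h := hxval χ₁
    rw [if_neg (Ne.symm hχtriv), if_pos rfl, if_neg (hθχ 0), if_neg (hθχ 1)] at h
    rw [h]
    push_cast
    linear_combination (-(ε : ℂ)) * heta
  have hθx : ((θ 0 : IrrCharacter G) : G → ℂ) x + ((θ 1 : IrrCharacter G) : G → ℂ) x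
      = -(ε : ℂ) := by
    have h0 := hxval (θ 0)
    have h1 := hxval (θ 1)
    rw [if_neg (Ne.symm (hθtriv 0)), if_neg (Ne.symm (hθχ 0)), if_pos rfl,
      if_neg (Ne.symm hθ01)] at h0
    rw [if_neg (Ne.symm (hθtriv 1)), if_neg (Ne.symm (hθχ 1)), if_neg hθ01, if_pos rfl] at h1
    rw [h0, h1]
    push_cast
    linear_combination (ε : ℂ) * heta
  have hηx : ∀ η : IrrCharacter G, η ≠ Cfsg.Agent.Helper79.trivIrr G → η ≠ χ₁ → η ≠ θ 0 →
      η ≠ θ 1 → (η : G → ℂ) x = 0 := by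
    intro η h1 h2 h3 h4
    have h := hxval η
    rw [if_neg (Ne.symm h1), if_neg (Ne.symm h2), if_neg (Ne.symm h3), if_neg (Ne.symm h4)] at h
    rw [h]
    simp
  -- degrees
  have hχ₁deg : (χ₁ : G → ℂ) 1 = (charDegree (χ₁ : G → ℂ) : ℂ) :=
    Cfsg.Agent.Helper79.isCharacter_one_eq_charDegree (Cfsg.Agent.Helper79.irr_isCharacter χ₁)
  have hθdeg : ∀ k, ((θ k : IrrCharacter G) : G → ℂ) 1
      = (charDegree ((θ k : IrrCharacter G) : G → ℂ) : ℂ) := fun k =>
    Cfsg.Agent.Helper79.isCharacter_one_eq_charDegree (Cfsg.Agent.Helper79.irr_isCharacter (θ k))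
  have hval0 : 1 + ε * ((charDegree (χ₁ : G → ℂ) : ℤ)
      - (charDegree ((θ 0 : IrrCharacter G) : G → ℂ) : ℤ)) = 0 := by
    have h0 : indFun (Subgroup.zpowers x) (fun h => 1 - (((lam ^ 1) h : ℂˣ) : ℂ)) 1 = 0 :=
      Cfsg.Agent.Helper3.indFun_apply_one_of_zero _ _ (by simp)
    rw [hα1] at h0
    beta_reduce at h0
    rw [hχ₁deg, hθdeg 0] at h0
    exact_mod_cast h0
  have hval1 : 1 + ε * ((charDegree (χ₁ : G → ℂ) : ℤ)
      - (charDegree ((θ 1 : IrrCharacter G) : G → ℂ) : ℤ)) = 0 := by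
    have h0 : indFun (Subgroup.zpowers x) (fun h => 1 - (((lam ^ 2) h : ℂˣ) : ℂ)) 1 = 0 :=
      Cfsg.Agent.Helper3.indFun_apply_one_of_zero _ _ (by simp)
    rw [hα2] at h0
    beta_reduce at h0
    rw [hχ₁deg, hθdeg 1] at h0
    exact_mod_cast h0
  obtain ⟨m, hm1, -, hf⟩ := (hvals χ₁).1
  rw [if_neg (Ne.symm hχtriv), if_pos rfl, if_neg (hθχ 0)] at hm1
  rw [if_neg (Ne.symm hχtriv), if_pos rfl, if_neg (hθχ 0), if_neg (hθχ 1)] at hf
  have hdvd := Cfsg.Agent.Helper79.irr_charDegree_dvd_card χ₁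
  have hdvd0 := Cfsg.Agent.Helper79.irr_charDegree_dvd_card (θ 0)
  rw [hcard] at hdvd hdvd0
  -- values at the involution `z`
  have hznc : ∀ y : G, y * z * y⁻¹ ∉ Subgroup.zpowers x := by
    intro y hmem
    have ho' : orderOf (y * z * y⁻¹) = 2 := by
      have h1 := MulEquiv.orderOf_eq (MulAut.conj y) z
      rw [MulAut.conj_apply] at h1
      rw [h1, hz]
    have hd := Subgroup.orderOf_dvd_natCard _ hmem
    rw [ho', Nat.card_zpowers, hx] at hd
    omega
  have hz0 : 1 + (ε : ℂ) * ((χ₁ : G → ℂ) z - ((θ 0 : IrrCharacter G) : G → ℂ) z) = 0 := by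
    have h0 := Cfsg.Agent.Helper3.indFun_eq_zero_of_not_conj (Subgroup.zpowers x)
      (fun h => 1 - (((lam ^ 1) h : ℂˣ) : ℂ)) z hznc
    rw [hα1] at h0
    exact h0
  have hz1 : 1 + (ε : ℂ) * ((χ₁ : G → ℂ) z - ((θ 1 : IrrCharacter G) : G → ℂ) z) = 0 := by
    have h0 := Cfsg.Agent.Helper3.indFun_eq_zero_of_not_conj (Subgroup.zpowers x)
      (fun h => 1 - (((lam ^ 2) h : ℂˣ) : ℂ)) z hznc
    rw [hα2] at h0
    exact h0
  obtain ⟨m₀, hm₀⟩ := Cfsg.Agent.Helper82.tc_parity (θ 0) hz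
  rw [hθdeg 0] at hm₀
  obtain ⟨τ, hτ⟩ : ∃ τ : ℤ, ((θ 0 : IrrCharacter G) : G → ℂ) z = (τ : ℂ) := by
    refine ⟨2 * (m₀ : ℤ) - (charDegree ((θ 0 : IrrCharacter G) : G → ℂ) : ℤ), ?_⟩
    push_cast
    linear_combination hm₀
  have hτle : |τ| ≤ (charDegree ((θ 0 : IrrCharacter G) : G → ℂ) : ℤ) := by
    have h := Cfsg.Agent.Helper80.isCharacter_norm_le
      (Cfsg.Agent.Helper79.irr_isCharacter (θ 0)) z
    rw [hτ, Complex.norm_intCast] at h
    exact_mod_cast h
  have he2 : (ε : ℂ) * (ε : ℂ) = 1 := by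
    rcases hε with rfl | rfl <;> norm_num
  have hχz : (χ₁ : G → ℂ) z = (τ : ℂ) - (ε : ℂ) := by
    rw [hτ] at hz0
    linear_combination (ε : ℂ) * hz0 - ((χ₁ : G → ℂ) z - (τ : ℂ)) * he2
  have hθ1z : ((θ 1 : IrrCharacter G) : G → ℂ) z = (τ : ℂ) := by
    rw [hχz] at hz1
    linear_combination (-(ε : ℂ)) * hz1 + ((τ : ℂ) - (ε : ℂ)
      - ((θ 1 : IrrCharacter G) : G → ℂ) z) * he2
  -- the class pair count
  obtain ⟨N, k, hk, hN⟩ := class_pair_count z x
  rw [hcard] at hk hN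
  obtain ⟨c, hc⟩ := hCz
  rw [hc] at hk
  have hk45 := arith_k k c hk
  have hsum : ∑ χ : IrrCharacter G,
      ((k : ℂ) * (χ : G → ℂ) z) ^ 2 * (χ : G → ℂ) x / (χ : G → ℂ) 1
      = (k : ℂ) ^ 2
        + ((k : ℂ) * ((τ : ℂ) - (ε : ℂ))) ^ 2 * (ε : ℂ) / (charDegree (χ₁ : G → ℂ) : ℂ)
        + ((k : ℂ) * (τ : ℂ)) ^ 2 * (-(ε : ℂ))
          / (charDegree ((θ 0 : IrrCharacter G) : G → ℂ) : ℂ) := by
    have hd01 : charDegree ((θ 1 : IrrCharacter G) : G → ℂ)
        = charDegree ((θ 0 : IrrCharacter G) : G → ℂ) := by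
      rcases hε with rfl | rfl <;> omega
    rw [← Finset.sum_subset (Finset.subset_univ
      ({Cfsg.Agent.Helper79.trivIrr G, χ₁, θ 0, θ 1} : Finset (IrrCharacter G)))]
    · rw [Finset.sum_insert, Finset.sum_insert, Finset.sum_pair hθ01]
      · rw [hχx, hχz, hτ, hθ1z, hχ₁deg, hθdeg 0, hθdeg 1, hd01]
        simp only [Cfsg.Agent.Helper79.trivIrr_apply]
        rw [← hθx]
        ring
      · simp only [Finset.mem_insert, Finset.mem_singleton, not_or]
        exact ⟨Ne.symm (hθχ 0), Ne.symm (hθχ 1)⟩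
      · simp only [Finset.mem_insert, Finset.mem_singleton, not_or]
        exact ⟨Ne.symm hχtriv, Ne.symm (hθtriv 0), Ne.symm (hθtriv 1)⟩
    · intro η _ hη
      simp only [Finset.mem_insert, Finset.mem_singleton, not_or] at hη
      rw [hηx η hη.1 hη.2.1 hη.2.2.1 hη.2.2.2]
      simp
  rw [hsum] at hN
  rcases hε with rfl | rfl
  · -- `ε = 1`: `χ₁` would be linear
    have hm1' : 1 ≤ m := by omega
    obtain ⟨q, rfl⟩ : ∃ q, m = q + 1 := ⟨m - 1, by omega⟩
    have e1 : charDegree (χ₁ : G → ℂ) = 5 * q + 1 := by omega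
    have e2 : charDegree ((θ 0 : IrrCharacter G) : G → ℂ) = 5 * q + 2 := by omega
    rw [e1] at hdvd
    rw [e2] at hdvd0
    have hq := arith_deg_pos q hdvd hdvd0
    have hf1 : charDegree (χ₁ : G → ℂ) = 1 := by omega
    obtain ⟨f, hf'⟩ := Cfsg.Agent.Helper80.exists_hom_of_linear χ₁ hf1
    apply hχ₁1
    rw [← hf']
    funext g
    rw [Cfsg.Agent.Helper80.homIrr_apply, hlin f g]
    simp
  · -- `ε = -1`: degrees `(4, 3)` or `(9, 8)`
    have e1 : charDegree (χ₁ : G → ℂ) = 5 * m + 4 := by omega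
    have e2 : charDegree ((θ 0 : IrrCharacter G) : G → ℂ) = 5 * m + 3 := by omega
    rw [e1] at hdvd
    rw [e2] at hdvd0
    have hm01 := arith_deg_neg m hdvd hdvd0
    obtain ⟨hl, hu⟩ := abs_le.mp hτle
    have hker : τ = (charDegree ((θ 0 : IrrCharacter G) : G → ℂ) : ℤ) → False := by
      intro hτd
      have hzker : ((θ 0 : IrrCharacter G) : G → ℂ) z = ((θ 0 : IrrCharacter G) : G → ℂ) 1 := by
        rw [hτ, hθdeg 0, hτd]
        push_cast
        rfl
      have hcardker := Cfsg.Agent.Helper79.irr_card_ker_of_isSimpleGroup (θ 0) (hθtriv 0)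
      have hsub := (Nat.card_eq_one_iff_unique.mp hcardker).1
      have h12 := @Subsingleton.elim _ hsub
        (⟨z, hzker⟩ : {g : G // ((θ 0 : IrrCharacter G) : G → ℂ) g
          = ((θ 0 : IrrCharacter G) : G → ℂ) 1}) ⟨1, rfl⟩
      have hz1 : z = 1 := congrArg Subtype.val h12
      rw [hz1, orderOf_one] at hz
      omega
    rw [e1, e2] at hN
    rw [e2] at hl hu hker
    rcases hm01 with rfl | rfl
    · have hint : (69120 : ℤ) * N = (k : ℤ) ^ 2 * (τ - 3) ^ 2 := by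
        have h' : (((69120 : ℤ) * N : ℤ) : ℂ) = (((k : ℤ) ^ 2 * (τ - 3) ^ 2 : ℤ) : ℂ) := by
          push_cast
          push_cast at hN
          linear_combination 12 * hN
        exact_mod_cast h'
      apply hker
      push_cast at hl hu ⊢
      rcases hk45 with rfl | rfl | rfl | rfl | rfl | rfl <;> interval_cases τ <;>
        first | rfl | (exfalso; norm_num at hint <;> omega)
    · have hint : (414720 : ℤ) * N = (k : ℤ) ^ 2 * (τ - 8) ^ 2 := by
        have h' : (((414720 : ℤ) * N : ℤ) : ℂ) = (((k : ℤ) ^ 2 * (τ - 8) ^ 2 : ℤ) : ℂ) := by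
          push_cast
          push_cast at hN
          linear_combination 72 * hN
        exact_mod_cast h'
      apply hker
      push_cast at hl hu ⊢
      rcases hk45 with rfl | rfl | rfl | rfl | rfl | rfl <;> interval_cases τ <;>
        first | rfl | (exfalso; norm_num at hint <;> omega)

end Ord5760

end Cfsg.Agent.Helper8
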